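import Mathlib

/-! The order of an abelian permutation group of prime power order in terms of its rank. -/

set_option autoImplicit false

namespace Cfsg.Lib.Recog.AbelianPerm

theorem prod_mul_pow_le : ∀ (l : List ℕ), l.prod * l.length ^ l.length ≤ l.sum ^ l.length := by
  intro l
  induction l with
  | nil => simp
  | cons a l ih =>
    simp only [List.prod_cons, List.length_cons, List.sum_cons]
    rcases Nat.eq_zero_or_pos l.length with h0 | h0
    · rw [List.length_eq_zero_iff] at h0
      subst h0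
      simp
    rcases Nat.eq_zero_or_pos l.sum with hS | hS
    · rw [hS, zero_pow h0.ne'] at ih
      have hp : l.prod = 0 := by
        rcases Nat.mul_eq_zero.mp (Nat.le_zero.mp ih) with h | h
        · exact h
        · exact absurd h (pow_ne_zero _ h0.ne')
      simp [hp]
    set j := l.length with hj
    set S := l.sum with hS'
    have hj' : (0 : ℝ) < j := by exact_mod_cast h0
    have hS0 : (0 : ℝ) < S := by exact_mod_cast hS
    set h : ℝ := (((a : ℝ) + S) / ((j : ℝ) + 1)) / ((S : ℝ) / j) - 1 with hh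
    have hpos : (0 : ℝ) ≤ (((a : ℝ) + S) / ((j : ℝ) + 1)) / ((S : ℝ) / j) := by positivity
    have hb := one_add_mul_le_pow (a := h) (by rw [hh]; linarith) (j + 1)
    have hl : 1 + ((j + 1 : ℕ) : ℝ) * h = (a : ℝ) * j / S := by
      rw [hh]; push_cast; field_simp; ring
    rw [hl, show 1 + h = (((a : ℝ) + S) / ((j : ℝ) + 1)) / ((S : ℝ) / j) by rw [hh]; ring, div_pow, div_pow,
      div_pow, div_div_div_eq, div_le_div_iff₀ hS0 (by positivity)] at hb
    have key : (a : ℝ) * (S : ℝ) ^ j * ((j : ℝ) + 1) ^ (j + 1) ≤ ((a : ℝ) + S) ^ (j + 1) * (j : ℝ) ^ j := by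
      have h2 : ((a : ℝ) * S ^ j * ((j : ℝ) + 1) ^ (j + 1)) * ((j : ℝ) * S) ≤
          (((a : ℝ) + S) ^ (j + 1) * (j : ℝ) ^ j) * ((j : ℝ) * S) := by
        simp only [pow_succ] at hb ⊢
        nlinarith [hb]
      exact le_of_mul_le_mul_right h2 (mul_pos hj' hS0)
    have ih' : (l.prod : ℝ) * (j : ℝ) ^ j ≤ (S : ℝ) ^ j := by exact_mod_cast ih
    have fin : ((a : ℝ) * l.prod * ((j : ℝ) + 1) ^ (j + 1)) * (j : ℝ) ^ j ≤
        ((a : ℝ) + S) ^ (j + 1) * (j : ℝ) ^ j := by
      refine le_trans ?_ key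
      calc ((a : ℝ) * l.prod * ((j : ℝ) + 1) ^ (j + 1)) * (j : ℝ) ^ j
          = ((a : ℝ) * ((j : ℝ) + 1) ^ (j + 1)) * ((l.prod : ℝ) * (j : ℝ) ^ j) := by ring
        _ ≤ ((a : ℝ) * ((j : ℝ) + 1) ^ (j + 1)) * (S : ℝ) ^ j := mul_le_mul_of_nonneg_left ih' (by positivity)
        _ = (a : ℝ) * (S : ℝ) ^ j * ((j : ℝ) + 1) ^ (j + 1) := by ring
    have := le_of_mul_le_mul_right fin (by positivity)
    exact_mod_cast this

theorem split_sum {p : ℕ} (hp : 2 ≤ p) (m : ℕ) (hm : 1 ≤ m) : ∀ j : ℕ, j * p + p ^ m ≤ p ^ (m + j) := by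
  intro j
  induction j with
  | zero => simp
  | succ j ih =>
    have h1 : p ^ 1 ≤ p ^ (m + j) := Nat.pow_le_pow_right (by omega) (by omega)
    rw [pow_one] at h1
    have h2 : 2 * p ^ (m + j) ≤ p * p ^ (m + j) := Nat.mul_le_mul_right _ hp
    have h3 : p ^ (m + (j + 1)) = p * p ^ (m + j) := by rw [← add_assoc, pow_succ']
    rw [h3, Nat.succ_mul]
    omega

variable {Ω : Type*} [Fintype Ω] [DecidableEq Ω]

/-- The points moved by a subgroup. -/
noncomputable def moved (B : Subgroup (Equiv.Perm Ω)) : Finset Ω :=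
  open Classical in Finset.univ.filter fun ω => ∃ b ∈ B, b ω ≠ ω

theorem exists_list {p : ℕ} (hp : p.Prime) : ∀ (n : ℕ) (B : Subgroup (Equiv.Perm Ω)), Nat.card B ≤ n →
    IsPGroup p B → (∀ x ∈ B, ∀ y ∈ B, x * y = y * x) → ∀ r : ℕ, Nat.card {x : B // x ^ p = 1} = p ^ r →
    ∃ l : List ℕ, l.length = r ∧ Nat.card B ≤ l.prod ∧ l.sum ≤ (moved B).card := by
  classical
  intro n
  induction n with
  | zero =>
    intro B hB
    have := Nat.card_pos (α := B)
    omega
  | succ n ih =>
    intro B hB hBp hcomm r hr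
    have := Fact.mk hp
    by_cases hbot : B = ⊥
    · subst hbot
      have h1 : Nat.card {x : (⊥ : Subgroup (Equiv.Perm Ω)) // x ^ p = 1} = 1 := by
        rw [Nat.card_eq_one_iff_unique]
        exact ⟨⟨fun a b => Subsingleton.elim _ _⟩, ⟨⟨1, one_pow p⟩⟩⟩
      rw [h1] at hr
      have hr0 : r = 0 := (Nat.pow_eq_one.mp hr.symm).resolve_left hp.one_lt.ne'
      exact ⟨[], by simp [hr0], by simp, by simp⟩
    have hnt : Nontrivial B := (Subgroup.nontrivial_iff_ne_bot B).mpr hbot
    obtain ⟨j, hj0, hj⟩ := hBp.nontrivial_iff_card.mp hnt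
    obtain ⟨x, hx⟩ := exists_prime_orderOf_dvd_card' (G := B) p (hj ▸ dvd_pow_self p hj0.ne')
    obtain ⟨b, hb⟩ : ∃ b : Ω, (x : Equiv.Perm Ω) b ≠ b := by
      by_contra hall
      push Not at hall
      rw [show x = 1 from Subtype.ext (Equiv.ext hall), orderOf_one] at hx
      exact hp.one_lt.ne hx
    set B' : Subgroup (Equiv.Perm Ω) := B ⊓ MulAction.stabilizer (Equiv.Perm Ω) b with hB'
    have hO : Nat.card B = Nat.card B' * Nat.card (MulAction.orbit B b) := by
      rw [Nat.card_coe_set_eq, ← MulAction.index_stabilizer, ← (MulAction.stabilizer B b).card_mul_index]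
      congr 1
      exact Nat.card_congr ⟨fun u => ⟨(u : B), (u : B).2, u.2⟩, fun u => ⟨⟨u, u.2.1⟩, u.2.2⟩,
        fun _ => rfl, fun _ => rfl⟩
    obtain ⟨e, -, he⟩ := (Nat.dvd_prime_pow hp).mp (hj ▸ Dvd.intro_left _ hO.symm)
    have he1 : 1 ≤ e := by
      by_contra h
      rw [show e = 0 by omega, pow_zero, Nat.card_eq_one_iff_unique] at he
      exact hb (congrArg Subtype.val (he.1.elim (⟨x • b, x, rfl⟩ : MulAction.orbit B b)
        ⟨b, MulAction.mem_orbit_self b⟩))
    have hlt : Nat.card B' ≤ n := by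
      have : Nat.card B' < Nat.card B := by
        rw [hO, he]
        exact lt_mul_of_one_lt_right Nat.card_pos (Nat.one_lt_pow (by omega) hp.one_lt)
      omega
    have hpB' : IsPGroup p B' := hBp.to_le inf_le_left
    -- the ranks
    let T : Subgroup B :=
      { carrier := {u | u ^ p = 1}
        mul_mem' := fun {u v} hu hv => by
          show (u * v) ^ p = 1
          rw [Commute.mul_pow (Subtype.ext (hcomm _ u.2 _ v.2)), hu, hv, one_mul]
        one_mem' := one_pow p
        inv_mem' := fun {u} hu => by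
          show u⁻¹ ^ p = 1
          rw [inv_pow, hu, inv_one] }
    have hT : Nat.card T = p ^ r := hr
    let S : Subgroup B := T ⊓ MulAction.stabilizer B b
    have hS' : Nat.card S = Nat.card {u : B' // u ^ p = 1} := Nat.card_congr
      ⟨fun u => ⟨⟨(u : B), (u : B).2, u.2.2⟩, Subtype.ext (congrArg Subtype.val (u.2.1 : (u : B) ^ p = 1) : _)⟩,
        fun u => ⟨⟨(u : B'), (u : B').2.1⟩, Subtype.ext (congrArg Subtype.val u.2 : _), (u : B').2.2⟩,
        fun _ => rfl, fun _ => rfl⟩
    obtain ⟨r', hr'r, hr'⟩ := (Nat.dvd_prime_pow hp).mp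
      (hT ▸ Subgroup.card_dvd_of_le (inf_le_left : S ≤ T))
    have hne : r' ≠ r := fun h => by
      have := Subgroup.eq_of_le_of_card_ge (inf_le_left : S ≤ T) (by rw [hr', h, hT])
      have hxT : x ∈ T := show x ^ p = 1 from hx ▸ pow_orderOf_eq_one x
      rw [← this] at hxT
      exact hb hxT.2
    have hle : p ^ r ≤ p ^ r' * p ^ e := by
      rw [← hT, ← hr', ← he, ← (S.subgroupOf T).card_mul_index,
        Nat.card_congr (Subgroup.subgroupOfEquivOfLe (inf_le_left : S ≤ T)).toEquiv]
      refine Nat.mul_le_mul_left _ ?_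
      rw [show S.subgroupOf T = MulAction.stabilizer T b from ?_, MulAction.index_stabilizer, ← Nat.card_coe_set_eq]
      · refine Nat.card_le_card_of_injective (fun u => ⟨u.1, ?_⟩) fun u v h => Subtype.ext (congrArg (fun w : MulAction.orbit B b => (w : Ω)) h)
        obtain ⟨t, ht⟩ := u.2
        exact ⟨(t : B), ht⟩
      · ext u
        exact ⟨fun h => h.2, fun h => ⟨u.2, h⟩⟩
    rw [← pow_add, Nat.pow_le_pow_iff_right hp.one_lt] at hle
    obtain ⟨l, hl, hlp, hls⟩ := ih B' hlt hpB' (fun u hu v hv => hcomm u hu.1 v hv.1) r' (hS'.symm.trans hr')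
    refine ⟨List.replicate (r - r' - 1) p ++ (p ^ (e - (r - r') + 1) :: l), ?_, ?_, ?_⟩
    · simp only [List.length_append, List.length_replicate, List.length_cons, hl]
      omega
    · simp only [List.prod_append, List.prod_replicate, List.prod_cons]
      rw [hO, he, ← mul_assoc, ← pow_add, show r - r' - 1 + (e - (r - r') + 1) = e by omega, mul_comm]
      exact Nat.mul_le_mul_left _ hlp
    · simp only [List.sum_append, List.sum_replicate, List.sum_cons, smul_eq_mul]
      have hs := split_sum hp.two_le (e - (r - r') + 1) (by omega) (r - r' - 1)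
      rw [show e - (r - r') + 1 + (r - r' - 1) = e by omega, ← he] at hs
      have hsub : moved B' ∪ (MulAction.orbit B b).toFinset ⊆ moved B := by
        intro ω hω
        rcases Finset.mem_union.mp hω with h | h
        · obtain ⟨u, hu, hune⟩ := (Finset.mem_filter.mp h).2
          exact Finset.mem_filter.mpr ⟨Finset.mem_univ _, u, hu.1, hune⟩
        · obtain ⟨u, rfl⟩ := Set.mem_toFinset.mp h
          refine Finset.mem_filter.mpr ⟨Finset.mem_univ _, x, x.2, fun h' => hb ?_⟩
          have h'' : ((x : Equiv.Perm Ω) * (u : Equiv.Perm Ω)) b = (u : Equiv.Perm Ω) b := h'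
          rw [hcomm _ x.2 _ u.2] at h''
          exact (u : Equiv.Perm Ω).injective h''
      have hdis : Disjoint (moved B') (MulAction.orbit B b).toFinset := by
        rw [Finset.disjoint_left]
        intro ω hω hω'
        obtain ⟨v, hv, hvne⟩ := (Finset.mem_filter.mp hω).2
        obtain ⟨u, rfl⟩ := Set.mem_toFinset.mp hω'
        refine hvne ?_
        show ((v : Equiv.Perm Ω) * (u : Equiv.Perm Ω)) b = (u : Equiv.Perm Ω) b
        rw [hcomm _ hv.1 _ u.2]
        exact congrArg (u : Equiv.Perm Ω) hv.2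
      have hc := Finset.card_le_card hsub
      rw [Finset.card_union_of_disjoint hdis, ← Set.ncard_eq_toFinset_card', ← Nat.card_coe_set_eq] at hc
      omega

end Cfsg.Lib.Recog.AbelianPerm
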