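import Mathlib
import Cfsg.Agent.Lib.Recog.AffineSL2

/-! The prime graph of `PSL(2, 7)` agrees with that of groups over the field of eight elements. -/

set_option autoImplicit false

namespace Cfsg.Lib.Recog.AffineEight

open Matrix AffineSL2

/-- No element has order a product of two distinct primes, given the divisibility. -/
theorem small {n : ℕ} (h : n ∣ 2 ∨ n ∣ 7 ∨ n ∣ 9 ∨ n ∣ 3 ∨ n ∣ 4) :
    (n.Prime → n = 2 ∨ n = 3 ∨ n = 7) ∧
      ∀ p q : ℕ, p.Prime → q.Prime → p ≠ q → n ≠ p * q := by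
  obtain ⟨r, k, hr, hn, hr'⟩ : ∃ r k, r.Prime ∧ n ∣ r ^ k ∧ (r = 2 ∨ r = 3 ∨ r = 7) := by
    rcases h with h | h | h | h | h
    · exact ⟨2, 1, Nat.prime_two, by simpa using h, Or.inl rfl⟩
    · exact ⟨7, 1, by norm_num, by simpa using h, Or.inr (Or.inr rfl)⟩
    · exact ⟨3, 2, Nat.prime_three, h, Or.inr (Or.inl rfl)⟩
    · exact ⟨3, 1, Nat.prime_three, by simpa using h, Or.inr (Or.inl rfl)⟩
    · exact ⟨2, 2, Nat.prime_two, h, Or.inl rfl⟩
  constructor
  · intro hp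
    rw [(Nat.prime_dvd_prime_iff_eq hp hr).1 (hp.dvd_of_dvd_pow hn)]
    exact hr'
  · intro p q hp hq hpq he
    subst he
    exact hpq (((Nat.prime_dvd_prime_iff_eq hp hr).1 (hp.dvd_of_dvd_pow ((dvd_mul_right p q).trans hn))).trans
      ((Nat.prime_dvd_prime_iff_eq hq hr).1 (hq.dvd_of_dvd_pow ((dvd_mul_left q p).trans hn))).symm)

local instance : Fact (Nat.Prime 7) := ⟨by norm_num⟩

theorem key_seven : ∀ t : ZMod 7, ∃ n ∈ [2, 3, 4, 7],
    (uv t n).1 = 0 ∧ ((uv t n).2 = 1 ∨ (uv t n).2 = -1) := by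
  decide +kernel

theorem key_exists : ((uv (0 : ZMod 7) 2).1 = 0 ∧ ((uv (0 : ZMod 7) 2).2 = 1 ∨ (uv (0 : ZMod 7) 2).2 = -1)) ∧
    ((uv (1 : ZMod 7) 3).1 = 0 ∧ ((uv (1 : ZMod 7) 3).2 = 1 ∨ (uv (1 : ZMod 7) 3).2 = -1)) ∧
    ((uv (2 : ZMod 7) 7).1 = 0 ∧ ((uv (2 : ZMod 7) 7).2 = 1 ∨ (uv (2 : ZMod 7) 7).2 = -1)) := by
  decide +kernel

variable {F : Type*} [Field F] [Fintype F]

theorem uv_map {K : Type*} [Field K] (f : K →+* F) (t : K) (n : ℕ) :
    uv (f t) n = (f (uv t n).1, f (uv t n).2) := by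
  induction n with
  | zero => simp [uv]
  | succ n ih => simp [uv, ih]

theorem charP_seven (hF : Fintype.card F = 7) : CharP F 7 := by
  refine (CharP.charP_iff_prime_eq_zero (by norm_num)).2 ?_
  have h := Nat.cast_card_eq_zero F
  rwa [hF] at h

theorem seven_orders (hF : Fintype.card F = 7) (x : ProjectiveSpecialLinearGroup (Fin 2) F) :
    orderOf x ∣ 2 ∨ orderOf x ∣ 7 ∨ orderOf x ∣ 9 ∨ orderOf x ∣ 3 ∨ orderOf x ∣ 4 := by
  haveI := charP_seven hF
  obtain ⟨A, rfl⟩ := QuotientGroup.mk'_surjective _ x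
  let f : ZMod 7 →+* F := ZMod.castHom dvd_rfl F
  have hf : Function.Surjective f := ((Fintype.bijective_iff_injective_and_card f).2
    ⟨f.injective, by rw [hF, ZMod.card]⟩).2
  obtain ⟨t, ht⟩ := hf (A 0 0 + A 1 1)
  obtain ⟨n, hn, h1, h2⟩ := key_seven t
  have hpow : QuotientGroup.mk' (Subgroup.center (SpecialLinearGroup (Fin 2) F)) A ^ n = 1 := by
    rw [← map_pow, ← MonoidHom.mem_ker, QuotientGroup.ker_mk', Matrix.SpecialLinearGroup.mem_center_iff]
    have e : (A : Matrix (Fin 2) (Fin 2) F) ^ n = Matrix.scalar (Fin 2) (f (uv t n).2) := by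
      rw [pow_eq, ← ht, uv_map, h1, map_zero, zero_smul, zero_add]
      exact smul_one_eq_diagonal _
    refine ⟨f (uv t n).2, ?_, ?_⟩
    · rcases h2 with h | h <;> simp [h]
    · exact e.symm.trans (Matrix.SpecialLinearGroup.coe_pow A n).symm
  have := orderOf_dvd_of_pow_eq_one hpow
  fin_cases hn
  · exact Or.inl this
  · exact Or.inr (Or.inr (Or.inr (Or.inl this)))
  · exact Or.inr (Or.inr (Or.inr (Or.inr this)))
  · exact Or.inr (Or.inl this)

theorem seven_exists (hF : Fintype.card F = 7) (r : ℕ) (hr : r = 2 ∨ r = 3 ∨ r = 7) :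
    ∃ x : ProjectiveSpecialLinearGroup (Fin 2) F, orderOf x = r := by
  haveI := charP_seven hF
  let f : ZMod 7 →+* F := ZMod.castHom dvd_rfl F
  have hrp : r.Prime := by rcases hr with rfl | rfl | rfl <;> norm_num
  have := Fact.mk hrp
  obtain ⟨t, hu, hv⟩ : ∃ t : ZMod 7, (uv t r).1 = 0 ∧ ((uv t r).2 = 1 ∨ (uv t r).2 = -1) := by
    rcases hr with rfl | rfl | rfl
    · exact ⟨0, key_exists.1⟩
    · exact ⟨1, key_exists.2.1⟩
    · exact ⟨2, key_exists.2.2⟩
  let A : SpecialLinearGroup (Fin 2) F := ⟨!![0, -1; 1, f t], by simp [det_fin_two_of]⟩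
  refine ⟨QuotientGroup.mk' _ A, orderOf_eq_prime ?_ ?_⟩
  · rw [← map_pow, ← MonoidHom.mem_ker, QuotientGroup.ker_mk', Matrix.SpecialLinearGroup.mem_center_iff]
    have e : (A : Matrix (Fin 2) (Fin 2) F) ^ r = Matrix.scalar (Fin 2) (f (uv t r).2) := by
      rw [pow_eq, show A 0 0 + A 1 1 = f t by simp [A], uv_map, hu, map_zero, zero_smul, zero_add]
      exact smul_one_eq_diagonal _
    refine ⟨f (uv t r).2, ?_, ?_⟩
    · rcases hv with h | h <;> simp [h]
    · exact e.symm.trans (Matrix.SpecialLinearGroup.coe_pow A r).symm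
  · intro h
    rw [← MonoidHom.mem_ker, QuotientGroup.ker_mk', Matrix.SpecialLinearGroup.mem_center_iff] at h
    obtain ⟨c, -, hc⟩ := h
    have := congrFun (congrFun hc 1) 0
    simp [A] at this

theorem eight_orders (hF : Fintype.card F = 8) [CharP F 2] (A : SpecialLinearGroup (Fin 2) F) :
    orderOf A ∣ 2 ∨ orderOf A ∣ 7 ∨ orderOf A ∣ 9 := by
  have h2 : (2 : F) = 0 := CharTwo.two_eq_zero
  obtain ⟨t, ht⟩ : ∃ t, t = A 0 0 + A 1 1 := ⟨_, rfl⟩
  by_cases h0 : t = 0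
  · exact Or.inl (orderOf_dvd_of_pow_eq_one (sq_eq_one_of_trace A (ht ▸ h0)))
  have ht7 : t ^ 7 = 1 := by
    have := FiniteField.pow_card_sub_one_eq_one t h0
    rwa [hF] at this
  by_cases h3 : t ^ 3 + t ^ 2 + 1 = 0
  · refine Or.inr (Or.inl (orderOf_dvd_of_pow_eq_one (pow_eq_one_of_uv A 7 ?_ ?_)))
    · simp only [uv, ← ht]
      linear_combination (t ^ 3 + t ^ 2 + 1) * h3 - (t ^ 5 + 3 * t ^ 4 + t ^ 3 - 2 * t ^ 2 + 1) * h2
    · simp only [uv, ← ht]
      linear_combination (-t ^ 2 + t - 1) * h3 + (2 * t ^ 3 + t ^ 2 - 2 * t) * h2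
  · refine Or.inr (Or.inr (orderOf_dvd_of_pow_eq_one (pow_eq_one_of_uv A 9 ?_ ?_)))
    · have hz : (t - 1) * (t ^ 3 + t + 1) = 0 := by
        have h : ((t - 1) * (t ^ 3 + t + 1)) * (t ^ 3 + t ^ 2 + 1) = 0 := by
          linear_combination ht7 + t ^ 3 * (t - 1) * h2
        exact (mul_eq_zero.1 h).resolve_right h3
      simp only [uv, ← ht]
      have h8 : t ^ 8 = t := by linear_combination t * ht7
      linear_combination (t ^ 2 + t + 1) * hz + h8 + (-4 * t ^ 6 + 7 * t ^ 4 - 5 * t ^ 2 + t + 1) * h2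
    · simp only [uv, ← ht]
      linear_combination (-1 : F) * ht7 + (3 * t ^ 5 - 5 * t ^ 3 + 2 * t - 1) * h2

theorem eight_exists (hF : Fintype.card F = 8) [CharP F 2] (r : ℕ) (hr : r = 2 ∨ r = 3 ∨ r = 7) :
    ∃ A : SpecialLinearGroup (Fin 2) F, orderOf A = r := by
  rcases hr with rfl | rfl | rfl
  · exact ⟨unip, orderOf_unip⟩
  · have := Fact.mk Nat.prime_three
    let A : SpecialLinearGroup (Fin 2) F := ⟨!![0, -1; 1, 1], by simp [det_fin_two_of]⟩
    have ha : A 0 0 + A 1 1 = 1 := by simp [A]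
    refine ⟨A, orderOf_eq_prime (pow_eq_one_of_uv A 3 ?_ ?_) ?_⟩
    · simp only [uv, ha]; ring
    · simp only [uv, ha]; linear_combination (-1 : F) * CharTwo.two_eq_zero (R := F)
    · intro h
      have := congrArg (fun B : SpecialLinearGroup (Fin 2) F => B 1 0) h
      simp [A] at this
  · have : Fact (Nat.Prime 7) := ⟨by norm_num⟩
    obtain ⟨u, hu⟩ := exists_prime_orderOf_dvd_card' (G := Fˣ) 7 (by
      rw [Nat.card_units, Nat.card_eq_fintype_card, hF])
    let D : Fˣ →* SpecialLinearGroup (Fin 2) F :=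
      { toFun := fun x => ⟨!![(x : F), 0; 0, ((x⁻¹ : Fˣ) : F)], by simp [det_fin_two_of]⟩
        map_one' := by ext i j; fin_cases i <;> fin_cases j <;> simp
        map_mul' := fun x y => by
          refine Subtype.ext ?_
          show _ = (_ : Matrix (Fin 2) (Fin 2) F) * _
          ext i j
          fin_cases i <;> fin_cases j <;> simp [Matrix.mul_apply, Fin.sum_univ_two, mul_comm] }
    have hD : Function.Injective D := fun x y h => Units.ext (by
      exact congrFun (congrFun (congrArg Subtype.val h) 0) 0)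
    exact ⟨D u, by rw [orderOf_injective D hD, hu]⟩

end Cfsg.Lib.Recog.AffineEight
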