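import Mathlib
import Cfsg.Prelude.Def_Perm

/-! Two-closed affine groups on a line of prime order. -/

set_option autoImplicit false

namespace Cfsg.Lib.Recog.AffineLine

variable {p : ℕ} [Fact p.Prime]

open Polynomial in
/-- A permutation whose difference quotients have `d`-th power one is affine. -/
theorem affine_of_pow (σ : Equiv.Perm (ZMod p)) {d : ℕ} (hd : 0 < d) (hdp : 2 * d ≤ p - 1)
    (h : ∀ x y : ZMod p, (σ x - σ y) ^ d = (x - y) ^ d) :
    ∃ a b : ZMod p, ∀ x, σ x = a * x + b := by
  classical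
  have hp : p.Prime := Fact.out
  have h2 := hp.two_le
  set V : Submodule (ZMod p) (ZMod p → ZMod p) :=
    (Polynomial.degreeLE (ZMod p) (d : ℕ)).map
      ((Polynomial.aeval (id : ZMod p → ZMod p)).toLinearMap) with hV
  have hmem : ∀ P : (ZMod p)[X], P.natDegree ≤ d → (fun x => P.eval x) ∈ V := fun P hP => by
    refine ⟨P, Polynomial.mem_degreeLE.mpr (Polynomial.natDegree_le_iff_degree_le.mp hP), ?_⟩
    funext x
    show (Polynomial.aeval (id : ZMod p → ZMod p) P) x = P.eval x
    rw [Polynomial.aeval_pi_apply]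
    simp
  have hV' : ∀ f ∈ V, ∃ P : (ZMod p)[X], P.natDegree ≤ d ∧ ∀ x, f x = P.eval x := by
    rintro f ⟨P, hP, rfl⟩
    refine ⟨P, Polynomial.natDegree_le_iff_degree_le.mpr (Polynomial.mem_degreeLE.mp hP), fun x => ?_⟩
    show (Polynomial.aeval (id : ZMod p → ZMod p) P) x = P.eval x
    rw [Polynomial.aeval_pi_apply]
    simp
  -- powers of the function lie in the space
  have hpow : ∀ j ≤ d, (fun x => σ x ^ j) ∈ V := by
    intro j hj
    let c : Fin (d + 1) → ZMod p := fun k => -σ ((k : ℕ) : ZMod p)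
    have hc : Function.Injective c := fun k k' e => by
      have e' := σ.injective (neg_injective e)
      rw [ZMod.natCast_eq_natCast_iff'] at e'
      have hk := k.2
      have hk' := k'.2
      rw [Nat.mod_eq_of_lt (by omega), Nat.mod_eq_of_lt (by omega)] at e'
      exact Fin.ext e'
    set M : Matrix (Fin (d + 1)) (Fin (d + 1)) (ZMod p) := (Matrix.vandermonde c).transpose with hM
    have hdet : IsUnit M.det := by
      rw [hM, Matrix.det_transpose, isUnit_iff_ne_zero]
      exact Matrix.det_vandermonde_ne_zero_iff.mpr hc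
    have hchoose : ((d.choose j : ℕ) : ZMod p) ≠ 0 := by
      rw [Ne, ZMod.natCast_eq_zero_iff]
      exact fun hdvd => (not_le.mpr (show d < p by omega))
        ((Nat.Prime.dvd_factorial hp).mp (hdvd.trans ⟨j.factorial * (d - j).factorial, by
          rw [← Nat.choose_mul_factorial_mul_factorial hj]; ring⟩))
    set v : Fin (d + 1) → ZMod p := Pi.single ⟨d - j, by omega⟩ ((d.choose j : ℕ) : ZMod p)⁻¹ with hv
    set a : Fin (d + 1) → ZMod p := M⁻¹.mulVec v with ha
    have hMa : ∀ i : Fin (d + 1), ∑ k, a k * c k ^ (i : ℕ) = v i := fun i => by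
      have : M.mulVec a = v := by
        rw [ha, Matrix.mulVec_mulVec, Matrix.mul_nonsing_inv _ hdet, Matrix.one_mulVec]
      rw [← congrFun this i]
      simp only [Matrix.mulVec, dotProduct, hM, Matrix.transpose_apply, Matrix.vandermonde_apply]
      exact Finset.sum_congr rfl fun k _ => mul_comm _ _
    have key : (fun x => σ x ^ j) = ∑ k, a k • fun x => (x - ((k : ℕ) : ZMod p)) ^ d := by
      funext x
      simp only [Finset.sum_apply, Pi.smul_apply, smul_eq_mul]
      rw [Finset.sum_congr rfl fun k _ => by rw [← h x ((k : ℕ) : ZMod p), sub_eq_add_neg, add_pow,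
        Finset.mul_sum], Finset.sum_comm, Finset.sum_eq_single j]
      · have hij := hMa ⟨d - j, by omega⟩
        rw [hv, Pi.single_eq_same] at hij
        simp only at hij
        rw [Finset.sum_congr rfl fun k _ => show a k * (σ x ^ j * (-σ ((k : ℕ) : ZMod p)) ^ (d - j) * (d.choose j : ZMod p)) =
          σ x ^ j * (d.choose j : ZMod p) * (a k * c k ^ (d - j)) by ring, ← Finset.mul_sum, hij,
          mul_assoc, mul_inv_cancel₀ hchoose, mul_one]
      · intro i hi hne
        rw [Finset.mem_range] at hi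
        have hij := hMa ⟨d - i, by omega⟩
        rw [hv, Pi.single_eq_of_ne (by simp only [Ne, Fin.mk.injEq]; omega)] at hij
        simp only at hij
        rw [Finset.sum_congr rfl fun k _ => show a k * (σ x ^ i * (-σ ((k : ℕ) : ZMod p)) ^ (d - i) * (d.choose i : ZMod p)) =
          σ x ^ i * (d.choose i : ZMod p) * (a k * c k ^ (d - i)) by ring, ← Finset.mul_sum, hij, mul_zero]
      · intro hj'
        exact absurd (Finset.mem_range.mpr (by omega)) hj'
    rw [key]
    refine Submodule.sum_mem _ fun k _ => Submodule.smul_mem _ _ ?_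
    have hh := hmem ((X - C ((k : ℕ) : ZMod p)) ^ d) (by
      rw [Polynomial.natDegree_pow, Polynomial.natDegree_X_sub_C, mul_one])
    simpa using hh
  obtain ⟨P, hP, hPσ⟩ := hV' _ (hpow 1 hd)
  simp only [pow_one] at hPσ
  by_cases he : P.natDegree ≤ 1
  · exact ⟨P.coeff 1, P.coeff 0, fun x => by
      rw [hPσ x]
      conv_lhs => rw [Polynomial.eq_X_add_C_of_natDegree_le_one he]
      simp⟩
  exfalso
  set e := P.natDegree with he'
  set j := d / e + 1 with hj
  have hje : d < e * j := by
    rw [hj]; exact Nat.lt_mul_div_succ d (by omega)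
  have hje' : e * j ≤ d + e := by
    have h1 := Nat.mul_div_le d e
    rw [hj, Nat.mul_add, Nat.mul_one]
    omega
  have hjd : j ≤ d := by
    have h1 : d / e < d := Nat.div_lt_self hd (by omega)
    omega
  obtain ⟨R, hR, hRσ⟩ := hV' _ (hpow j hjd)
  have heq : P ^ j = R := by
    refine Polynomial.eq_of_natDegree_lt_card_of_eval_eq' _ _ (Finset.univ : Finset (ZMod p)) (fun x _ => ?_) ?_
    · rw [Polynomial.eval_pow, ← hPσ, ← hRσ]
    · rw [Finset.card_univ, ZMod.card, Polynomial.natDegree_pow, ← he', mul_comm]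
      exact max_lt (by omega) (by omega)
  have := congrArg Polynomial.natDegree heq
  rw [Polynomial.natDegree_pow, ← he', mul_comm] at this
  omega

/-- A proper transitive affine group on a line of prime order is two-closed. -/
theorem mem_of_two_closed (G : Subgroup (Equiv.Perm (ZMod p))) (hG : G ≤ Cfsg.affineGroup (ZMod p))
    (htrans : ∀ b : ZMod p, ∃ g ∈ G, ∀ x, g x = x + b) (hne : G ≠ Cfsg.affineGroup (ZMod p))
    (σ : Equiv.Perm (ZMod p)) (hσ : ∀ t : Fin 2 → ZMod p, ∃ g ∈ G, ∀ i, σ (t i) = g (t i)) : σ ∈ G := by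
  classical
  let A : Subgroup (ZMod p)ˣ :=
    { carrier := {u | ∃ g ∈ G, ∃ b, ∀ x, g x = (u : ZMod p) * x + b}
      mul_mem' := fun {u v} hu hv => by
        obtain ⟨g, hg, b, hgb⟩ := hu
        obtain ⟨k, hk, c, hkc⟩ := hv
        exact ⟨g * k, G.mul_mem hg hk, (u : ZMod p) * c + b, fun x => by
          rw [Equiv.Perm.mul_apply, hgb, hkc, Units.val_mul]; ring⟩
      one_mem' := ⟨1, G.one_mem, 0, fun x => by simp⟩
      inv_mem' := fun {u} hu => by
        obtain ⟨g, hg, b, hgb⟩ := hu
        exact ⟨g⁻¹, G.inv_mem hg, -(((u⁻¹ : (ZMod p)ˣ) : ZMod p) * b), fun x => by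
          apply g.injective
          rw [Equiv.Perm.coe_inv, Equiv.apply_symm_apply, hgb, mul_add, ← mul_assoc, mul_neg, ← mul_assoc,
            Units.mul_inv, one_mul, one_mul]
          ring⟩ }
  have hadd : ∀ (u : (ZMod p)ˣ) (b : ZMod p), u ∈ A → ∀ f : Equiv.Perm (ZMod p),
      (∀ x, f x = (u : ZMod p) * x + b) → f ∈ G := by
    rintro u b ⟨g, hg, c, hgc⟩ f hf
    obtain ⟨t, ht, htx⟩ := htrans (b - c)
    have : f = t * g := Equiv.ext fun x => by rw [hf, Equiv.Perm.mul_apply, htx, hgc]; ring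
    rw [this]
    exact G.mul_mem ht hg
  have hA : A ≠ ⊤ := fun h => hne (le_antisymm hG fun f ⟨u, b, hf⟩ => hadd u b (h ▸ Subgroup.mem_top u) f hf)
  set d := Nat.card A with hd
  have hd0 : 0 < d := Nat.card_pos
  have hdp : 2 * d ≤ p - 1 := by
    have h1 := A.card_mul_index
    have h2 : A.index ≠ 1 := fun h => hA (Subgroup.index_eq_one.mp h)
    have h3 : A.index ≠ 0 := Subgroup.index_ne_zero_of_finite
    rw [← hd, Nat.card_eq_fintype_card (α := (ZMod p)ˣ), ZMod.card_units] at h1
    rw [← h1, mul_comm]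
    exact Nat.mul_le_mul_left _ (by omega)
  have hquot : ∀ x y : ZMod p, x ≠ y → ∃ u ∈ A, σ x - σ y = (u : ZMod p) * (x - y) := by
    intro x y _
    obtain ⟨g, hg, hgt⟩ := hσ ![x, y]
    obtain ⟨u, b, hub⟩ := hG hg
    refine ⟨u, ⟨g, hg, b, hub⟩, ?_⟩
    have e0 : σ x = g x := hgt 0
    have e1 : σ y = g y := hgt 1
    rw [e0, e1, hub, hub]
    ring
  have hpow : ∀ x y : ZMod p, (σ x - σ y) ^ d = (x - y) ^ d := by
    intro x y
    rcases eq_or_ne x y with rfl | h
    · simp
    obtain ⟨u, hu, he⟩ := hquot x y h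
    rw [he, mul_pow, ← Units.val_pow_eq_pow_val,
      show u ^ d = 1 from congrArg Subtype.val (pow_card_eq_one' (x := (⟨u, hu⟩ : A))), Units.val_one, one_mul]
  obtain ⟨a, b, hab⟩ := affine_of_pow σ hd0 hdp hpow
  obtain ⟨u, hu, he⟩ := hquot 1 0 one_ne_zero
  rw [hab, hab] at he
  have hau : a = (u : ZMod p) := by linear_combination he
  exact hadd u b hu σ (fun x => by rw [hab, hau])

end Cfsg.Lib.Recog.AffineLine
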