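import Mathlib

/-! Three-point affine interpolation. -/

set_option autoImplicit false

namespace Cfsg.Lib.Recog.AffineSpace

variable {K V : Type*} [Field K] [AddCommGroup V] [Module K V] [FiniteDimensional K V]

/-- Linearly independent families of the same length differ by a linear equivalence. -/
theorem exists_equiv {ι : Type*} [Finite ι] {v w : ι → V} (hv : LinearIndependent K v)
    (hw : LinearIndependent K w) : ∃ A : V ≃ₗ[K] V, ∀ i, A (v i) = w i := by
  have : FiniteDimensional K (Submodule.span K (Set.range v)) :=
    FiniteDimensional.span_of_finite K (Set.finite_range _)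
  obtain ⟨g, hg⟩ := Submodule.exists_linearEquiv_restrict_eq
    ((Module.Basis.span hv).equiv (Module.Basis.span hw) (Equiv.refl ι))
  refine ⟨g, fun i => ?_⟩
  have h := hg (Module.Basis.span hv i)
  rw [Module.Basis.equiv_apply, Equiv.refl_apply] at h
  simpa [Module.Basis.span_apply] using h.symm

end Cfsg.Lib.Recog.AffineSpace
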