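import Mathlib

/-! A fixed-point-free plane representation of `SL(2, 5)` over eleven elements. -/

set_option autoImplicit false

namespace Cfsg.Lib.Recog.BinaryIcosahedral

open Matrix

abbrev T5 := ZMod 5 × ZMod 5 × ZMod 5 × ZMod 5
abbrev T11 := ZMod 11 × ZMod 11 × ZMod 11 × ZMod 11

def mul5 (x y : T5) : T5 :=
  (x.1 * y.1 + x.2.1 * y.2.2.1, x.1 * y.2.1 + x.2.1 * y.2.2.2,
    x.2.2.1 * y.1 + x.2.2.2 * y.2.2.1, x.2.2.1 * y.2.1 + x.2.2.2 * y.2.2.2)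

def mul11 (x y : T11) : T11 :=
  (x.1 * y.1 + x.2.1 * y.2.2.1, x.1 * y.2.1 + x.2.1 * y.2.2.2,
    x.2.2.1 * y.1 + x.2.2.2 * y.2.2.1, x.2.2.1 * y.2.1 + x.2.2.2 * y.2.2.2)

def gens : List T5 := [(0, 4, 1, 0), (1, 1, 0, 1)]

def table : List (T5 × T11) := [
  ((1, 0, 0, 1), (1, 0, 0, 1)),
  ((0, 4, 1, 0), (0, 1, 10, 0)),
  ((1, 1, 0, 1), (1, 3, 4, 2)),
  ((4, 0, 0, 4), (10, 0, 0, 10)),
  ((1, 4, 1, 0), (8, 1, 9, 4)),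
  ((0, 4, 1, 1), (4, 2, 10, 8)),
  ((1, 2, 0, 1), (2, 9, 1, 5)),
  ((0, 1, 4, 0), (0, 10, 1, 0)),
  ((4, 4, 0, 4), (10, 8, 7, 9)),
  ((4, 0, 1, 4), (9, 4, 3, 10)),
  ((2, 4, 1, 0), (2, 2, 6, 1)),
  ((1, 0, 1, 1), (1, 4, 3, 2)),
  ((0, 4, 1, 2), (1, 5, 9, 2)),
  ((1, 3, 0, 1), (5, 2, 10, 2)),
  ((4, 1, 4, 0), (3, 10, 2, 7)),
  ((0, 1, 4, 4), (7, 9, 1, 3)),
  ((4, 3, 0, 4), (9, 2, 10, 6)),
  ((0, 4, 1, 4), (7, 1, 9, 3)),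
  ((4, 0, 2, 4), (6, 1, 9, 9)),
  ((3, 4, 1, 0), (9, 5, 9, 10)),
  ((4, 4, 1, 0), (3, 2, 10, 7)),
  ((2, 1, 1, 1), (10, 10, 10, 9)),
  ((1, 1, 1, 2), (6, 0, 0, 2)),
  ((0, 4, 1, 3), (10, 2, 6, 9)),
  ((1, 4, 0, 1), (2, 8, 7, 1)),
  ((1, 0, 4, 1), (2, 7, 8, 1)),
  ((3, 1, 4, 0), (9, 9, 5, 10)),
  ((4, 0, 4, 4), (10, 7, 8, 9)),
  ((0, 1, 4, 3), (10, 6, 2, 9)),
  ((4, 2, 0, 4), (6, 9, 1, 9)),
  ((4, 1, 0, 4), (9, 3, 4, 10)),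
  ((1, 3, 1, 4), (1, 10, 2, 10)),
  ((1, 4, 2, 4), (0, 6, 9, 0)),
  ((4, 0, 3, 4), (9, 10, 2, 6)),
  ((4, 4, 2, 1), (10, 9, 1, 1)),
  ((3, 2, 1, 1), (7, 4, 5, 3)),
  ((4, 3, 1, 1), (0, 2, 5, 0)),
  ((2, 3, 1, 2), (6, 6, 2, 4)),
  ((1, 2, 1, 3), (6, 7, 8, 4)),
  ((0, 1, 4, 1), (4, 10, 2, 8)),
  ((1, 0, 3, 1), (5, 10, 2, 2)),
  ((2, 1, 4, 0), (2, 6, 2, 1)),
  ((1, 1, 4, 0), (8, 9, 1, 4)),
  ((3, 4, 4, 4), (1, 1, 1, 2)),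
  ((4, 4, 4, 3), (5, 0, 0, 9)),
  ((0, 1, 4, 2), (1, 9, 5, 2)),
  ((4, 1, 1, 3), (2, 10, 10, 1)),
  ((2, 2, 1, 4), (7, 7, 8, 5)),
  ((3, 1, 1, 4), (9, 0, 0, 5)),
  ((3, 3, 2, 4), (5, 6, 7, 2)),
  ((2, 4, 3, 4), (4, 6, 7, 8)),
  ((1, 0, 2, 1), (2, 1, 9, 5)),
  ((4, 4, 3, 2), (5, 3, 4, 7)),
  ((4, 3, 2, 3), (2, 4, 5, 5)),
  ((3, 0, 1, 2), (1, 7, 6, 10)),
  ((4, 2, 1, 2), (8, 4, 5, 4)),
  ((2, 0, 1, 3), (8, 8, 7, 3)),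
  ((4, 2, 4, 1), (10, 1, 9, 1)),
  ((4, 1, 3, 1), (0, 5, 2, 0)),
  ((1, 1, 3, 4), (1, 2, 10, 10)),
  ((2, 3, 4, 4), (4, 7, 6, 8)),
  ((1, 2, 4, 4), (0, 9, 6, 0)),
  ((3, 2, 4, 3), (5, 5, 9, 7)),
  ((4, 3, 4, 2), (5, 4, 3, 7)),
  ((4, 1, 2, 2), (8, 5, 4, 4)),
  ((3, 1, 3, 3), (7, 2, 6, 5)),
  ((0, 2, 2, 4), (4, 1, 1, 6)),
  ((2, 1, 2, 4), (7, 8, 7, 5)),
  ((0, 3, 3, 4), (3, 8, 8, 7)),
  ((3, 1, 2, 1), (7, 5, 4, 3)),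
  ((2, 1, 3, 2), (6, 2, 6, 4)),
  ((1, 1, 2, 3), (6, 8, 7, 4)),
  ((4, 3, 3, 0), (6, 10, 10, 4)),
  ((4, 2, 2, 0), (7, 3, 3, 3)),
  ((3, 3, 1, 3), (7, 6, 2, 5)),
  ((1, 4, 4, 2), (9, 1, 1, 10)),
  ((3, 3, 4, 1), (4, 4, 3, 6)),
  ((2, 4, 4, 1), (2, 0, 0, 6)),
  ((2, 2, 3, 1), (6, 5, 4, 9)),
  ((1, 2, 3, 2), (9, 7, 6, 6)),
  ((2, 0, 4, 3), (10, 4, 5, 1)),
  ((1, 3, 4, 3), (3, 7, 6, 7)),
  ((3, 0, 4, 2), (3, 3, 4, 8)),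
  ((1, 3, 2, 2), (9, 6, 7, 6)),
  ((1, 4, 3, 3), (3, 6, 7, 7)),
  ((3, 1, 0, 2), (1, 6, 7, 10)),
  ((2, 1, 0, 3), (8, 7, 8, 3)),
  ((3, 2, 3, 4), (5, 7, 6, 2)),
  ((3, 4, 3, 1), (4, 3, 4, 6)),
  ((0, 2, 2, 1), (8, 3, 3, 4)),
  ((2, 3, 2, 1), (6, 4, 5, 9)),
  ((0, 3, 3, 2), (2, 3, 3, 5)),
  ((3, 4, 2, 3), (5, 9, 5, 7)),
  ((2, 3, 3, 0), (3, 0, 0, 4)),
  ((1, 2, 2, 0), (5, 1, 1, 7)),
  ((4, 2, 3, 3), (2, 5, 4, 5)),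
  ((2, 4, 2, 2), (4, 9, 5, 6)),
  ((0, 3, 3, 1), (7, 10, 10, 5)),
  ((1, 3, 3, 0), (4, 8, 8, 8)),
  ((2, 2, 4, 2), (4, 5, 9, 6)),
  ((3, 0, 2, 2), (8, 2, 6, 3)),
  ((3, 3, 0, 2), (0, 3, 7, 0)),
  ((2, 4, 0, 3), (10, 5, 4, 1)),
  ((3, 4, 0, 2), (3, 4, 3, 8)),
  ((2, 3, 0, 3), (3, 5, 9, 8)),
  ((3, 0, 3, 2), (0, 7, 3, 0)),
  ((0, 2, 2, 3), (9, 8, 8, 6)),
  ((2, 0, 2, 3), (0, 4, 8, 0)),
  ((0, 3, 3, 0), (3, 1, 1, 8)),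
  ((3, 2, 2, 0), (8, 0, 0, 7)),
  ((2, 0, 3, 3), (3, 9, 5, 8)),
  ((3, 3, 3, 0), (6, 3, 3, 9)),
  ((0, 2, 2, 2), (4, 0, 0, 3)),
  ((0, 3, 3, 3), (7, 0, 0, 8)),
  ((3, 0, 0, 2), (10, 3, 3, 1)),
  ((2, 2, 0, 3), (0, 8, 4, 0)),
  ((3, 2, 0, 2), (8, 6, 2, 3)),
  ((2, 0, 0, 3), (1, 8, 8, 10)),
  ((0, 2, 2, 0), (8, 10, 10, 3)),
  ((2, 2, 2, 0), (5, 8, 8, 2))]

def tree : List (T5 × T5 × T5) := [
  ((0, 4, 1, 0), (0, 4, 1, 0), (1, 0, 0, 1)),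
  ((1, 1, 0, 1), (1, 1, 0, 1), (1, 0, 0, 1)),
  ((4, 0, 0, 4), (0, 4, 1, 0), (0, 4, 1, 0)),
  ((1, 4, 1, 0), (1, 1, 0, 1), (0, 4, 1, 0)),
  ((0, 4, 1, 1), (0, 4, 1, 0), (1, 1, 0, 1)),
  ((1, 2, 0, 1), (1, 1, 0, 1), (1, 1, 0, 1)),
  ((0, 1, 4, 0), (0, 4, 1, 0), (4, 0, 0, 4)),
  ((4, 4, 0, 4), (1, 1, 0, 1), (4, 0, 0, 4)),
  ((4, 0, 1, 4), (0, 4, 1, 0), (1, 4, 1, 0)),
  ((2, 4, 1, 0), (1, 1, 0, 1), (1, 4, 1, 0)),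
  ((1, 0, 1, 1), (1, 1, 0, 1), (0, 4, 1, 1)),
  ((0, 4, 1, 2), (0, 4, 1, 0), (1, 2, 0, 1)),
  ((1, 3, 0, 1), (1, 1, 0, 1), (1, 2, 0, 1)),
  ((4, 1, 4, 0), (1, 1, 0, 1), (0, 1, 4, 0)),
  ((0, 1, 4, 4), (0, 4, 1, 0), (4, 4, 0, 4)),
  ((4, 3, 0, 4), (1, 1, 0, 1), (4, 4, 0, 4)),
  ((0, 4, 1, 4), (1, 1, 0, 1), (4, 0, 1, 4)),
  ((4, 0, 2, 4), (0, 4, 1, 0), (2, 4, 1, 0)),
  ((3, 4, 1, 0), (1, 1, 0, 1), (2, 4, 1, 0)),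
  ((4, 4, 1, 0), (0, 4, 1, 0), (1, 0, 1, 1)),
  ((2, 1, 1, 1), (1, 1, 0, 1), (1, 0, 1, 1)),
  ((1, 1, 1, 2), (1, 1, 0, 1), (0, 4, 1, 2)),
  ((0, 4, 1, 3), (0, 4, 1, 0), (1, 3, 0, 1)),
  ((1, 4, 0, 1), (1, 1, 0, 1), (1, 3, 0, 1)),
  ((1, 0, 4, 1), (0, 4, 1, 0), (4, 1, 4, 0)),
  ((3, 1, 4, 0), (1, 1, 0, 1), (4, 1, 4, 0)),
  ((4, 0, 4, 4), (1, 1, 0, 1), (0, 1, 4, 4)),
  ((0, 1, 4, 3), (0, 4, 1, 0), (4, 3, 0, 4)),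
  ((4, 2, 0, 4), (1, 1, 0, 1), (4, 3, 0, 4)),
  ((4, 1, 0, 4), (0, 4, 1, 0), (0, 4, 1, 4)),
  ((1, 3, 1, 4), (1, 1, 0, 1), (0, 4, 1, 4)),
  ((1, 4, 2, 4), (1, 1, 0, 1), (4, 0, 2, 4)),
  ((4, 0, 3, 4), (0, 4, 1, 0), (3, 4, 1, 0)),
  ((4, 4, 2, 1), (0, 4, 1, 0), (2, 1, 1, 1)),
  ((3, 2, 1, 1), (1, 1, 0, 1), (2, 1, 1, 1)),
  ((4, 3, 1, 1), (0, 4, 1, 0), (1, 1, 1, 2)),
  ((2, 3, 1, 2), (1, 1, 0, 1), (1, 1, 1, 2)),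
  ((1, 2, 1, 3), (1, 1, 0, 1), (0, 4, 1, 3)),
  ((0, 1, 4, 1), (1, 1, 0, 1), (1, 0, 4, 1)),
  ((1, 0, 3, 1), (0, 4, 1, 0), (3, 1, 4, 0)),
  ((2, 1, 4, 0), (1, 1, 0, 1), (3, 1, 4, 0)),
  ((1, 1, 4, 0), (0, 4, 1, 0), (4, 0, 4, 4)),
  ((3, 4, 4, 4), (1, 1, 0, 1), (4, 0, 4, 4)),
  ((4, 4, 4, 3), (1, 1, 0, 1), (0, 1, 4, 3)),
  ((0, 1, 4, 2), (0, 4, 1, 0), (4, 2, 0, 4)),
  ((4, 1, 1, 3), (0, 4, 1, 0), (1, 3, 1, 4)),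
  ((2, 2, 1, 4), (1, 1, 0, 1), (1, 3, 1, 4)),
  ((3, 1, 1, 4), (0, 4, 1, 0), (1, 4, 2, 4)),
  ((3, 3, 2, 4), (1, 1, 0, 1), (1, 4, 2, 4)),
  ((2, 4, 3, 4), (1, 1, 0, 1), (4, 0, 3, 4)),
  ((1, 0, 2, 1), (1, 1, 0, 1), (4, 4, 2, 1)),
  ((4, 4, 3, 2), (0, 4, 1, 0), (3, 2, 1, 1)),
  ((4, 3, 2, 3), (0, 4, 1, 0), (2, 3, 1, 2)),
  ((3, 0, 1, 2), (1, 1, 0, 1), (2, 3, 1, 2)),
  ((4, 2, 1, 2), (0, 4, 1, 0), (1, 2, 1, 3)),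
  ((2, 0, 1, 3), (1, 1, 0, 1), (1, 2, 1, 3)),
  ((4, 2, 4, 1), (1, 1, 0, 1), (0, 1, 4, 1)),
  ((4, 1, 3, 1), (1, 1, 0, 1), (1, 0, 3, 1)),
  ((1, 1, 3, 4), (0, 4, 1, 0), (3, 4, 4, 4)),
  ((2, 3, 4, 4), (1, 1, 0, 1), (3, 4, 4, 4)),
  ((1, 2, 4, 4), (0, 4, 1, 0), (4, 4, 4, 3)),
  ((3, 2, 4, 3), (1, 1, 0, 1), (4, 4, 4, 3)),
  ((4, 3, 4, 2), (1, 1, 0, 1), (0, 1, 4, 2)),
  ((4, 1, 2, 2), (0, 4, 1, 0), (2, 2, 1, 4)),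
  ((3, 1, 3, 3), (0, 4, 1, 0), (3, 3, 2, 4)),
  ((0, 2, 2, 4), (1, 1, 0, 1), (3, 3, 2, 4)),
  ((2, 1, 2, 4), (0, 4, 1, 0), (2, 4, 3, 4)),
  ((0, 3, 3, 4), (1, 1, 0, 1), (2, 4, 3, 4)),
  ((3, 1, 2, 1), (1, 1, 0, 1), (1, 0, 2, 1)),
  ((2, 1, 3, 2), (1, 1, 0, 1), (4, 4, 3, 2)),
  ((1, 1, 2, 3), (1, 1, 0, 1), (4, 3, 2, 3)),
  ((4, 3, 3, 0), (0, 4, 1, 0), (3, 0, 1, 2)),
  ((4, 2, 2, 0), (0, 4, 1, 0), (2, 0, 1, 3)),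
  ((3, 3, 1, 3), (1, 1, 0, 1), (2, 0, 1, 3)),
  ((1, 4, 4, 2), (0, 4, 1, 0), (4, 2, 4, 1)),
  ((3, 3, 4, 1), (1, 1, 0, 1), (4, 2, 4, 1)),
  ((2, 4, 4, 1), (0, 4, 1, 0), (4, 1, 3, 1)),
  ((2, 2, 3, 1), (1, 1, 0, 1), (4, 1, 3, 1)),
  ((1, 2, 3, 2), (0, 4, 1, 0), (3, 2, 4, 3)),
  ((2, 0, 4, 3), (1, 1, 0, 1), (3, 2, 4, 3)),
  ((1, 3, 4, 3), (0, 4, 1, 0), (4, 3, 4, 2)),
  ((3, 0, 4, 2), (1, 1, 0, 1), (4, 3, 4, 2)),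
  ((1, 3, 2, 2), (1, 1, 0, 1), (4, 1, 2, 2)),
  ((1, 4, 3, 3), (1, 1, 0, 1), (3, 1, 3, 3)),
  ((3, 1, 0, 2), (0, 4, 1, 0), (0, 2, 2, 4)),
  ((2, 1, 0, 3), (0, 4, 1, 0), (0, 3, 3, 4)),
  ((3, 2, 3, 4), (1, 1, 0, 1), (0, 3, 3, 4)),
  ((3, 4, 3, 1), (0, 4, 1, 0), (3, 1, 2, 1)),
  ((0, 2, 2, 1), (1, 1, 0, 1), (3, 1, 2, 1)),
  ((2, 3, 2, 1), (0, 4, 1, 0), (2, 1, 3, 2)),
  ((0, 3, 3, 2), (1, 1, 0, 1), (2, 1, 3, 2)),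
  ((3, 4, 2, 3), (1, 1, 0, 1), (1, 1, 2, 3)),
  ((2, 3, 3, 0), (1, 1, 0, 1), (4, 3, 3, 0)),
  ((1, 2, 2, 0), (1, 1, 0, 1), (4, 2, 2, 0)),
  ((4, 2, 3, 3), (0, 4, 1, 0), (3, 3, 1, 3)),
  ((2, 4, 2, 2), (0, 4, 1, 0), (2, 2, 3, 1)),
  ((0, 3, 3, 1), (1, 1, 0, 1), (2, 2, 3, 1)),
  ((1, 3, 3, 0), (0, 4, 1, 0), (3, 0, 4, 2)),
  ((2, 2, 4, 2), (1, 1, 0, 1), (3, 0, 4, 2)),
  ((3, 0, 2, 2), (1, 1, 0, 1), (1, 3, 2, 2)),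
  ((3, 3, 0, 2), (1, 1, 0, 1), (3, 1, 0, 2)),
  ((2, 4, 0, 3), (1, 1, 0, 1), (2, 1, 0, 3)),
  ((3, 4, 0, 2), (0, 4, 1, 0), (0, 2, 2, 1)),
  ((2, 3, 0, 3), (0, 4, 1, 0), (0, 3, 3, 2)),
  ((3, 0, 3, 2), (1, 1, 0, 1), (0, 3, 3, 2)),
  ((0, 2, 2, 3), (1, 1, 0, 1), (3, 4, 2, 3)),
  ((2, 0, 2, 3), (0, 4, 1, 0), (2, 3, 3, 0)),
  ((0, 3, 3, 0), (1, 1, 0, 1), (2, 3, 3, 0)),
  ((3, 2, 2, 0), (1, 1, 0, 1), (1, 2, 2, 0)),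
  ((2, 0, 3, 3), (1, 1, 0, 1), (4, 2, 3, 3)),
  ((3, 3, 3, 0), (0, 4, 1, 0), (3, 0, 2, 2)),
  ((0, 2, 2, 2), (1, 1, 0, 1), (3, 0, 2, 2)),
  ((0, 3, 3, 3), (0, 4, 1, 0), (3, 3, 0, 2)),
  ((3, 0, 0, 2), (1, 1, 0, 1), (3, 3, 0, 2)),
  ((2, 2, 0, 3), (1, 1, 0, 1), (2, 4, 0, 3)),
  ((3, 2, 0, 2), (0, 4, 1, 0), (0, 2, 2, 3)),
  ((2, 0, 0, 3), (0, 4, 1, 0), (0, 3, 3, 0)),
  ((0, 2, 2, 0), (1, 1, 0, 1), (3, 2, 2, 0)),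
  ((2, 2, 2, 0), (0, 4, 1, 0), (2, 0, 3, 3))]

def img (x : T5) : T11 := (table.lookup x).getD (0, 0, 0, 0)

def keys : List T5 := table.map Prod.fst

/-- Each row is a generator times an element seen before. -/
def chk : List T5 → List (T5 × T5 × T5) → Bool
  | _, [] => true
  | seen, (y, s, x) :: l => decide (y = mul5 s x ∧ s ∈ gens ∧ x ∈ seen) && chk (y :: seen) l

theorem chk_sound {P : T5 → Prop} (hs : ∀ s ∈ gens, ∀ x, P x → P (mul5 s x)) :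
    ∀ (l : List (T5 × T5 × T5)) (seen : List T5), chk seen l = true → (∀ x ∈ seen, P x) → ∀ r ∈ l, P r.1 := by
  intro l
  induction l with
  | nil => intro _ _ _ r hr; simp at hr
  | cons a l ih =>
    obtain ⟨y, s, x⟩ := a
    intro seen h hseen r hr
    simp only [chk, Bool.and_eq_true, decide_eq_true_eq] at h
    obtain ⟨⟨hy, hs', hx⟩, hl⟩ := h
    have hP : P y := hy ▸ hs s hs' x (hseen x hx)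
    rcases List.mem_cons.1 hr with rfl | hr
    · exact hP
    · exact ih (y :: seen) hl (fun z hz => by
        rcases List.mem_cons.1 hz with rfl | hz
        · exact hP
        · exact hseen z hz) r hr

theorem keys_all : ∀ a b c d : ZMod 5, a * d - b * c = 1 → ((a, b, c, d) : T5) ∈ keys := by decide +kernel

theorem keys_tree : ∀ x ∈ keys, x = (1, 0, 0, 1) ∨ ∃ r ∈ tree, r.1 = x := by decide +kernel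

theorem tree_chk : chk [(1, 0, 0, 1)] tree = true := by decide +kernel

theorem gens_hom : ∀ s ∈ gens, ∀ x ∈ keys, img (mul5 s x) = mul11 (img s) (img x) := by decide +kernel

theorem img_one : img (1, 0, 0, 1) = (1, 0, 0, 1) := by decide +kernel

theorem gens_det : ∀ s ∈ gens, s.1 * s.2.2.2 - s.2.1 * s.2.2.1 = 1 := by decide +kernel

theorem img_det : ∀ x ∈ keys, (img x).1 * (img x).2.2.2 - (img x).2.1 * (img x).2.2.1 = 1 := by decide +kernel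

theorem img_fpf : ∀ x ∈ keys, x ≠ (1, 0, 0, 1) →
    ((img x).1 - 1) * ((img x).2.2.2 - 1) - (img x).2.1 * (img x).2.2.1 ≠ 0 := by decide +kernel

local instance : Fact (Nat.Prime 11) := ⟨by norm_num⟩

abbrev B := SpecialLinearGroup (Fin 2) (ZMod 5)

/-- Entries. -/
def tup (A : B) : T5 := (A 0 0, A 0 1, A 1 0, A 1 1)

theorem tup_mem (A : B) : tup A ∈ keys := by
  refine keys_all _ _ _ _ ?_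
  have h := A.2
  rwa [det_fin_two] at h

theorem tup_mul (A C : B) : tup (A * C) = mul5 (tup A) (tup C) := by
  simp [tup, mul5, Matrix.mul_apply, Fin.sum_univ_two]

theorem tup_one : tup 1 = (1, 0, 0, 1) := by simp [tup]

theorem tup_inj {A C : B} (h : tup A = tup C) : A = C := by
  simp only [tup, Prod.mk.injEq] at h
  ext i j
  fin_cases i <;> fin_cases j
  exacts [h.1, h.2.1, h.2.2.1, h.2.2.2]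

theorem exists_of_mem {x : T5} (h : x.1 * x.2.2.2 - x.2.1 * x.2.2.1 = 1) : ∃ A : B, tup A = x :=
  ⟨⟨!![x.1, x.2.1; x.2.2.1, x.2.2.2], by rw [det_fin_two_of]; exact h⟩, rfl⟩

theorem mul11_assoc (x y z : T11) : mul11 (mul11 x y) z = mul11 x (mul11 y z) := by
  simp only [mul11, Prod.mk.injEq]
  refine ⟨?_, ?_, ?_, ?_⟩ <;> ring

theorem mul11_one (y : T11) : mul11 (1, 0, 0, 1) y = y := by simp [mul11]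

theorem img_mul (A C : B) : img (tup (A * C)) = mul11 (img (tup A)) (img (tup C)) := by
  let P : T5 → Prop := fun x => ∃ A : B, tup A = x ∧ ∀ C : B, img (tup (A * C)) = mul11 (img x) (img (tup C))
  have h1 : P (1, 0, 0, 1) := ⟨1, tup_one, fun C => by rw [one_mul, img_one, mul11_one]⟩
  have hs : ∀ s ∈ gens, ∀ x, P x → P (mul5 s x) := by
    rintro s hs x ⟨A, rfl, hA⟩
    obtain ⟨S, rfl⟩ := exists_of_mem (gens_det s hs)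
    refine ⟨S * A, tup_mul S A, fun C => ?_⟩
    rw [mul_assoc, tup_mul S (A * C), gens_hom _ hs _ (tup_mem _), hA, ← mul11_assoc, gens_hom _ hs _ (tup_mem _)]
  have hP : P (tup A) := by
    rcases keys_tree _ (tup_mem A) with h | ⟨r, hr, h⟩
    · rw [h]; exact h1
    · rw [← h]
      exact chk_sound hs tree _ tree_chk (fun x hx => by rw [List.mem_singleton.1 hx]; exact h1) r hr
  obtain ⟨A', hA', h⟩ := hP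
  rw [tup_inj hA'] at h
  exact h C

/-- The matrix of an image. -/
def toMat (A : B) : Matrix (Fin 2) (Fin 2) (ZMod 11) :=
  !![(img (tup A)).1, (img (tup A)).2.1; (img (tup A)).2.2.1, (img (tup A)).2.2.2]

/-- The representation. -/
def rep : B →* Matrix (Fin 2) (Fin 2) (ZMod 11) where
  toFun := toMat
  map_one' := by
    ext i j
    fin_cases i <;> fin_cases j <;> simp [toMat, tup_one, img_one]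
  map_mul' A C := by
    ext i j
    fin_cases i <;> fin_cases j <;> simp [toMat, img_mul, mul11, Matrix.mul_apply, Fin.sum_univ_two]

theorem rep_fpf {A : B} (hA : A ≠ 1) {v : Fin 2 → ZMod 11} (h : (rep A).mulVec v = v) : v = 0 := by
  have hne : tup A ≠ (1, 0, 0, 1) := fun e => hA (tup_inj (e.trans tup_one.symm))
  have hd : (rep A - 1).det ≠ 0 := by
    rw [det_fin_two]
    simpa [rep, toMat] using img_fpf _ (tup_mem A) hne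
  refine Matrix.eq_zero_of_mulVec_eq_zero hd ?_
  rw [Matrix.sub_mulVec, Matrix.one_mulVec, h, sub_self]

/-- The action on the plane. -/
def act : B →* MulAut (Multiplicative (Fin 2 → ZMod 11)) where
  toFun A := AddEquiv.toMultiplicative
    { toFun := (rep A).mulVec
      invFun := (rep A⁻¹).mulVec
      left_inv := fun v => by rw [Matrix.mulVec_mulVec, ← map_mul, inv_mul_cancel, map_one, Matrix.one_mulVec]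
      right_inv := fun v => by rw [Matrix.mulVec_mulVec, ← map_mul, mul_inv_cancel, map_one, Matrix.one_mulVec]
      map_add' := fun v w => Matrix.mulVec_add _ v w }
  map_one' := by
    refine MulEquiv.ext fun v => Multiplicative.toAdd.injective ?_
    show (rep 1).mulVec (Multiplicative.toAdd v) = Multiplicative.toAdd v
    rw [map_one, Matrix.one_mulVec]
  map_mul' A C := by
    refine MulEquiv.ext fun v => Multiplicative.toAdd.injective ?_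
    show (rep (A * C)).mulVec (Multiplicative.toAdd v) = (rep A).mulVec ((rep C).mulVec (Multiplicative.toAdd v))
    rw [map_mul, Matrix.mulVec_mulVec]

theorem act_fpf {A : B} (hA : A ≠ 1) {v : Multiplicative (Fin 2 → ZMod 11)} (h : act A v = v) : v = 1 :=
  Multiplicative.toAdd.injective (rep_fpf hA (congrArg Multiplicative.toAdd h))

end Cfsg.Lib.Recog.BinaryIcosahedral
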