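import Mathlib

/-! The subgroup generated by the fixed-point-free elements of a transitive group. -/

set_option autoImplicit false

namespace Cfsg.Lib.Recog.Derangements

open MulAction

variable {G Ω : Type*} [Group G] [MulAction G Ω]

variable (G Ω) in
/-- The subgroup generated by the fixed-point-free elements. -/
abbrev derSub : Subgroup G := Subgroup.closure {g : G | ∀ ω : Ω, g • ω ≠ ω}

theorem derSub_normal : (derSub G Ω).Normal := by
  refine ⟨fun n hn g => ?_⟩
  have h : (derSub G Ω).map (MulAut.conj g).toMonoidHom ≤ derSub G Ω := by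
    rw [MonoidHom.map_closure, Subgroup.closure_le]
    rintro _ ⟨d, hd, rfl⟩
    refine Subgroup.subset_closure fun ω h => hd (g⁻¹ • ω) ?_
    simp only [MulEquiv.coe_toMonoidHom, MulAut.conj_apply, mul_smul] at h
    exact eq_inv_smul_iff.mpr h
  exact h ⟨n, hn, rfl⟩

theorem burnside (K X : Type*) [Group K] [Fintype K] [Finite X] [MulAction K X] :
    ∑ k : K, Nat.card (fixedBy X k) = Nat.card (orbitRel.Quotient K X) * Nat.card K := by
  classical
  have : Fintype X := Fintype.ofFinite X
  have h := MulAction.sum_card_fixedBy_eq_card_orbits_mul_card_group K X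
  simp only [Nat.card_eq_fintype_card]
  convert h

theorem card_quotient_eq_one (K X : Type*) [Group K] [MulAction K X] [Nonempty X] [IsPretransitive K X] :
    Nat.card (orbitRel.Quotient K X) = 1 := by
  rw [Nat.card_eq_one_iff_unique]
  refine ⟨⟨fun a b => ?_⟩, ⟨Quotient.mk'' (Classical.arbitrary X)⟩⟩
  induction a using Quotient.inductionOn' with | _ x => ?_
  induction b using Quotient.inductionOn' with | _ y => ?_
  obtain ⟨g, hg⟩ := exists_smul_eq K y x
  exact Quotient.sound' ⟨g, hg⟩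

theorem fixed_of_not_mem [Finite Ω] {g : G} (hg : g ∉ derSub G Ω) :
    1 ≤ Nat.card (fixedBy Ω g) := by
  obtain ⟨ω, hω⟩ : ∃ ω : Ω, g • ω = ω := by
    by_contra h
    exact hg (Subgroup.subset_closure fun ω e => h ⟨ω, e⟩)
  have : Nonempty (fixedBy Ω g) := ⟨⟨ω, hω⟩⟩
  exact Nat.card_pos

theorem main [Finite G] [Finite Ω] [Nonempty Ω] [IsPretransitive G Ω] :
    Nat.card (orbitRel.Quotient (derSub G Ω) Ω) = 1 ∧
      ∀ g : G, g ∉ derSub G Ω → Nat.card (fixedBy Ω g) = 1 := by
  classical
  have : Fintype G := Fintype.ofFinite G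
  have : Fintype (derSub G Ω) := Fintype.ofFinite _
  set F : G → ℕ := fun g => Nat.card (fixedBy Ω g) with hF
  have hG : ∑ g, F g = Nat.card G := by
    rw [burnside G Ω, card_quotient_eq_one, one_mul]
  have hH : ∑ g ∈ Finset.univ.filter (· ∈ derSub G Ω), F g =
      Nat.card (orbitRel.Quotient (derSub G Ω) Ω) * Nat.card (derSub G Ω) := by
    rw [← burnside (derSub G Ω) Ω, ← Finset.sum_subtype_eq_sum_filter, Finset.subtype_univ]
    rfl
  have hr : 1 ≤ Nat.card (orbitRel.Quotient (derSub G Ω) Ω) := by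
    have : Nonempty (orbitRel.Quotient (derSub G Ω) Ω) := ⟨Quotient.mk'' (Classical.arbitrary Ω)⟩
    exact Nat.card_pos
  have hge : ∀ g ∈ Finset.univ.filter (fun g => g ∉ derSub G Ω), 1 ≤ F g := fun g hg =>
    fixed_of_not_mem (Finset.mem_filter.mp hg).2
  have hsplit := Finset.sum_filter_add_sum_filter_not Finset.univ (· ∈ derSub G Ω) F
  have hcards := Finset.card_filter_add_card_filter_not (s := (Finset.univ : Finset G)) (fun g => g ∈ derSub G Ω)
  have hcH : (Finset.univ.filter (· ∈ derSub G Ω)).card = Nat.card (derSub G Ω) := by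
    rw [← Fintype.card_subtype, Nat.card_eq_fintype_card]
  have hcG : (Finset.univ : Finset G).card = Nat.card G := by
    rw [Finset.card_univ, Nat.card_eq_fintype_card]
  have hge' : (Finset.univ.filter (fun g => g ∉ derSub G Ω)).card ≤
      ∑ g ∈ Finset.univ.filter (fun g => g ∉ derSub G Ω), F g := by
    rw [Finset.card_eq_sum_ones]
    exact Finset.sum_le_sum hge
  have hpos : 0 < Nat.card (derSub G Ω) := Nat.card_pos
  have h1 : Nat.card (orbitRel.Quotient (derSub G Ω) Ω) = 1 := by nlinarith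
  refine ⟨h1, fun g hg => ?_⟩
  rw [h1, one_mul] at hH
  have heq : ∑ g ∈ Finset.univ.filter (fun g => g ∉ derSub G Ω), F g =
      ∑ g ∈ Finset.univ.filter (fun g => g ∉ derSub G Ω), 1 := by
    rw [← Finset.card_eq_sum_ones]
    omega
  exact ((Finset.sum_eq_sum_iff_of_le hge).mp heq.symm g (Finset.mem_filter.mpr ⟨Finset.mem_univ _, hg⟩)).symm

theorem pretransitive [Finite G] [Finite Ω] [Nonempty Ω] [IsPretransitive G Ω] :
    IsPretransitive (derSub G Ω) Ω := by
  refine ⟨fun x y => ?_⟩
  have h := (Nat.card_eq_one_iff_unique.mp (main (G := G) (Ω := Ω)).1).1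
  have hq : (Quotient.mk'' y : orbitRel.Quotient (derSub G Ω) Ω) = Quotient.mk'' x := Subsingleton.elim _ _
  exact Quotient.exact' hq

theorem pairs [Finite G] [Finite Ω] [Nonempty Ω] [IsPretransitive G Ω] :
    Nat.card (orbitRel.Quotient (derSub G Ω) (Ω × Ω)) - 1 =
      (Nat.card (orbitRel.Quotient G (Ω × Ω)) - 1) * (derSub G Ω).index := by
  classical
  have : Fintype G := Fintype.ofFinite G
  have : Fintype (derSub G Ω) := Fintype.ofFinite _
  set F : G → ℕ := fun g => Nat.card (fixedBy (Ω × Ω) g) with hF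
  have hsq : ∀ g, F g = Nat.card (fixedBy Ω g) * Nat.card (fixedBy Ω g) := fun g => by
    rw [← Nat.card_prod]
    exact Nat.card_congr ⟨fun p => (⟨p.1.1, congrArg Prod.fst p.2⟩, ⟨p.1.2, congrArg Prod.snd p.2⟩),
      fun q => ⟨(q.1.1, q.2.1), Prod.ext q.1.2 q.2.2⟩, fun _ => rfl, fun _ => rfl⟩
  have hG := burnside G (Ω × Ω)
  have hH : ∑ g ∈ Finset.univ.filter (· ∈ derSub G Ω), F g =
      Nat.card (orbitRel.Quotient (derSub G Ω) (Ω × Ω)) * Nat.card (derSub G Ω) := by
    rw [← burnside (derSub G Ω) (Ω × Ω), ← Finset.sum_subtype_eq_sum_filter, Finset.subtype_univ]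
    rfl
  have hsplit := Finset.sum_filter_add_sum_filter_not Finset.univ (· ∈ derSub G Ω) F
  have hout : ∑ g ∈ Finset.univ.filter (fun g => g ∉ derSub G Ω), F g =
      (Finset.univ.filter (fun g => g ∉ derSub G Ω)).card := by
    rw [Finset.card_eq_sum_ones]
    exact Finset.sum_congr rfl fun g hg => by
      rw [hsq, main.2 g (Finset.mem_filter.mp hg).2]
  have hcards := Finset.card_filter_add_card_filter_not (s := (Finset.univ : Finset G)) (fun g => g ∈ derSub G Ω)
  rw [← Fintype.card_subtype, ← Nat.card_eq_fintype_card, Finset.card_univ, ← Nat.card_eq_fintype_card]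
    at hcards
  have hmul := (derSub G Ω).card_mul_index
  set R := Nat.card (orbitRel.Quotient G (Ω × Ω))
  set R' := Nat.card (orbitRel.Quotient (derSub G Ω) (Ω × Ω))
  have hR : 1 ≤ R := by
    have : Nonempty (orbitRel.Quotient G (Ω × Ω)) := ⟨Quotient.mk'' (Classical.arbitrary _)⟩
    exact Nat.card_pos
  have hR' : 1 ≤ R' := by
    have : Nonempty (orbitRel.Quotient (derSub G Ω) (Ω × Ω)) := ⟨Quotient.mk'' (Classical.arbitrary _)⟩
    exact Nat.card_pos
  have hpos : 0 < Nat.card (derSub G Ω) := Nat.card_pos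
  rw [← hF] at hG
  obtain ⟨a, ha⟩ := Nat.exists_eq_add_of_le hR
  obtain ⟨b, hb⟩ := Nat.exists_eq_add_of_le hR'
  rw [ha] at hG ⊢
  rw [hb] at hH ⊢
  simp only [Nat.add_sub_cancel_left]
  refine Nat.eq_of_mul_eq_mul_right hpos ?_
  nlinarith

theorem index_dvd [Finite G] [Finite Ω] [FaithfulSMul G Ω] [IsPretransitive G Ω] (hΩ : 2 ≤ Nat.card Ω) :
    (derSub G Ω).index ∣ Nat.card Ω - 1 ∧
      ((derSub G Ω).index = Nat.card Ω - 1 → IsPrimePow (Nat.card Ω)) := by
  classical
  have : Fintype Ω := Fintype.ofFinite Ω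
  have : Nontrivial Ω := Finite.one_lt_card_iff_nontrivial.mp hΩ
  have := pretransitive (G := G) (Ω := Ω)
  have hN := derSub_normal (G := G) (Ω := Ω)
  set H := derSub G Ω with hH
  obtain ⟨a⟩ : Nonempty Ω := inferInstance
  set Ga := stabilizer G a
  set Ha := H.subgroupOf Ga
  have he : Ha.index = H.index := by
    rw [← Subgroup.relIndex, ← Subgroup.relIndex_top_right H, ← Subgroup.relIndex_sup_right Ga H]
    congr 1
    rw [eq_top_iff]
    intro g _
    obtain ⟨h, hh⟩ := exists_smul_eq H (g • a) a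
    have : g = (h : G)⁻¹ * ((h : G) * g) := by group
    rw [this]
    exact mul_mem (Subgroup.mem_sup_right (H.inv_mem h.2) ) (Subgroup.mem_sup_left (by
      rw [mem_stabilizer_iff, mul_smul]; exact hh))
  have hkey : ∀ b : Ω, b ≠ a → stabilizer Ga b ≤ Ha := fun b hb g hg => by
    by_contra hgH
    have h1 := main.2 (g : G) hgH
    rw [Nat.card_eq_one_iff_unique] at h1
    exact hb (congrArg Subtype.val (h1.1.elim (⟨b, hg⟩ : fixedBy Ω (g : G)) ⟨a, g.2⟩))
  have horb : ∀ b : Ω, b ≠ a → H.index ∣ Nat.card (orbit Ga b) := fun b hb => by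
    rw [← he, Nat.card_coe_set_eq, ← index_stabilizer]
    exact Subgroup.index_dvd_of_le (hkey b hb)
  have hne : ∀ g : Ga, ∀ x : Ω, g • x = a ↔ x = a := fun g x => by
    refine ⟨fun h => ?_, fun h => by rw [h]; exact g.2⟩
    exact (MulAction.injective g) (h.trans (g.2 : (g : G) • a = a).symm)
  have hsize : ∀ b : Ω, b ≠ a → (orbit Ga b).toFinset ⊆ Finset.univ.erase a := fun b hb x hx => by
    obtain ⟨g, rfl⟩ := Set.mem_toFinset.mp hx
    exact Finset.mem_erase.mpr ⟨fun h => hb ((hne g b).mp h), Finset.mem_univ _⟩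
  have hcard : (Finset.univ.erase a).card = Nat.card Ω - 1 := by
    rw [Finset.card_erase_of_mem (Finset.mem_univ _), Finset.card_univ, Nat.card_eq_fintype_card]
  refine ⟨?_, fun heq => ?_⟩
  · rw [← hcard, Finset.card_eq_sum_card_fiberwise (f := fun x => (orbit Ga x).toFinset)
      (t := (Finset.univ.erase a).image fun x => (orbit Ga x).toFinset)
      (fun x hx => Finset.mem_image_of_mem _ hx)]
    refine Finset.dvd_sum fun O hO => ?_
    obtain ⟨b, hb, rfl⟩ := Finset.mem_image.mp hO
    rw [Finset.mem_erase] at hb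
    rw [show (Finset.univ.erase a).filter (fun x => (orbit Ga x).toFinset = (orbit Ga b).toFinset) =
      (orbit Ga b).toFinset from ?_, ← Set.ncard_eq_toFinset_card', ← Nat.card_coe_set_eq]
    · exact horb b hb.1
    · ext x
      rw [Finset.mem_filter, Set.toFinset_inj, orbit_eq_iff, Set.mem_toFinset]
      exact ⟨fun h => h.2, fun h => ⟨hsize b hb.1 (Set.mem_toFinset.mpr h), h⟩⟩
  -- the extremal case
  have hfull : ∀ b : Ω, b ≠ a → (orbit Ga b).toFinset = Finset.univ.erase a ∧ stabilizer Ga b = Ha := by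
    intro b hb
    have h1 := horb b hb
    have h2 := Finset.card_le_card (hsize b hb)
    rw [← Set.ncard_eq_toFinset_card', ← Nat.card_coe_set_eq, hcard, ← heq] at h2
    have hpos : 0 < Nat.card (orbit Ga b) := by
      have := (nonempty_orbit (M := Ga) b).to_subtype
      exact Nat.card_pos
    have h3 : Nat.card (orbit Ga b) = H.index := le_antisymm h2 (Nat.le_of_dvd hpos h1)
    refine ⟨Finset.eq_of_subset_of_card_le (hsize b hb) ?_, ?_⟩
    · rw [← Set.ncard_eq_toFinset_card', ← Nat.card_coe_set_eq, h3, hcard, heq]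
    · refine Subgroup.eq_of_le_of_card_ge (hkey b hb) (le_of_eq ?_)
      have hi : (stabilizer Ga b).index = Ha.index := by
        rw [index_stabilizer, ← Nat.card_coe_set_eq, h3, he]
      have := (stabilizer Ga b).card_mul_index
      rw [hi, ← Ha.card_mul_index] at this
      exact (Nat.eq_of_mul_eq_mul_right (Nat.pos_of_ne_zero Subgroup.index_ne_zero_of_finite) this).symm
  have hreg : ∀ h : G, h ∈ H → h • a = a → h = 1 := fun h hh hha =>
    FaithfulSMul.eq_of_smul_eq_smul fun x : Ω => by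
      rw [one_smul]
      rcases eq_or_ne x a with rfl | hx
      · exact hha
      · have : (⟨h, hha⟩ : Ga) ∈ Ha := hh
        rw [← (hfull x hx).2] at this
        exact this
  have hn : Nat.card H = Nat.card Ω := by
    refine Nat.card_congr (Equiv.ofBijective (fun h : H => h • a) ⟨fun h h' e => ?_, fun x => exists_smul_eq H a x⟩)
    have e' : (h : G) • a = (h' : G) • a := e
    have := hreg ((h'⁻¹ * h : H) : G) (SetLike.coe_mem _) (by
      rw [Subgroup.coe_mul, Subgroup.coe_inv, mul_smul, e', inv_smul_smul])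
    exact (inv_mul_eq_one.mp (Subtype.ext this)).symm
  have hord : ∀ h : H, h ≠ 1 → ∀ h' : H, h' ≠ 1 → orderOf h = orderOf h' := by
    intro h h1 h' h1'
    have hb : ∀ k : H, k ≠ 1 → (k : G) • a ≠ a := fun k hk e => hk (Subtype.ext (hreg k k.2 e))
    have : (h' : G) • a ∈ (orbit Ga ((h : G) • a)).toFinset :=
      (hfull _ (hb h h1)).1 ▸ Finset.mem_erase.mpr ⟨hb h' h1', Finset.mem_univ _⟩
    obtain ⟨g, hg⟩ := Set.mem_toFinset.mp this
    have hconj : (g : G) * h * (g : G)⁻¹ = h' := by
      have hm : (g : G) * h * (g : G)⁻¹ ∈ H := hN.conj_mem _ h.2 _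
      refine (inv_mul_eq_one.mp (hreg ((h' : G)⁻¹ * ((g : G) * h * (g : G)⁻¹)) (mul_mem (inv_mem h'.2) hm) ?_)).symm
      have hg' : (g : G) • (h : G) • a = (h' : G) • a := hg
      have hga : (g : G)⁻¹ • a = a := inv_smul_eq_iff.mpr (g.2 : (g : G) • a = a).symm
      rw [mul_smul, mul_smul, mul_smul, hga, hg', inv_smul_smul]
    rw [← Subgroup.orderOf_coe h, ← Subgroup.orderOf_coe h', ← hconj]
    exact (orderOf_injective (MulAut.conj (g : G)).toMonoidHom (MulAut.conj (g : G)).injective h).symm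
  have : Nontrivial H := Finite.one_lt_card_iff_nontrivial.mp (hn ▸ hΩ)
  obtain ⟨p, hp, hpd⟩ := Nat.exists_prime_and_dvd (n := Nat.card H) (Finite.one_lt_card (α := H)).ne'
  have := Fact.mk hp
  obtain ⟨c, hc⟩ := exists_prime_orderOf_dvd_card' p hpd
  have hpg : IsPGroup p H := fun k => by
    rcases eq_or_ne k 1 with rfl | hk
    · exact ⟨0, by simp⟩
    · refine ⟨1, ?_⟩
      have hc1 : c ≠ 1 := fun h => hp.one_lt.ne (by rw [← hc, h, orderOf_one])
      rw [pow_one, ← hc, hord c hc1 k hk, pow_orderOf_eq_one]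
  obtain ⟨m, hm⟩ := IsPGroup.iff_card.mp hpg
  rw [← hn]
  refine (isPrimePow_nat_iff _).mpr ⟨p, m, hp, Nat.pos_of_ne_zero fun h0 => ?_, hm.symm⟩
  rw [h0, pow_zero] at hm
  exact (Finite.one_lt_card (α := H)).ne' hm

end Cfsg.Lib.Recog.Derangements
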