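import Cfsg.Agent.Lib.Recog.Derangements

/-! The index of the subgroup generated by fixed-point-free elements in an imprimitive group. -/

set_option autoImplicit false

open scoped Pointwise

namespace Cfsg.Lib.Recog.Derangements

open MulAction

/-- If `e` divides all orbits other than that of a fixed point, it divides the remaining count. -/
theorem dvd_card_sub_one {K X : Type*} [Group K] [MulAction K X] [Finite X] (x₀ : X)
    (h0 : ∀ k : K, k • x₀ = x₀) (e : ℕ) (he : ∀ x : X, x ≠ x₀ → e ∣ Nat.card (orbit K x)) :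
    e ∣ Nat.card X - 1 := by
  classical
  have : Fintype X := Fintype.ofFinite X
  have : Fintype (orbitRel.Quotient K X) := Fintype.ofFinite _
  rw [Nat.card_congr (MulAction.selfEquivSigmaOrbits K X), Nat.card_sigma]
  set q₀ : orbitRel.Quotient K X := Quotient.mk'' x₀ with hq₀
  rw [← Finset.add_sum_erase _ _ (Finset.mem_univ q₀)]
  have h1 : Nat.card (orbit K q₀.out) = 1 := by
    have hm : x₀ ∈ orbit K q₀.out := by
      have : (Quotient.mk'' x₀ : orbitRel.Quotient K X) = Quotient.mk'' q₀.out :=
        (Quotient.out_eq' q₀).symm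
      exact Quotient.exact' this
    obtain ⟨k, hk⟩ := hm
    have hout : q₀.out = x₀ := by
      have hk' : k • q₀.out = x₀ := hk
      rw [← inv_smul_smul k q₀.out, hk', h0]
    rw [hout, Nat.card_eq_one_iff_unique]
    exact ⟨⟨fun a b => Subtype.ext (by
      obtain ⟨u, hu⟩ := a.2
      obtain ⟨v, hv⟩ := b.2
      rw [← hu, ← hv]
      exact (h0 u).trans (h0 v).symm)⟩, ⟨⟨x₀, mem_orbit_self x₀⟩⟩⟩
  rw [h1, Nat.add_sub_cancel_left]
  refine Finset.dvd_sum fun q hq => he _ fun hx => (Finset.mem_erase.mp hq).1 ?_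
  rw [hq₀, ← hx]
  exact (Quotient.out_eq' q).symm

variable {G Ω : Type*} [Group G] [MulAction G Ω]

/-- Outside the subgroup, an element stabilising a block fixes a point of the block. -/
theorem exists_fixed_in_block [Finite G] [Finite Ω] [FaithfulSMul G Ω] [IsPretransitive G Ω] {B : Set Ω}
    (hB : IsBlock G B) {g : G} (hgB : g • B = B) {a : Ω} (ha : a ∈ B) (hg : g ∉ derSub G Ω) :
    ∃ x ∈ B, g • x = x := by
  classical
  have : Nonempty Ω := ⟨a⟩
  have : IsPretransitive (derSub G Ω) Ω := pretransitive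
  have : Fintype Ω := Fintype.ofFinite Ω
  let K : Subgroup G := derSub G Ω ⊓ stabilizer G B
  have : Fintype K := Fintype.ofFinite K
  by_contra hnone
  push Not at hnone
  let r : K → Ω → Prop := fun k x => (g * (k : G)) • x = x
  set S := B.toFinset with hS
  have hle : ∀ k : K, (S.filter (r k)).card ≤ 1 := by
    intro k
    have hkg : g * (k : G) ∉ derSub G Ω := fun h => hg (by
      have := mul_mem h (inv_mem k.2.1)
      rwa [mul_inv_cancel_right] at this)
    have h1 := main.2 _ hkg
    refine Finset.card_le_one.mpr fun x hx y hy => ?_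
    rw [Nat.card_eq_one_iff_unique] at h1
    exact congrArg Subtype.val (h1.1.elim (⟨x, (Finset.mem_filter.mp hx).2⟩ : fixedBy Ω (g * (k : G)))
      ⟨y, (Finset.mem_filter.mp hy).2⟩)
  have h0 : (S.filter (r 1)).card = 0 := by
    rw [Finset.card_eq_zero, Finset.filter_eq_empty_iff]
    intro x hx h
    refine hnone x (Set.mem_toFinset.mp hx) ?_
    simpa [r] using h
  have hfib : ∀ x ∈ S, S.card * (Finset.univ.filter fun k : K => r k x).card = Fintype.card K := by
    intro x hx
    rw [hS, Set.mem_toFinset] at hx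
    have hinv : g⁻¹ • B = B := inv_smul_eq_iff.mpr hgB.symm
    have hy : g⁻¹ • x ∈ B := hinv ▸ Set.smul_mem_smul_set hx
    have horb : ∀ y ∈ B, ∃ k : K, (k : G) • x = y := by
      intro y hyB
      obtain ⟨h, hh⟩ := exists_smul_eq (derSub G Ω) x y
      have hh' : (h : G) • x = y := hh
      exact ⟨⟨h, h.2, hB.smul_eq_of_mem hx (by rw [hh']; exact hyB)⟩, hh'⟩
    have hfibres : ∀ y ∈ S, (Finset.univ.filter fun k : K => (k : G) • x = y).card =
        (Finset.univ.filter fun k : K => (k : G) • x = g⁻¹ • x).card := by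
      intro y hyS
      obtain ⟨k₁, hk₁⟩ := horb y (Set.mem_toFinset.mp hyS)
      obtain ⟨k₂, hk₂⟩ := horb _ hy
      refine Finset.card_equiv (Equiv.mulLeft (k₂ * k₁⁻¹)) fun k => ?_
      simp only [Finset.mem_filter, Finset.mem_univ, true_and, Equiv.coe_mulLeft, Subgroup.coe_mul,
        Subgroup.coe_inv, mul_smul]
      rw [← hk₁, ← hk₂, smul_left_cancel_iff, inv_smul_eq_iff]
    have hsum := Finset.card_eq_sum_card_fiberwise (f := fun k : K => (k : G) • x)
      (s := (Finset.univ : Finset K)) (t := S) fun k _ => Set.mem_toFinset.mpr (by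
        have hkB : (k : G) • B = B := k.2.2
        rw [← hkB]
        exact Set.smul_mem_smul_set hx)
    rw [Finset.sum_congr rfl hfibres, Finset.sum_const, smul_eq_mul, Finset.card_univ] at hsum
    rw [hsum]
    congr 2
    ext k
    simp only [Finset.mem_filter, Finset.mem_univ, true_and, r, mul_smul]
    exact (eq_inv_smul_iff).symm
  have hbip := Finset.sum_card_bipartiteAbove_eq_sum_card_bipartiteBelow (r := r)
    (s := (Finset.univ : Finset K)) (t := S)
  simp only [Finset.bipartiteAbove, Finset.bipartiteBelow] at hbip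
  have hSpos : 0 < S.card := Finset.card_pos.mpr ⟨a, Set.mem_toFinset.mpr ha⟩
  have h1 : ∑ x ∈ S, (Finset.univ.filter fun k : K => r k x).card = Fintype.card K := by
    refine Nat.eq_of_mul_eq_mul_left hSpos ?_
    rw [Finset.mul_sum, Finset.sum_congr rfl hfib, Finset.sum_const, smul_eq_mul]
  have h2 : ∑ k : K, (S.filter (r k)).card < ∑ _k : K, 1 :=
    Finset.sum_lt_sum (fun k _ => hle k) ⟨1, Finset.mem_univ _, by omega⟩
  rw [hbip, h1, ← Finset.card_eq_sum_ones, Finset.card_univ] at h2
  exact lt_irrefl _ h2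

/-- In an imprimitive group the index is less than the size and the number of blocks. -/
theorem index_sq_le [Finite G] [Finite Ω] [FaithfulSMul G Ω] [IsPretransitive G Ω] {B : Set Ω}
    (hB : IsBlock G B) (hns : ¬ B.Subsingleton) (hnu : B ≠ Set.univ) :
    ((derSub G Ω).index + 1) ^ 2 ≤ Nat.card Ω := by
  classical
  obtain ⟨a, ha, b, hb, hab⟩ := Set.not_subsingleton_iff.mp hns
  have : Nonempty Ω := ⟨a⟩
  have : IsPretransitive (derSub G Ω) Ω := pretransitive
  have hsup : derSub G Ω ⊔ stabilizer G a = ⊤ := by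
    rw [eq_top_iff]
    intro g _
    obtain ⟨h, hh⟩ := exists_smul_eq (derSub G Ω) (g • a) a
    have : g = (h : G)⁻¹ * ((h : G) * g) := by group
    rw [this]
    exact mul_mem (Subgroup.mem_sup_left (inv_mem h.2)) (Subgroup.mem_sup_right (by
      rw [mem_stabilizer_iff, mul_smul]; exact hh))
  have hN := derSub_normal (G := G) (Ω := Ω)
  set e := (derSub G Ω).index with he
  have hrel : ∀ K : Subgroup G, stabilizer G a ≤ K → (derSub G Ω).relIndex K = e := by
    intro K hK
    rw [← Subgroup.relIndex_sup_right K (derSub G Ω),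
      show K ⊔ derSub G Ω = ⊤ from top_le_iff.mp (hsup ▸ sup_le le_sup_right (hK.trans le_sup_left)),
      Subgroup.relIndex_top_right]
  -- the points of the block
  have hb1 : e ∣ Nat.card B - 1 := by
    let act : MulAction (stabilizer G a) B :=
      { smul := fun g x => ⟨(g : G) • (x : Ω), by
          have hg : (g : G) • B = B := hB.smul_eq_of_mem ha (by rw [show (g : G) • a = a from g.2]; exact ha)
          exact hg.subset (Set.smul_mem_smul_set x.2)⟩
        one_smul := fun x => Subtype.ext (one_smul G (x : Ω))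
        mul_smul := fun g g' x => Subtype.ext (mul_smul (g : G) (g' : G) (x : Ω)) }
    refine @dvd_card_sub_one (stabilizer G a) B _ act _ (⟨a, ha⟩ : B) (fun g => Subtype.ext g.2) e
      (fun x hx => ?_)
    rw [Nat.card_coe_set_eq, ← @index_stabilizer (stabilizer G a) B _ act x, ← hrel _ le_rfl]
    refine Subgroup.index_dvd_of_le fun g hg => ?_
    by_contra hgH
    have h1 := main.2 (g : G) hgH
    rw [Nat.card_eq_one_iff_unique] at h1
    apply hx
    apply Subtype.ext
    exact congrArg (fun w : fixedBy Ω (g : G) => (w : Ω)) (h1.1.elim (⟨x, congrArg Subtype.val hg⟩ : fixedBy Ω (g : G)) ⟨a, g.2⟩)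
  -- the blocks
  have hc1 : e ∣ Nat.card (orbit G B) - 1 := by
    let act : MulAction (stabilizer G B) (orbit G B) :=
      { smul := fun g C => ⟨(g : G) • (C : Set Ω), by
          obtain ⟨y, hy⟩ := C.2
          exact ⟨(g : G) * y, by simp only [mul_smul]; rw [← hy]⟩⟩
        one_smul := fun C => Subtype.ext (one_smul G (C : Set Ω))
        mul_smul := fun g g' C => Subtype.ext (mul_smul (g : G) (g' : G) (C : Set Ω)) }
    refine @dvd_card_sub_one (stabilizer G B) (orbit G B) _ act _ (⟨B, mem_orbit_self B⟩ : orbit G B)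
      (fun g => Subtype.ext g.2) e (fun C hC => ?_)
    rw [Nat.card_coe_set_eq, ← @index_stabilizer (stabilizer G B) (orbit G B) _ act C,
      ← hrel _ (hB.stabilizer_le ha)]
    refine Subgroup.index_dvd_of_le fun g hg => ?_
    by_contra hgH
    obtain ⟨y, hy⟩ := C.2
    have hgC : (g : G) • (C : Set Ω) = (C : Set Ω) := congrArg Subtype.val hg
    have hy' : y • B = (C : Set Ω) := hy
    obtain ⟨x, hxB, hx⟩ := exists_fixed_in_block hB g.2 ha hgH
    obtain ⟨z, hzC, hz⟩ := exists_fixed_in_block (hB.translate y) (hy'.symm ▸ hgC)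
      (Set.smul_mem_smul_set ha) hgH
    have hdis : Disjoint (y • B) B := by
      have hne : y • B ≠ B := fun h => hC (Subtype.ext (hy'.symm.trans h))
      simpa using hB (g₁ := y) (g₂ := 1) (by simpa using hne)
    have h1 := main.2 (g : G) hgH
    rw [Nat.card_eq_one_iff_unique] at h1
    have hxz : x = z := congrArg Subtype.val (h1.1.elim (⟨x, hx⟩ : fixedBy Ω (g : G)) ⟨z, hz⟩)
    exact Set.disjoint_left.mp hdis hzC (hxz ▸ hxB)
  have hmul := hB.ncard_block_mul_ncard_orbit_eq ⟨a, ha⟩
  rw [← Nat.card_coe_set_eq, ← Nat.card_coe_set_eq] at hmul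
  have hb2 : 2 ≤ Nat.card B := by
    have : Nontrivial B := ⟨⟨a, ha⟩, ⟨b, hb⟩, fun h => hab (congrArg Subtype.val h)⟩
    exact Finite.one_lt_card
  have hc2 : 2 ≤ Nat.card (orbit G B) := by
    by_contra hlt
    have : Nonempty (orbit G B) := ⟨⟨B, mem_orbit_self B⟩⟩
    have h1 : Nat.card (orbit G B) = 1 := by
      have := Nat.card_pos (α := orbit G B)
      omega
    rw [h1, mul_one, Nat.card_coe_set_eq] at hmul
    exact hnu (Set.eq_of_subset_of_ncard_le (Set.subset_univ B) (by rw [Set.ncard_univ, hmul]) (Set.toFinite _))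
  have h1 : e ≤ Nat.card B - 1 := Nat.le_of_dvd (by omega) hb1
  have h2 : e ≤ Nat.card (orbit G B) - 1 := Nat.le_of_dvd (by omega) hc1
  rw [← hmul, sq]
  exact Nat.mul_le_mul (by omega) (by omega)

end Cfsg.Lib.Recog.Derangements
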