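import Mathlib

/-! Frobenius groups of affine maps x ↦ u x + v of a finite field. -/

set_option autoImplicit false

namespace Cfsg.Lib.Recog.FieldFrobenius

variable {K : Type} [Field K] [Finite K]

/-- Multiplication by units. -/
def act (U : Subgroup Kˣ) : U →* MulAut (Multiplicative K) where
  toFun u :=
    { toFun := fun v => Multiplicative.ofAdd (((u : Kˣ) : K) * v.toAdd)
      invFun := fun v => Multiplicative.ofAdd ((((u : Kˣ)⁻¹ : Kˣ) : K) * v.toAdd)
      left_inv := fun v => by simp [← mul_assoc]
      right_inv := fun v => by simp [← mul_assoc]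
      map_mul' := fun v w => by simp [mul_add] }
  map_one' := by ext v; simp
  map_mul' u w := by ext v; simp [mul_assoc]

abbrev Aff (U : Subgroup Kˣ) : Type := SemidirectProduct (Multiplicative K) U (act U)

theorem pow_left (U : Subgroup Kˣ) (a : Aff U) (n : ℕ) :
    (a ^ n).left.toAdd * (((a.right : Kˣ) : K) - 1) = a.left.toAdd * (((a.right : Kˣ) : K) ^ n - 1) ∧
      (a ^ n).right = a.right ^ n := by
  induction n with
  | zero => simp
  | succ n ih =>
    rw [pow_succ']
    refine ⟨?_, by rw [SemidirectProduct.mul_right, ih.2, pow_succ']⟩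
    rw [SemidirectProduct.mul_left, show ((act U) a.right) (a ^ n).left =
      Multiplicative.ofAdd (((a.right : Kˣ) : K) * (a ^ n).left.toAdd) from rfl, toAdd_mul, toAdd_ofAdd, pow_succ']
    linear_combination (((a.right : Kˣ) : K)) * ih.1

theorem range_aff (p : ℕ) [Fact p.Prime] [CharP K p] (U : Subgroup Kˣ) :
    Finite (Aff U) ∧ Group.IsSolvable (Aff U) ∧
      Set.range (orderOf : Aff U → ℕ) = {n | n = p ∨ n ∣ Nat.card U} := by
  classical
  refine ⟨Finite.of_equiv _ SemidirectProduct.equivProd.symm, ?_, ?_⟩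
  · exact solvable_of_ker_le_range (SemidirectProduct.inl (φ := act U)) (SemidirectProduct.rightHom (φ := act U))
      (by rw [SemidirectProduct.range_inl_eq_ker_rightHom])
  have hcyc : IsCyclic U := inferInstance
  ext n
  constructor
  · rintro ⟨a, rfl⟩
    by_cases hu : a.right = 1
    · have hpk : ∀ k : ℕ, (a ^ k).left.toAdd = (k : K) * a.left.toAdd := by
        intro k
        induction k with
        | zero => simp
        | succ k ih =>
          rw [pow_succ', SemidirectProduct.mul_left, hu, map_one, MulAut.one_apply, toAdd_mul, ih]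
          push_cast; ring
      have h : a ^ p = 1 := by
        refine SemidirectProduct.ext ?_ ?_
        · refine Multiplicative.toAdd.injective ?_
          rw [hpk, CharP.cast_eq_zero, zero_mul]; rfl
        · rw [(pow_left U a p).2, hu, one_pow]; rfl
      rcases (Nat.dvd_prime Fact.out).1 (orderOf_dvd_of_pow_eq_one h) with h | h
      · exact Or.inr (by rw [h]; exact one_dvd _)
      · exact Or.inl h
    · refine Or.inr (orderOf_dvd_of_pow_eq_one ?_)
      have hc : a.right ^ Nat.card U = 1 := pow_card_eq_one'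
      obtain ⟨h1, h2⟩ := pow_left U a (Nat.card U)
      refine SemidirectProduct.ext (Multiplicative.toAdd.injective ?_) (h2.trans hc)
      have hcK : ((a.right : Kˣ) : K) ^ Nat.card U = 1 := by
        rw [← Units.val_pow_eq_pow_val, ← Subgroup.coe_pow, hc]; rfl
      rw [hcK, sub_self, mul_zero] at h1
      refine (mul_eq_zero.1 h1).resolve_right (sub_ne_zero.2 fun h => hu ?_)
      exact Subtype.ext (Units.ext h)
  · rintro (rfl | h)
    · refine ⟨SemidirectProduct.inl (Multiplicative.ofAdd 1), ?_⟩
      rw [orderOf_injective _ SemidirectProduct.inl_injective, orderOf_ofAdd_eq_addOrderOf]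
      exact CharP.eq K (CharP.addOrderOf_one K) inferInstance ▸ rfl
    · obtain ⟨g, hg⟩ := IsCyclic.exists_ofOrder_eq_natCard (α := U)
      refine ⟨SemidirectProduct.inr (g ^ (orderOf g / n)), ?_⟩
      rw [orderOf_injective _ SemidirectProduct.inr_injective]
      exact orderOf_pow_orderOf_div (orderOf_pos g).ne' (hg ▸ h)

theorem exists_units_card (d : ℕ) (hd : d ∣ Nat.card Kˣ) : ∃ U : Subgroup Kˣ, Nat.card U = d := by
  obtain ⟨g, hg⟩ := IsCyclic.exists_ofOrder_eq_natCard (α := Kˣ)
  exact ⟨Subgroup.zpowers (g ^ (orderOf g / d)), by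
    rw [Nat.card_zpowers, orderOf_pow_orderOf_div (orderOf_pos g).ne' (hg ▸ hd)]⟩

theorem exists_zeta (a b : ℕ) [ha : Fact a.Prime] (hb : b.Prime) (hab : a ≠ b) :
    ∃ d : ℕ, d ≠ 0 ∧ b ∣ a ^ d - 1 ∧ (∀ e : ℕ, e ≠ 0 → b ∣ a ^ e - 1 → d ≤ e) ∧ (d = 1 → b < a) := by
  classical
  have hex : ∃ e : ℕ, e ≠ 0 ∧ b ∣ a ^ e - 1 := by
    refine ⟨b - 1, by have := hb.two_le; omega, ?_⟩
    rw [← Nat.modEq_iff_dvd' (Nat.one_le_pow _ _ ha.out.pos)]
    have := Nat.ModEq.pow_totient ((Nat.coprime_primes ha.out hb).2 hab)
    rw [Nat.totient_prime hb] at this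
    exact this.symm
  refine ⟨Nat.find hex, (Nat.find_spec hex).1, (Nat.find_spec hex).2, fun e he hd => Nat.find_min' hex ⟨he, hd⟩, fun h1 => ?_⟩
  have h := (Nat.find_spec hex).2
  rw [h1, pow_one] at h
  have := Nat.le_of_dvd (by have := ha.out.two_le; omega) h
  omega

/-- With a minimal field, the affine group has no proper subgroup with both kinds of elements. -/
theorem minimal (a b d : ℕ) [Fact a.Prime] [CharP K a] [hb : Fact b.Prime] (hK : Nat.card K = a ^ d)
    (hmin : ∀ e : ℕ, e ≠ 0 → b ∣ a ^ e - 1 → d ≤ e) (U : Subgroup Kˣ) (hU : Nat.card U = b) :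
    (∀ X : Subgroup (Aff U), (∃ x ∈ X, orderOf x = a) → (∃ y ∈ X, orderOf y = b) → a ≠ b → X = ⊤) ∧
    (∀ N : Subgroup (Aff U), N.Normal → N ≠ ⊥ → ∀ v : Multiplicative K, SemidirectProduct.inl v ∈ N) := by
  classical
  have hnontriv : ∀ u : U, u ≠ 1 → ∀ S : Subring K, ((u : Kˣ) : K) ∈ S → S = ⊤ := by
    intro u hu S hS
    haveI : Fintype S := Fintype.ofFinite S
    letI : Field S := Fintype.fieldOfDomain S
    obtain ⟨e, hp, he⟩ := FiniteField.card S a
    have hu' : orderOf (⟨((u : Kˣ) : K), hS⟩ : S) = b := by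
      have h1 : orderOf u = b := by
        rcases (Nat.dvd_prime hb.out).1 (hU ▸ orderOf_dvd_natCard u) with h | h
        · exact absurd (orderOf_eq_one_iff.1 h) hu
        · exact h
      rw [← h1, ← orderOf_injective (S.subtype : S →* K) Subtype.val_injective]
      show orderOf (((u : Kˣ)) : K) = _
      rw [orderOf_units, Subgroup.orderOf_coe]
    have hd : b ∣ a ^ (e : ℕ) - 1 := by
      rw [← he, ← hu']
      exact orderOf_dvd_of_pow_eq_one (FiniteField.pow_card_sub_one_eq_one _ fun h => (u : Kˣ).ne_zero (congrArg Subtype.val h))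
    have hle := Nat.pow_le_pow_right (Fact.out : a.Prime).pos (hmin e e.ne_zero hd)
    rw [← hK, ← he, ← Nat.card_eq_fintype_card] at hle
    have hbij : Function.Bijective (Subtype.val : S → K) :=
      (Nat.bijective_iff_injective_and_card _).2 ⟨Subtype.val_injective, le_antisymm
        (Nat.card_le_card_of_injective _ Subtype.val_injective) hle⟩
    refine eq_top_iff.2 fun x _ => ?_
    obtain ⟨y, rfl⟩ := hbij.2 x
    exact y.2
  have hspan : ∀ X : Subgroup (Aff U), ∀ u : U, u ≠ 1 →
      (∀ v : Multiplicative K, SemidirectProduct.inl v ∈ X → SemidirectProduct.inl (act U u v) ∈ X) →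
      ∀ v₀ : Multiplicative K, v₀ ≠ 1 → SemidirectProduct.inl v₀ ∈ X → ∀ v : Multiplicative K, SemidirectProduct.inl v ∈ X := by
    intro X u hu hst v₀ hv₀ hmem v
    let S : Subring K :=
      { carrier := {c | ∀ w : K, SemidirectProduct.inl (Multiplicative.ofAdd w) ∈ X →
          SemidirectProduct.inl (Multiplicative.ofAdd (c * w)) ∈ X}
        mul_mem' := fun {c c'} h h' w hw => by rw [mul_assoc]; exact h _ (h' w hw)
        one_mem' := fun w hw => by rwa [one_mul]
        add_mem' := fun {c c'} h h' w hw => by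
          rw [add_mul, ofAdd_add, map_mul]; exact mul_mem (h w hw) (h' w hw)
        zero_mem' := fun w _ => by rw [zero_mul, ofAdd_zero, map_one]; exact one_mem X
        neg_mem' := fun {c} h w hw => by rw [neg_mul, ofAdd_neg, map_inv]; exact inv_mem (h w hw) }
    have hS : S = ⊤ := hnontriv u hu S fun w hw => hst _ hw
    have hc : v.toAdd / v₀.toAdd ∈ S := by rw [hS]; trivial
    have h := hc v₀.toAdd hmem
    rwa [div_mul_cancel₀ _ (fun h => hv₀ (Multiplicative.toAdd.injective h))] at h
  have hconj : ∀ (x : Aff U) (v : Multiplicative K),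
      x * SemidirectProduct.inl v * x⁻¹ = SemidirectProduct.inl (act U x.right v) := fun x v => by
    refine SemidirectProduct.ext ?_ ?_
    · simp [SemidirectProduct.mul_left, SemidirectProduct.inv_left, mul_comm, mul_left_comm]
    · simp
  refine ⟨?_, ?_⟩
  · rintro X ⟨x, hx, hxo⟩ ⟨y, hy, hyo⟩ hab
    have hxr : x.right = 1 := by
      have h1 : orderOf x.right ∣ a := hxo ▸ orderOf_map_dvd (SemidirectProduct.rightHom (φ := act U)) x
      have h2 : orderOf x.right ∣ b := hU ▸ orderOf_dvd_natCard x.right
      exact orderOf_eq_one_iff.1 (Nat.eq_one_of_dvd_coprimes ((Nat.coprime_primes Fact.out hb.out).2 hab) h1 h2)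
    have hyr : y.right ≠ 1 := fun h => by
      have hy1 : y ^ a = 1 := by
        refine SemidirectProduct.ext (Multiplicative.toAdd.injective ?_) (by rw [(pow_left U y a).2, h, one_pow]; rfl)
        have hpk : ∀ k : ℕ, (y ^ k).left.toAdd = (k : K) * y.left.toAdd := by
          intro k
          induction k with
          | zero => simp
          | succ k ih => rw [pow_succ', SemidirectProduct.mul_left, h, map_one, MulAut.one_apply, toAdd_mul, ih]; push_cast; ring
        rw [hpk, CharP.cast_eq_zero, zero_mul]; rfl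
      exact hab ((Nat.prime_dvd_prime_iff_eq hb.out Fact.out).1 (hyo ▸ orderOf_dvd_of_pow_eq_one hy1)).symm
    have hxi : SemidirectProduct.inl x.left = x := SemidirectProduct.ext (by simp) (by simp [hxr])
    have hall := hspan X y.right hyr (fun v hv => by rw [← hconj]; exact mul_mem (mul_mem hy hv) (inv_mem hy)) x.left
      (fun h => by
        rw [← hxi, h, map_one, orderOf_one] at hxo
        exact (Fact.out : a.Prime).ne_one hxo.symm) (hxi.symm ▸ hx)
    refine eq_top_iff.2 fun g _ => ?_
    obtain ⟨i, hi⟩ := mem_zpowers_of_prime_card (G := U) (g' := g.right) hU hyr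
    have hgr : (g * (y ^ i)⁻¹).right = 1 := by
      have : (y ^ i).right = y.right ^ i := map_zpow (SemidirectProduct.rightHom (φ := act U)) y i
      rw [SemidirectProduct.mul_right, SemidirectProduct.inv_right, this, show y.right ^ i = g.right from hi, mul_inv_cancel]
    have he : SemidirectProduct.inl (g * (y ^ i)⁻¹).left = g * (y ^ i)⁻¹ := SemidirectProduct.ext (by simp) (by simp [hgr])
    have h := hall (g * (y ^ i)⁻¹).left
    rw [he] at h
    simpa using mul_mem h (zpow_mem hy i)
  · intro N hN hne
    obtain ⟨n, hn, hn1⟩ := (Subgroup.bot_or_exists_ne_one N).resolve_left hne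
    obtain ⟨w, hw1, hw⟩ : ∃ w : Multiplicative K, w ≠ 1 ∧ SemidirectProduct.inl w ∈ N := by
      by_cases hr : n.right = 1
      · have he : SemidirectProduct.inl n.left = n := SemidirectProduct.ext (by simp) (by simp [hr])
        exact ⟨n.left, fun h => hn1 (by rw [← he, h, map_one]), he.symm ▸ hn⟩
      · refine ⟨act U n.right (Multiplicative.ofAdd 1) * (Multiplicative.ofAdd (1 : K))⁻¹, fun h => hr ?_, ?_⟩
        · rw [mul_inv_eq_one] at h
          have h' := congrArg Multiplicative.toAdd h
          change ((n.right : Kˣ) : K) * 1 = 1 at h'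
          rw [mul_one] at h'
          exact Subtype.ext (Units.ext h')
        · rw [map_mul, map_inv, ← hconj, mul_assoc, mul_assoc]
          refine mul_mem hn ?_
          have := hN.conj_mem _ (inv_mem hn) (SemidirectProduct.inl (Multiplicative.ofAdd (1 : K)))
          simpa [mul_assoc] using this
    haveI : Nontrivial U := Finite.one_lt_card_iff_nontrivial.1 (hU ▸ hb.out.one_lt)
    obtain ⟨u, hu⟩ := exists_ne (1 : U)
    refine hspan N u hu (fun v hv => ?_) w hw1 hw
    have := hN.conj_mem _ hv (SemidirectProduct.inr u)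
    rw [hconj] at this
    simpa using this

end Cfsg.Lib.Recog.FieldFrobenius
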