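import Mathlib
import Cfsg.Agent.Lib.Solv.Coprime
import Cfsg.Agent.Lib.Solv.Coprime2
import Cfsg.Agent.Lib.Solv.Frobenius
import Cfsg.Agent.Lib.Solv.PGroupBasic
import Cfsg.Agent.Lib.Solv.MaximalPLength

/-! A Frobenius group acting on a coprime normal subgroup yields elements of larger order. -/

set_option autoImplicit false

namespace Cfsg.Lib.Recog.FrobeniusModule

open Subgroup
open scoped Pointwise commutatorElement

/-- If all traces over the complement are trivial then the kernel acts trivially. -/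
theorem trivial_of_trace {X V : Type*} [Group X] [CommGroup V] [Finite V] (ρ : X →* MulAut V)
    (Q : Subgroup X) [Finite Q] (hcop : (Nat.card V).Coprime (Nat.card Q)) (h : X) (m : ℕ) (hm : 0 < m)
    (hn : ∀ u ∈ Q, h * u * h⁻¹ ∈ Q)
    (hfpf : ∀ i : ℕ, 0 < i → i < m → ∀ u ∈ Q, h ^ i * u = u * h ^ i → u = 1)
    (hT : ∀ v : V, ∏ i ∈ Finset.range m, ρ (h ^ i) v = 1) :
    ∀ u ∈ Q, ∀ v : V, ρ u v = v := by
  classical
  letI := Fintype.ofFinite Q
  have hni : ∀ (i : ℕ), ∀ u ∈ Q, h ^ i * u * (h ^ i)⁻¹ ∈ Q := by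
    intro i
    induction i with
    | zero => intro u hu; simpa using hu
    | succ i ih =>
      intro u hu
      have := hn _ (ih u hu)
      rw [pow_succ']
      rwa [show h * h ^ i * u * (h * h ^ i)⁻¹ = h * (h ^ i * u * (h ^ i)⁻¹) * h⁻¹ by group]
  have hbij : ∀ i, 0 < i → i < m → ∀ w : V,
      ∏ u : Q, ρ ((u : X) * h ^ i * (u : X)⁻¹) w = ∏ u : Q, ρ (u : X) (ρ (h ^ i) w) := by
    intro i hi him w
    let ψ : Q → Q := fun u => ⟨(u : X) * (h ^ i * (u : X)⁻¹ * (h ^ i)⁻¹), Q.mul_mem u.2 (hni i _ (Q.inv_mem u.2))⟩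
    have hψ : Function.Bijective ψ := by
      refine (Finite.injective_iff_bijective).1 fun a b hab => ?_
      have h1 : (a : X) * (h ^ i * (a : X)⁻¹ * (h ^ i)⁻¹) = (b : X) * (h ^ i * (b : X)⁻¹ * (h ^ i)⁻¹) :=
        congrArg Subtype.val hab
      have h2 : h ^ i * ((b : X)⁻¹ * a)⁻¹ = ((b : X)⁻¹ * a)⁻¹ * h ^ i := by
        have h3 := congrArg (fun x => (a : X)⁻¹ * x * h ^ i * (b : X)) h1
        simp only [← mul_assoc, inv_mul_cancel, one_mul, inv_mul_cancel_right] at h3
        rw [mul_inv_rev, inv_inv]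
        simpa [mul_assoc] using h3
      have h4 := hfpf i hi him _ (Q.inv_mem (Q.mul_mem (Q.inv_mem b.2) a.2)) h2
      exact Subtype.ext (inv_mul_eq_one.1 (inv_eq_one.1 h4)).symm
    refine Fintype.prod_bijective ψ hψ _ _ fun u => ?_
    show ρ ((u : X) * h ^ i * (u : X)⁻¹) w = ρ ((u : X) * (h ^ i * (u : X)⁻¹ * (h ^ i)⁻¹)) (ρ (h ^ i) w)
    rw [← MulAut.mul_apply, ← map_mul]
    congr 2
    group
  let TQ : V → V := fun w => ∏ u : Q, ρ (u : X) w
  have key : ∀ v : V, v ^ Nat.card Q = TQ v := by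
    intro v
    have h1 : ∏ u : Q, ρ (u : X) (∏ i ∈ Finset.range m, ρ (h ^ i) (ρ (u : X)⁻¹ v)) = 1 :=
      Finset.prod_eq_one fun u _ => by rw [hT, map_one]
    simp only [map_prod, ← MulAut.mul_apply, ← map_mul, ← mul_assoc] at h1
    rw [Finset.prod_comm, Finset.range_eq_Ico, Finset.prod_eq_prod_Ico_succ_bot hm] at h1
    have h2 : ∀ i ∈ Finset.Ico 1 m, ∏ u : Q, ρ ((u : X) * h ^ i * (u : X)⁻¹) v = TQ (ρ (h ^ i) v) := fun i hi => by
      rw [Finset.mem_Ico] at hi
      exact hbij i (by omega) hi.2 v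
    rw [Finset.prod_congr rfl h2] at h1
    have h3 : TQ v * ∏ i ∈ Finset.Ico 1 m, TQ (ρ (h ^ i) v) = 1 := by
      have h4 : ∏ u : Q, ρ (u : X) (∏ i ∈ Finset.range m, ρ (h ^ i) v) = 1 :=
        Finset.prod_eq_one fun u _ => by rw [hT, map_one]
      simp only [map_prod] at h4
      rw [Finset.prod_comm, Finset.range_eq_Ico, Finset.prod_eq_prod_Ico_succ_bot hm] at h4
      simpa [TQ] using h4
    have h5 : ∏ u : Q, ρ ((u : X) * h ^ 0 * (u : X)⁻¹) v = v ^ Nat.card Q := by
      rw [Finset.prod_congr rfl (g := fun _ => v) (fun u _ => by simp),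
        Finset.prod_const, Finset.card_univ, Nat.card_eq_fintype_card]
    rw [h5] at h1
    exact mul_right_cancel (h1.trans h3.symm)
  intro u0 hu0 v
  have hfix : ρ u0 (TQ v) = TQ v := by
    simp only [TQ, map_prod, ← MulAut.mul_apply, ← map_mul]
    exact Fintype.prod_bijective (fun u : Q => (⟨u0, hu0⟩ : Q) * u) (Group.mulLeft_bijective _) _ _ fun u => rfl
  have h1 : (ρ u0 v) ^ Nat.card Q = v ^ Nat.card Q := by rw [← map_pow, key, hfix]
  exact (powCoprime hcop).injective h1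

/-- The coset of a complement generator is conjugate to it. -/
theorem exists_conj_normalizing {B : Type*} [Group B] [Finite B] (F : Subgroup B) [hF : F.Normal] (g : B)
    (hg : ∀ u ∈ F, g * u = u * g → u = 1) (R : Subgroup B) (hR : R ≤ F) (q : ℕ) [Fact q.Prime]
    (hRs : ∃ P : Sylow q F, (P : Subgroup F).map F.subtype = R) :
    ∃ b : B, ∀ r ∈ R, (b * g * b⁻¹) * r * (b * g * b⁻¹)⁻¹ ∈ R := by
  classical
  obtain ⟨P, hP⟩ := hRs
  have hgn : g ∈ normalizer (F : Set B) := by rw [normalizer_eq_top]; exact mem_top g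
  have hle : MulAut.conj g • R ≤ F :=
    (smul_le_smul_left _ hR).trans (Solv.conj_smul_eq_self_iff.2 hgn).le
  obtain ⟨P', hP'⟩ := Solv.exists_sylow_map_eq (Q := MulAut.conj g • R) hle P
    (by rw [Solv.card_conj_smul, ← hP, Solv.card_map_subtype'])
  obtain ⟨k, hk, hk'⟩ := Solv.sylow_conj_eq P P'
  rw [hP, hP'] at hk'
  -- `k⁻¹ * g` normalises `R` and is conjugate to `g`
  let ψ : F → F := fun b => ⟨(b : B) * (g * (b : B)⁻¹ * g⁻¹), F.mul_mem b.2 (hF.conj_mem _ (F.inv_mem b.2) g)⟩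
  have hψ : Function.Surjective ψ := by
    refine Finite.injective_iff_surjective.1 fun a b hab => ?_
    have h1 : (a : B) * (g * (a : B)⁻¹ * g⁻¹) = (b : B) * (g * (b : B)⁻¹ * g⁻¹) := congrArg Subtype.val hab
    have h2 : g * ((b : B)⁻¹ * a)⁻¹ = ((b : B)⁻¹ * a)⁻¹ * g := by
      have h3 := congrArg (fun x => (a : B)⁻¹ * x * g * (b : B)) h1
      simp only [← mul_assoc, inv_mul_cancel, one_mul, inv_mul_cancel_right] at h3
      rw [mul_inv_rev, inv_inv]
      simpa [mul_assoc] using h3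
    exact Subtype.ext (inv_mul_eq_one.1 (inv_eq_one.1 (hg _ (F.inv_mem (F.mul_mem (F.inv_mem b.2) a.2)) h2))).symm
  obtain ⟨b, hb⟩ := hψ ⟨k⁻¹, F.inv_mem hk⟩
  refine ⟨b, fun r hr => ?_⟩
  have hb' : (b : B) * g * (b : B)⁻¹ = k⁻¹ * g := by
    have := congrArg Subtype.val hb
    simp only [ψ] at this
    rw [← this]; group
  rw [hb']
  have hn : k⁻¹ * g ∈ normalizer (R : Set B) := by
    rw [← Solv.conj_smul_eq_self_iff, map_mul, mul_smul, ← hk', ← mul_smul, ← map_mul, inv_mul_cancel, map_one, one_smul]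
  exact (mem_normalizer_iff.1 hn r).1 hr

theorem frattini_quotient_comm {P : Type*} [Group P] [Finite P] {p : ℕ} [Fact p.Prime] (hP : IsPGroup p P)
    (a b : P ⧸ frattini P) : a * b = b * a := by
  induction a using QuotientGroup.induction_on with
  | _ x =>
  induction b using QuotientGroup.induction_on with
  | _ y =>
  rw [← QuotientGroup.mk_mul, ← QuotientGroup.mk_mul, QuotientGroup.eq]
  refine Solv.commutator_le_frattini hP ?_
  rw [show (x * y)⁻¹ * (y * x) = ⁅y⁻¹, x⁻¹⁆ by rw [commutatorElement_def]; group]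
  exact commutator_mem_commutator (mem_top _) (mem_top _)

theorem main {G : Type*} [Group G] [Finite G] (N : Subgroup G) [hN : N.Normal]
    (Fb Hb : Subgroup (G ⧸ N)) [hFb : Fb.Normal] (hHb : Cfsg.IsFrobeniusComplement Hb)
    (hd : Fb ⊓ Hb = ⊥)
    (hcyc : IsCyclic Hb) (hcop : (Nat.card Fb).Coprime (Nat.card N))
    (hnot : ¬ Fb ≤ (centralizer (N : Set G)).map (QuotientGroup.mk' N)) :
    ∃ p : ℕ, p.Prime ∧ p ∣ Nat.card N ∧ ∃ g : G, orderOf g = p * Nat.card Hb := by
  classical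
  by_contra hnone
  push Not at hnone
  set π := QuotientGroup.mk' N with hπ
  have hker : ∀ x, π x = 1 ↔ x ∈ N := fun x => QuotientGroup.eq_one_iff x
  have hsurj : Function.Surjective π := QuotientGroup.mk'_surjective N
  set m := Nat.card Hb with hm
  have hm0 : 0 < m := Nat.card_pos
  obtain ⟨⟨g0, hg0H⟩, hgen⟩ := hcyc.exists_generator
  have hg0o : orderOf g0 = m := by
    rw [hm, ← orderOf_eq_card_of_forall_mem_zpowers hgen]
    exact (Subgroup.orderOf_coe (⟨g0, hg0H⟩ : Hb))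
  -- every lift of an element of order `m` has order `m`
  have hlift : ∀ x : G, orderOf (π x) = m → x ^ m = 1 := by
    intro x hx
    by_contra hxm
    obtain ⟨r, hr⟩ : m ∣ orderOf x := hx ▸ orderOf_map_dvd π x
    have hr1 : r ≠ 1 := fun h => hxm (by rw [← (show orderOf x = m by rw [hr, h, mul_one])]; exact pow_orderOf_eq_one x)
    have hr0 : r ≠ 0 := fun h => (orderOf_pos x).ne' (by rw [hr, h, mul_zero])
    have hord : orderOf (x ^ m) = r := by
      rw [orderOf_pow' x hm0.ne', hr, Nat.gcd_mul_right_left, Nat.mul_div_cancel_left r hm0]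
    have hmem : x ^ m ∈ N := (hker _).1 (by rw [map_pow, ← hx, pow_orderOf_eq_one])
    have hrN : r ∣ Nat.card N := by
      have := orderOf_dvd_natCard (⟨_, hmem⟩ : N)
      rwa [← Subgroup.orderOf_coe, hord] at this
    obtain ⟨p, hp, hpr⟩ := Nat.exists_prime_and_dvd hr1
    obtain ⟨s, rfl⟩ := hpr
    have hs0 : s ≠ 0 := fun h => hr0 (by rw [h, mul_zero])
    refine hnone p hp ((dvd_mul_right p s).trans hrN) (x ^ s) ?_
    rw [orderOf_pow' x hs0, hr, show m * (p * s) = p * m * s by ring, Nat.gcd_mul_left_left,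
      Nat.mul_div_cancel _ (Nat.pos_of_ne_zero hs0)]
  have hfix0 : ∀ i, 0 < i → i < m → ∀ u ∈ Fb, g0 ^ i * u = u * g0 ^ i → u = 1 := by
    intro i hi him u hu hc
    have h1 : g0 ^ i ≠ 1 := fun h => by
      have := Nat.le_of_dvd hi (orderOf_dvd_of_pow_eq_one h)
      omega
    have h2 : u ∈ Fb ⊓ centralizer ({g0 ^ i} : Set (G ⧸ N)) := ⟨hu, mem_centralizer_singleton_iff.2 hc.symm⟩
    rwa [Solv.frob_fpf hHb hd (Hb.pow_mem hg0H i) h1, mem_bot] at h2
  have hm1 : 1 < m := by
    rw [hm]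
    exact (Subgroup.one_lt_card_iff_ne_bot Hb).2 hHb.1
  -- a Sylow subgroup of the kernel acting non-trivially
  obtain ⟨q, hq, R, hRF, hRs, hRn⟩ : ∃ q : ℕ, Fact q.Prime ∧ ∃ R : Subgroup (G ⧸ N), R ≤ Fb ∧
      (∃ P : Sylow q Fb, (P : Subgroup Fb).map Fb.subtype = R) ∧ ¬ R ≤ (centralizer (N : Set G)).map π := by
    by_contra hcon
    push Not at hcon
    refine hnot (subgroupOf_eq_top.1 (Solv.eq_top_of_forall_sylow_le fun q hq _ => ?_))
    have := Fact.mk hq
    obtain P : Sylow q Fb := default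
    refine ⟨P, fun x hx => ?_⟩
    exact hcon q ⟨hq⟩ _ (map_subtype_le _) ⟨P, rfl⟩ ⟨x, hx, rfl⟩
  haveI := hq
  obtain ⟨b, hb⟩ := exists_conj_normalizing Fb g0 (fun u hu hc => hfix0 1 one_pos hm1 u hu (by rwa [pow_one])) R hRF q hRs
  set g := b * g0 * b⁻¹ with hg
  have hgo : orderOf g = m := by
    rw [← hg0o]
    exact (MulEquiv.orderOf_eq (MulAut.conj b) g0)
  have hfix : ∀ i, 0 < i → i < m → ∀ u ∈ Fb, g ^ i * u = u * g ^ i → u = 1 := by
    intro i hi him u hu hc
    have h1 : b⁻¹ * u * b = 1 := by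
      refine hfix0 i hi him _ (by simpa using hFb.conj_mem u hu b⁻¹) ?_
      rw [hg, conj_pow] at hc
      have := congrArg (fun x => b⁻¹ * x * b) hc
      simp only [← mul_assoc, inv_mul_cancel, one_mul, inv_mul_cancel_right] at this
      simpa [mul_assoc] using this
    calc u = b * (b⁻¹ * u * b) * b⁻¹ := by group
      _ = 1 := by rw [h1]; group
  -- lift the Sylow subgroup
  set F1 := R.comap π with hF1
  have hRp : IsPGroup q R := by obtain ⟨P, hP⟩ := hRs; rw [← hP]; exact P.isPGroup'.map _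
  obtain ⟨a, ha⟩ := hRp.exists_card_eq
  have hRne : R ≠ ⊥ := fun h => hRn (h ▸ bot_le)
  have hqN : ¬ q ∣ Nat.card N := fun hd' => by
    have h1 : q ∣ Nat.card R := by
      rw [ha]
      refine dvd_pow_self q fun h0 => hRne (card_eq_one.1 (by rw [ha, h0, pow_zero]))
    exact hq.out.ne_one (Nat.eq_one_of_dvd_coprimes hcop (h1.trans (card_dvd_of_le hRF)) hd')
  have hNF1 : N ≤ F1 := fun n hn => by
    show π n ∈ R
    rw [(hker n).2 hn]; exact R.one_mem
  obtain Q0 : Sylow q F1 := default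
  set Q : Subgroup G := (Q0 : Subgroup F1).map F1.subtype with hQ
  have hQp : IsPGroup q Q := Q0.isPGroup'.map _
  have hQF1 : Q ≤ F1 := map_subtype_le _
  have hQN : Q ⊓ N = ⊥ := by
    refine Solv.inf_eq_bot_of_coprime_card ?_
    obtain ⟨c, hc⟩ := hQp.exists_card_eq
    rw [hc]
    exact ((hq.out.coprime_iff_not_dvd).2 hqN).pow_left c
  have hQR : Q.map π = R := by
    refine eq_of_le_of_card_ge (map_le_iff_le_comap.2 hQF1) ?_
    have h1 : Nat.card F1 = q ^ a * Nat.card N := by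
      rw [hF1, ← ha, hπ, Solv.MaxPLength.card_comap_mk, mul_comm]
    have h2 : Nat.card Q = q ^ a := by
      rw [hQ, Solv.card_map_subtype', Q0.card_eq_multiplicity, h1, Nat.factorization_mul (pow_ne_zero _ hq.out.ne_zero)
        Nat.card_pos.ne', Finsupp.add_apply, Nat.factorization_eq_zero_of_not_dvd hqN, add_zero,
        hq.out.factorization_pow, Finsupp.single_eq_same]
    have h3 : Function.Injective (π.subgroupMap Q) := by
      rw [injective_iff_map_eq_one]
      intro x hx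
      have : (x : G) ∈ Q ⊓ N := ⟨x.2, (hker _).1 (congrArg Subtype.val hx)⟩
      rw [hQN, mem_bot] at this
      exact Subtype.ext this
    rw [ha, ← h2, Nat.card_congr (Equiv.ofBijective _ ⟨h3, π.subgroupMap_surjective Q⟩)]
  have hQcov : ∀ x ∈ F1, ∃ n ∈ N, ∃ u ∈ Q, x = n * u := by
    intro x hx
    have h1 : π x ∈ Q.map π := hQR.symm ▸ hx
    obtain ⟨u, hu, he⟩ := h1
    exact ⟨x * u⁻¹, (hker _).1 (by rw [map_mul, map_inv, he, mul_inv_cancel]), u, hu, (inv_mul_cancel_right x u).symm⟩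
  -- a lift normalising `Q`
  obtain ⟨x, hx⟩ := hsurj g
  obtain ⟨h1, hh1, hh1Q⟩ : ∃ h1, π h1 = g ∧ h1 ∈ normalizer (Q : Set G) := by
    have hle : MulAut.conj x • Q ≤ F1 := by
      intro y hy
      rw [Subgroup.mem_pointwise_smul_iff_inv_smul_mem] at hy
      have h2 : g * π (x⁻¹ * y * x) * g⁻¹ ∈ R := hb _ (hQF1 (by
        simpa [MulAut.smul_def, MulAut.conj_inv_apply] using hy))
      rw [← hx, ← map_inv, ← map_mul, ← map_mul] at h2
      rwa [show x * (x⁻¹ * y * x) * x⁻¹ = y by group] at h2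
    obtain ⟨P', hP'⟩ := Solv.exists_sylow_map_eq hle Q0 (by rw [Solv.card_conj_smul, hQ, Solv.card_map_subtype'])
    obtain ⟨k, hk, hk'⟩ := Solv.sylow_conj_eq Q0 P'
    rw [← hQ, hP'] at hk'
    obtain ⟨n, hn, u, hu, rfl⟩ := hQcov k hk
    refine ⟨n⁻¹ * x, by rw [map_mul, map_inv, (hker n).2 hn, inv_one, one_mul, hx], ?_⟩
    rw [← Solv.conj_smul_eq_self_iff, map_mul, mul_smul, ← hk', map_mul, mul_smul,
      Solv.conj_smul_eq_self_iff.2 (le_normalizer hu), ← mul_smul, ← map_mul, inv_mul_cancel, map_one, one_smul]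
  have hQnN : Q ≤ normalizer (N : Set G) := by rw [normalizer_eq_top]; exact le_top
  have hcopQ : (Nat.card Q).Coprime (Nat.card N) := by
    obtain ⟨c, hc⟩ := hQp.exists_card_eq
    rw [hc]
    exact ((hq.out.coprime_iff_not_dvd).2 hqN).pow_left c
  have hQsol : Group.IsSolvable Q ∨ Group.IsSolvable N := by
    left
    haveI := hQp.isNilpotent
    infer_instance
  -- a Sylow subgroup of `N` moved by `Q`
  obtain ⟨p, hp, P0, hP0inv, hP0⟩ : ∃ p : ℕ, Fact p.Prime ∧ ∃ P0 : Sylow p N,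
      Q ≤ normalizer (((P0 : Subgroup N).map N.subtype : Subgroup G) : Set G) ∧
      ¬ Q ≤ centralizer (((P0 : Subgroup N).map N.subtype : Subgroup G) : Set G) := by
    by_contra hcon
    push Not at hcon
    have hQC : Q ≤ centralizer (N : Set G) := by
      rw [le_centralizer_iff]
      refine subgroupOf_eq_top.1 (Solv.eq_top_of_forall_sylow_le fun p hp _ => ?_)
      have := Fact.mk hp
      obtain ⟨P, hP⟩ := Solv.exists_invariant_sylow Q N hQnN hcopQ hQsol p
      refine ⟨P, fun x hx => ?_⟩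
      exact (le_centralizer_iff.1 (hcon p ⟨hp⟩ P hP)) ⟨x, hx, rfl⟩
    exact hRn (hQR ▸ map_mono hQC)
  haveI := hp
  set P : Subgroup G := (P0 : Subgroup N).map N.subtype with hP
  obtain ⟨h, hh, hhQ, hhP⟩ : ∃ h, π h = g ∧ h ∈ normalizer (Q : Set G) ∧ h ∈ normalizer (P : Set G) := by
    have hle : MulAut.conj h1 • P ≤ N := (smul_le_smul_left _ (map_subtype_le _)).trans
      (Solv.conj_smul_eq_self_iff.2 (by rw [normalizer_eq_top]; exact mem_top h1)).le
    obtain ⟨P1, hP1⟩ := Solv.exists_sylow_map_eq hle P0 (by rw [Solv.card_conj_smul, hP, Solv.card_map_subtype'])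
    have hinv1 : Q ≤ normalizer (((P1 : Subgroup N).map N.subtype : Subgroup G) : Set G) := by
      intro u hu
      rw [hP1, ← Solv.conj_smul_eq_self_iff, ← mul_smul, ← map_mul,
        show u * h1 = h1 * (h1⁻¹ * u * h1) by group, map_mul, mul_smul,
        Solv.conj_smul_eq_self_iff.2 (hP0inv (by
          have := (mem_normalizer_iff''.1 hh1Q u).1 hu
          simpa using this))]
    obtain ⟨c, hcC, hc⟩ := Solv.invariant_sylow_conj Q N hQnN hcopQ hQsol P1 P0 hinv1 hP0inv
    refine ⟨(c : G) * h1, by rw [map_mul, (hker _).2 c.2, one_mul, hh1], ?_, ?_⟩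
    · refine mul_mem ?_ hh1Q
      exact centralizer_le_normalizer (Q : Set G) hcC
    · rw [← Solv.conj_smul_eq_self_iff, map_mul, mul_smul, ← hP1]
      have : (MulAut.conj c • (P1 : Subgroup N)).map N.subtype = (P0 : Subgroup N).map N.subtype := by
        rw [← hc]; rfl
      rw [Solv.map_conj_smul] at this
      exact this
  -- the module
  set K := normalizer (P : Set G) with hK
  have hPp : IsPGroup p P := P0.isPGroup'.map _
  let α : K →* MulAut P :=
    { toFun := fun k => ((MulAut.conj (k : G)).subgroupMap P).trans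
        (MulEquiv.subgroupCongr (Solv.conj_smul_eq_self_iff.2 k.2))
      map_one' := by
        refine MulEquiv.ext fun x => Subtype.ext ?_
        show (1 : G) * (x : G) * (1 : G)⁻¹ = x
        simp
      map_mul' := fun a b => by
        refine MulEquiv.ext fun x => Subtype.ext ?_
        show ((a : G) * b) * (x : G) * ((a : G) * b)⁻¹ = (a : G) * ((b : G) * x * (b : G)⁻¹) * (a : G)⁻¹
        group }
  have hαΦ : ∀ k : K, (frattini P).map (α k).toMonoidHom = frattini P := fun k =>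
    characteristic_iff_map_eq.1 frattini_characteristic (α k)
  letI : CommGroup (P ⧸ frattini P) := { mul_comm := frattini_quotient_comm hPp }
  let ρ : K →* MulAut (P ⧸ frattini P) :=
    { toFun := fun k => QuotientGroup.congr _ _ (α k) (hαΦ k)
      map_one' := by
        refine MulEquiv.ext fun y => ?_
        induction y using QuotientGroup.induction_on with
        | _ y => simp [map_one α]
      map_mul' := fun a b => by
        refine MulEquiv.ext fun y => ?_
        induction y using QuotientGroup.induction_on with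
        | _ y =>
          show ((α (a * b) y : P) : P ⧸ frattini P) = ((α a (α b y) : P) : P ⧸ frattini P)
          rw [map_mul]; rfl }
  have hhm : h ^ m = 1 := hlift h (hh ▸ hgo)
  have hT : ∀ v : P ⧸ frattini P, ∏ i ∈ Finset.range m, ρ ((⟨h, hhP⟩ : K) ^ i) v = 1 := by
    intro v
    induction v using QuotientGroup.induction_on with
    | _ w =>
    have hprod : ∀ j : ℕ, ∃ D : P, ∏ i ∈ Finset.range j, ρ ((⟨h, hhP⟩ : K) ^ i) (w : P ⧸ frattini P) =
        (D : P ⧸ frattini P) ∧ ((w : G) * h) ^ j = (D : G) * h ^ j := by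
      intro j
      induction j with
      | zero => exact ⟨1, by simp, by simp⟩
      | succ j ih =>
        obtain ⟨D, hD1, hD2⟩ := ih
        refine ⟨D * α ((⟨h, hhP⟩ : K) ^ j) w, ?_, ?_⟩
        · rw [Finset.prod_range_succ, hD1, QuotientGroup.mk_mul]
          rfl
        · rw [pow_succ, hD2]
          show (D : G) * h ^ j * ((w : G) * h) = (D : G) * ((((⟨h, hhP⟩ : K) ^ j : K) : G) * w * (((⟨h, hhP⟩ : K) ^ j : K) : G)⁻¹) * h ^ (j + 1)
          rw [SubmonoidClass.coe_pow, pow_succ]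
          group
    obtain ⟨D, hD1, hD2⟩ := hprod m
    have hwh : ((w : G) * h) ^ m = 1 := hlift _ (by
      rw [map_mul, (hker _).2 ((map_subtype_le _ : P ≤ N) w.2), one_mul, hh, hgo])
    rw [hhm, mul_one, hwh] at hD2
    rw [hD1, show D = 1 from Subtype.ext hD2.symm, QuotientGroup.mk_one]
  have hQK : Q ≤ K := hP0inv
  have htriv := trivial_of_trace ρ (Q.subgroupOf K) ?_ ⟨h, hhP⟩ m hm0 ?_ ?_ hT
  · refine hP0 (Solv.centralizes_of_frattini Q P hP0inv ?_ fun u hu k hk => ?_)
    · refine hcopQ.coprime_dvd_right ((card_subgroup_dvd_card (frattini P)).trans ?_)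
      exact card_dvd_of_le (map_subtype_le _)
    · have h2 := htriv ⟨u, hQK hu⟩ (mem_subgroupOf.2 hu) ((⟨k, hk⟩ : P) : P ⧸ frattini P)
      have h3 : ((α ⟨u, hQK hu⟩ ⟨k, hk⟩ : P) : P ⧸ frattini P) = ((⟨k, hk⟩ : P) : P ⧸ frattini P) := h2
      rw [eq_comm, QuotientGroup.eq] at h3
      refine ⟨α ⟨u, hQK hu⟩ ⟨k, hk⟩ * (⟨k, hk⟩ : P)⁻¹, ?_, rfl⟩
      have h4 := (inferInstance : (frattini P).Normal).conj_mem _ h3 ⟨k, hk⟩
      simpa [mul_assoc] using h4
  · rw [Nat.card_congr (Subgroup.subgroupOfEquivOfLe hQK).toEquiv]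
    refine (hcopQ.coprime_dvd_right ?_).symm
    exact ((frattini P).card_quotient_dvd_card).trans (card_dvd_of_le (map_subtype_le _))
  · intro u hu
    exact (mem_normalizer_iff.1 hhQ u).1 hu
  · intro i hi him u hu hc
    have h2 : π (u : G) = 1 := by
      refine hfix i hi him _ (hRF (hQR ▸ mem_map_of_mem π (mem_subgroupOf.1 hu))) ?_
      have := congrArg (fun y : K => π (y : G)) hc
      simpa [hh] using this
    have : (u : G) ∈ Q ⊓ N := ⟨mem_subgroupOf.1 hu, (hker _).1 h2⟩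
    rw [hQN, mem_bot] at this
    exact Subtype.ext this

end Cfsg.Lib.Recog.FrobeniusModule
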