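import Mathlib

/-! The index of a subgroup in its product with a subgroup it normalizes. -/

set_option autoImplicit false

namespace Cfsg.Lib.Recog.Orbit

/-- If `H` normalizes `K`, then `[HK : H] = [K : H ⊓ K]`. -/
theorem relIndex_sup_left {G : Type*} [Group G] [Finite G] (H K : Subgroup G)
    (h : H ≤ Subgroup.normalizer (K : Set G)) : H.relIndex (H ⊔ K) = H.relIndex K := by
  have e1 := Subgroup.card_mul_index (H.subgroupOf K)
  have e2 := Subgroup.card_mul_index (H.subgroupOf (H ⊔ K))
  have e3 := Subgroup.card_mul_index (K.subgroupOf (H ⊔ K))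
  have e4 := Subgroup.card_mul_index (K.subgroupOf H)
  have hn : (K.subgroupOf (H ⊔ K)).Normal :=
    Subgroup.normal_subgroupOf_of_le_normalizer (sup_le h Subgroup.le_normalizer)
  have hq : K.relIndex (H ⊔ K) = K.relIndex H := by
    letI := Subgroup.normal_subgroupOf_of_le_normalizer h
    letI := Subgroup.normal_subgroupOf_sup_of_le_normalizer h
    exact (Nat.card_congr (QuotientGroup.quotientInfEquivProdNormalizerQuotient H K h).toEquiv).symm
  rw [Nat.card_congr (Subgroup.subgroupOfEquivOfLe (le_sup_left : H ≤ H ⊔ K)).toEquiv] at e2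
  rw [Nat.card_congr (Subgroup.subgroupOfEquivOfLe (le_sup_right : K ≤ H ⊔ K)).toEquiv] at e3
  have hc : Nat.card (H.subgroupOf K) = Nat.card (K.subgroupOf H) := by
    rw [← Subgroup.inf_subgroupOf_right H K, ← Subgroup.inf_subgroupOf_right K H,
      Nat.card_congr (Subgroup.subgroupOfEquivOfLe inf_le_right).toEquiv,
      Nat.card_congr (Subgroup.subgroupOfEquivOfLe inf_le_right).toEquiv, inf_comm]
  rw [Subgroup.relIndex, Subgroup.relIndex] at hq ⊢
  refine Nat.eq_of_mul_eq_mul_left (Nat.card_pos (α := H)) ?_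
  rw [e2, ← e3, hq, ← e4, ← e1, hc]
  ring

end Cfsg.Lib.Recog.Orbit
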