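import Mathlib

/-!
The ten point model used for simple groups of order 360: the affine plane over `ZMod 3`
plus one further point.
-/

set_option autoImplicit false

namespace Cfsg.Lib.Recog.TenPoint

abbrev V := ZMod 3 × ZMod 3
abbrev X := Option V

def trF (v : V) : X → X := Option.map (fun u => v + u)

def linF (i j k l : ZMod 3) : X → X := Option.map (fun u => (i * u.1 + k * u.2, j * u.1 + l * u.2))

def JF : X → X := linF 0 1 2 0

def JPow : Fin 4 → (X → X)
  | 0 => id
  | 1 => JF
  | 2 => JF ∘ JF
  | 3 => JF ∘ JF ∘ JF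

def NF (v : V) (k : Fin 4) : X → X := trF v ∘ JPow k

def tF : X → X
  | none => some (0, 0)
  | some (x, y) =>
      if (x, y) = (0, 0) then none
      else if x = 0 ∨ y = 0 then some (-x, y) else some (x, -y)

/-- Candidate maps exchanging `none` and `some 0` and normalising `JF`. -/
def cand (e : Bool) (a b : X) : X → X
  | none => some (0, 0)
  | some u =>
      let P : Fin 4 → (X → X) := fun k => if e then JPow (-k) else JPow k
      if u = (0, 0) then none
      else if u = (1, 0) then a
      else if u = (0, 1) then P 1 a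
      else if u = (2, 0) then P 2 a
      else if u = (0, 2) then P 3 a
      else if u = (1, 1) then b
      else if u = (2, 1) then P 1 b
      else if u = (2, 2) then P 2 b
      else P 3 b

/-- A condition expressing that `N ∪ Q f N` is closed. -/
def Closed (f : X → X) : Prop :=
  (∃ v k, f ∘ trF (1, 0) ∘ f = NF v k) ∨
    ∃ v w k, f ∘ trF (1, 0) ∘ f = trF v ∘ f ∘ NF w k

instance (f : X → X) : Decidable (Closed f) := by unfold Closed; infer_instance

theorem cand_closed : ∀ e a b, Function.Injective (cand e a b) → Closed (cand e a b) →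
    ∃ k, cand e a b = tF ∘ JPow k := by
  decide +kernel

theorem JPow_four : JF ∘ JF ∘ JF ∘ JF = id := by decide +kernel

theorem JPow_add : ∀ k l : Fin 4, JPow k ∘ JPow l = JPow (k + l) := by decide +kernel

theorem tF_tF : tF ∘ tF = id := by decide +kernel

theorem JPow_zero_of_fix : ∀ k, JPow k (some (1, 0)) = some (1, 0) → k = 0 := by decide +kernel

def trE (v : V) : Equiv.Perm X where
  toFun := trF v
  invFun := trF (-v)
  left_inv := by intro x; cases x <;> simp [trF]
  right_inv := by intro x; cases x <;> simp [trF]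

def JE : Equiv.Perm X where
  toFun := JF
  invFun := JF ∘ JF ∘ JF
  left_inv := fun x => congrFun JPow_four x
  right_inv := fun x => congrFun JPow_four x

def tE : Equiv.Perm X := ⟨tF, tF, fun x => congrFun tF_tF x, fun x => congrFun tF_tF x⟩

theorem JE_pow (k : Fin 4) : ⇑(JE ^ (k : ℕ)) = JPow k := by
  fin_cases k <;> simp [pow_succ, JPow, Equiv.Perm.coe_mul] <;> rfl

/-- The model group. -/
def K : Subgroup (Equiv.Perm X) :=
  Subgroup.closure (Set.range trE ∪ {JE, tE})

theorem trE_mem (v : V) : trE v ∈ K := Subgroup.subset_closure (Or.inl ⟨v, rfl⟩)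
theorem JE_mem : JE ∈ K := Subgroup.subset_closure (Or.inr (Or.inl rfl))
theorem tE_mem : tE ∈ K := Subgroup.subset_closure (Or.inr (Or.inr rfl))

def linE (i j k l : ZMod 3) : Equiv.Perm X :=
  let f := linF i j k l
  if h : f ∘ (f ∘ f ∘ f) = id ∧ (f ∘ f ∘ f) ∘ f = id then
    ⟨f, f ∘ f ∘ f, congrFun h.2, congrFun h.1⟩
  else 1

theorem linE_coe (i j k l : ZMod 3) (π : Equiv.Perm X) (h : ⇑π = linF i j k l) (h4 : π ^ 4 = 1) :
    π = linE i j k l := by
  have e4 : linF i j k l ∘ (linF i j k l ∘ linF i j k l ∘ linF i j k l) = id ∧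
      (linF i j k l ∘ linF i j k l ∘ linF i j k l) ∘ linF i j k l = id := by
    rw [← h]
    constructor <;>
      · funext x
        have := congrArg (fun σ : Equiv.Perm X => σ x) h4
        simpa [pow_succ, Equiv.Perm.mul_apply] using this
  unfold linE
  simp only [dif_pos e4]
  exact Equiv.ext fun x => congrFun h x

/- Even linear maps whose fourth power is trivial: scalar or with square `-1`. -/
set_option synthInstance.maxHeartbeats 200000 in
set_option synthInstance.maxSize 2048 in
theorem linF_even : ∀ i j k l : ZMod 3,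
    linF i j k l ∘ linF i j k l ∘ linF i j k l ∘ linF i j k l = id →
    Equiv.Perm.sign (linE i j k l) = 1 →
      linF i j k l = linF 1 0 0 1 ∨ linF i j k l = linF 2 0 0 2 ∨
        ((∀ u : V, (linF i j k l ∘ linF i j k l) (some u) = some (-u)) ∧ j ≠ 0) := by
  decide +kernel

theorem perm_four : (Finset.univ.filter fun z : Equiv.Perm (Fin 4) =>
    Equiv.Perm.sign z = 1 ∧ z ^ 4 = 1).card = 4 := by
  decide +kernel

end Cfsg.Lib.Recog.TenPoint
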