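import Mathlib
import Cfsg.Agent.Lib.Recog.TenPointModel

/-!
Simple groups of order 360: all of them are isomorphic to one ten point permutation group.
-/

set_option autoImplicit false

namespace Cfsg.Lib.Recog.ThreeSixty

open Cfsg.Lib.Recog.TenPoint

variable {G : Type*} [Group G] [Finite G] [IsSimpleGroup G]

theorem noncomm (h : Nat.card G = 360) : ¬ ∀ a b : G, a * b = b * a := by
  intro hc
  have : IsMulCommutative G := ⟨⟨hc⟩⟩
  letI : CommGroup G := { (inferInstance : Group G) with mul_comm := hc }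
  have := IsSimpleGroup.prime_card (α := G)
  rw [h] at this
  norm_num at this

theorem index_ge_six (h : Nat.card G = 360) (H : Subgroup G) (hH : H ≠ ⊤) : 6 ≤ H.index := by
  by_contra hlt
  push Not at hlt
  let f := MulAction.toPermHom G (G ⧸ H)
  rcases f.normal_ker.eq_bot_or_eq_top with hb | ht
  · have hd := Subgroup.card_dvd_of_injective f ((MonoidHom.ker_eq_bot_iff f).1 hb)
    rw [Nat.card_perm, h, ← Subgroup.index] at hd
    have hpos : H.index ≠ 0 := Subgroup.index_ne_zero_of_finite
    interval_cases hx : H.index <;> simp_all [Nat.factorial] <;> omega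
  · refine hH (eq_top_iff.2 fun g _ => ?_)
    have hg : f g (QuotientGroup.mk 1) = QuotientGroup.mk 1 := by
      rw [MonoidHom.mem_ker.1 (ht ▸ Subgroup.mem_top g)]; rfl
    have hg' : (QuotientGroup.mk (g * 1) : G ⧸ H) = QuotientGroup.mk 1 := hg
    rw [QuotientGroup.eq] at hg'
    simpa using H.inv_mem hg'

instance : Fact (Nat.Prime 3) := ⟨Nat.prime_three⟩
instance : Fact (Nat.Prime 2) := ⟨Nat.prime_two⟩

theorem sylow_card (h : Nat.card G = 360) (P : Sylow 3 G) : Nat.card (P : Subgroup G) = 9 := by
  rw [P.card_eq_multiplicity, h]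
  have : (360 : ℕ).factorization 3 = 2 := by
    rw [Nat.factorization_def _ Nat.prime_three, show (360 : ℕ) = 3 ^ 2 * 40 from rfl,
      padicValNat.mul (by norm_num) (by norm_num), padicValNat.prime_pow,
      padicValNat.eq_zero_of_not_dvd (by norm_num)]
  rw [this]; norm_num

theorem sylow_comm (h : Nat.card G = 360) (P : Sylow 3 G) {a b : G} (ha : a ∈ (P : Subgroup G))
    (hb : b ∈ (P : Subgroup G)) : a * b = b * a :=
  congrArg Subtype.val
    (IsPGroup.commutative_of_card_eq_prime_sq (p := 3) (by rw [sylow_card h P]; norm_num)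
      (⟨a, ha⟩ : (P : Subgroup G)) ⟨b, hb⟩)

theorem sylow_count (h : Nat.card G = 360) : Nat.card (Sylow 3 G) = 10 := by
  obtain ⟨P⟩ := (inferInstance : Nonempty (Sylow 3 G))
  have h9 := sylow_card h P
  have hidx : (P : Subgroup G).index = 40 := by
    have := (P : Subgroup G).card_mul_index
    rw [h9, h] at this; omega
  have hd : Nat.card (Sylow 3 G) ∣ 40 := hidx ▸ P.card_dvd_index
  have hmod := card_sylow_modEq_one 3 G
  have hne : (Subgroup.normalizer (P : Set G)) ≠ ⊤ := by
    intro ht
    have : (P : Subgroup G).Normal := Subgroup.normalizer_eq_top_iff.1 ht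
    rcases this.eq_bot_or_eq_top with e | e
    · rw [e, Subgroup.card_bot] at h9; omega
    · rw [e, Subgroup.card_top, h] at h9; omega
  have h6 := index_ge_six h _ hne
  rw [← P.card_eq_index_normalizer] at h6
  have hle := Nat.le_of_dvd (by norm_num) hd
  by_contra h10
  have h40 : Nat.card (Sylow 3 G) = 40 := by
    unfold Nat.ModEq at hmod
    interval_cases hn : Nat.card (Sylow 3 G) <;> omega
  have hN : Nat.card (Subgroup.normalizer (P : Set G)) = 9 := by
    have := (Subgroup.normalizer (P : Set G)).card_mul_index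
    rw [← P.card_eq_index_normalizer, h40, h] at this; omega
  have hPN : (P : Subgroup G) = Subgroup.normalizer (P : Set G) :=
    Subgroup.eq_of_le_of_card_ge Subgroup.le_normalizer (by rw [hN, h9])
  have hc : Subgroup.normalizer (P : Set G) ≤ Subgroup.centralizer (P : Set G) := by
    intro n hn
    exact Subgroup.mem_centralizer_iff.2 fun q hq => sylow_comm h P hq (by rw [hPN]; exact hn)
  have hK := MonoidHom.ker_transferSylow_isComplement' P hc
  have := hK.card_mul
  rw [h9, h] at this
  rcases (MonoidHom.transferSylow P hc).normal_ker.eq_bot_or_eq_top with e | e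
  · rw [e, Subgroup.card_bot] at this; omega
  · rw [e, Subgroup.card_top, h] at this; omega

theorem normalizer_card (h : Nat.card G = 360) (P : Sylow 3 G) :
    Nat.card (Subgroup.normalizer (P : Set G)) = 36 := by
  have := (Subgroup.normalizer (P : Set G)).card_mul_index
  rw [← P.card_eq_index_normalizer, sylow_count h, h] at this; omega

theorem eq_of_le_normalizer (h : Nat.card G = 360) (P P' : Sylow 3 G) (x : G)
    (hx : x ∈ (P : Subgroup G)) (hfix : x • P' = P') : x ∈ (P' : Subgroup G) := by
  have hN : x ∈ Subgroup.normalizer (P' : Set G) := Sylow.smul_eq_iff_mem_normalizer.1 hfix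
  have hz : IsPGroup 3 (Subgroup.zpowers x) :=
    P.isPGroup'.to_le ((Subgroup.zpowers_le).2 hx)
  have := hz.to_sup_of_normal_right' P'.isPGroup' ((Subgroup.zpowers_le).2 hN)
  have he := P'.is_maximal' this le_sup_right
  exact he ▸ (le_sup_left : Subgroup.zpowers x ≤ _) (Subgroup.mem_zpowers x)

theorem trivial_intersection (h : Nat.card G = 360) (P P' : Sylow 3 G) (hne : P ≠ P') :
    (P : Subgroup G) ⊓ P' = ⊥ := by
  by_contra hR
  set R := (P : Subgroup G) ⊓ P' with hRdef
  set C := Subgroup.centralizer (R : Set G) with hCdef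
  have hPC : (P : Subgroup G) ≤ C := fun a ha =>
    Subgroup.mem_centralizer_iff.2 fun r hr => sylow_comm h P hr.1 ha
  have hP'C : (P' : Subgroup G) ≤ C := fun a ha =>
    Subgroup.mem_centralizer_iff.2 fun r hr => sylow_comm h P' hr.2 ha
  have hCtop : C ≠ ⊤ := by
    intro ht
    have hle : R ≤ Subgroup.center G := fun r hr => Subgroup.mem_center_iff.2 fun g =>
      ((Subgroup.mem_centralizer_iff.1 (show g ∈ C from ht ▸ Subgroup.mem_top g)) r hr).symm
    rcases (inferInstance : (Subgroup.center G).Normal).eq_bot_or_eq_top with e | e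
    · exact hR (le_bot_iff.1 (e ▸ hle))
    · exact noncomm h fun a b => (Subgroup.mem_center_iff.1 (e ▸ Subgroup.mem_top b) a)
  have h6 := index_ge_six h C hCtop
  have hm := C.card_mul_index
  rw [h] at hm
  have h9 : 9 ∣ Nat.card C := sylow_card h P ▸ Subgroup.card_dvd_of_le hPC
  have hC60 : Nat.card C ≤ 60 := by nlinarith
  -- the Sylow subgroups of `C`
  let P1 : Sylow 3 C := P.subtype hPC
  let P2 : Sylow 3 C := P'.subtype hP'C
  have hP12 : P1 ≠ P2 := fun e => hne (Sylow.subtype_injective e)
  have hP1card : Nat.card (P1 : Subgroup C) = 9 := by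
    rw [Sylow.coe_subtype]
    exact (Nat.card_congr (Subgroup.subgroupOfEquivOfLe hPC).toEquiv).trans (sylow_card h P)
  obtain ⟨c, hc⟩ := h9
  have hP1idx : (P1 : Subgroup C).index = c := by
    have := (P1 : Subgroup C).card_mul_index
    rw [hP1card, hc] at this; omega
  have hd : Nat.card (Sylow 3 C) ∣ c := hP1idx ▸ P1.card_dvd_index
  have hmod := card_sylow_modEq_one 3 C
  have h2 : 1 < Nat.card (Sylow 3 C) :=
    Finite.one_lt_card_iff_nontrivial.2 ⟨P1, P2, hP12⟩
  have hc1 : c ≠ 0 := by intro e; rw [e] at hc; exact Nat.card_pos.ne' (by simpa using hc)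
  have hcle : Nat.card (Sylow 3 C) ≤ c := Nat.le_of_dvd (Nat.pos_of_ne_zero hc1) hd
  have h360 : 9 * c ∣ 360 := ⟨C.index, by rw [← hc, hm]⟩
  have hn : Nat.card (Sylow 3 C) = 4 ∧ c = 4 := by
    unfold Nat.ModEq at hmod
    have : c ≤ 6 := by omega
    interval_cases c <;> interval_cases hk : Nat.card (Sylow 3 C) <;> norm_num at * <;> omega
  obtain ⟨hn, rfl⟩ := hn
  haveI : Finite (Sylow 3 C) := inferInstance
  let e4 : Sylow 3 C ≃ Fin 4 := Finite.equivFinOfCardEq hn
  let φ : C →* Equiv.Perm (Fin 4) :=
    (e4.permCongrHom : Equiv.Perm (Sylow 3 C) →* Equiv.Perm (Fin 4)).comp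
      (MulAction.toPermHom C (Sylow 3 C))
  have hφ : ∀ x : C, x ∈ φ.ker ↔ ∀ S : Sylow 3 C, x • S = S := by
    intro x
    rw [MonoidHom.mem_ker]
    constructor
    · intro hx S
      have := congrArg (fun π : Equiv.Perm (Fin 4) => π (e4 S)) hx
      simpa [φ] using this
    · intro hx
      ext i
      simp [φ, hx]
  have hRC : R ≤ C := fun r hr => hPC hr.1
  have hnorm1 : (Subgroup.normalizer (P1 : Set C)) = (P1 : Subgroup C) := by
    symm
    apply Subgroup.eq_of_le_of_card_ge Subgroup.le_normalizer
    have := (Subgroup.normalizer (P1 : Set C)).card_mul_index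
    rw [← P1.card_eq_index_normalizer, hn, hc] at this
    rw [hP1card]
    exact le_of_eq (show Nat.card (Subgroup.normalizer (P1 : Set C)) = 9 by omega)
  have hker : ∀ x : C, x ∈ φ.ker ↔ (x : G) ∈ R := by
    intro x
    constructor
    · intro hx
      have h1 : x ∈ (P1 : Subgroup C) := hnorm1 ▸ Sylow.smul_eq_iff_mem_normalizer.1 ((hφ x).1 hx P1)
      have h2' : x ∈ (P2 : Subgroup C) := by
        have hN : x ∈ Subgroup.normalizer (P2 : Set C) :=
          Sylow.smul_eq_iff_mem_normalizer.1 ((hφ x).1 hx P2)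
        have hz : IsPGroup 3 (Subgroup.zpowers x) := P1.isPGroup'.to_le ((Subgroup.zpowers_le).2 h1)
        have := hz.to_sup_of_normal_right' P2.isPGroup' ((Subgroup.zpowers_le).2 hN)
        exact (P2.is_maximal' this le_sup_right) ▸
          (le_sup_left : Subgroup.zpowers x ≤ _) (Subgroup.mem_zpowers x)
      exact ⟨h1, h2'⟩
    · intro hx
      rw [hφ]
      intro S
      rw [Sylow.smul_eq_iff_mem_normalizer]
      refine Subgroup.centralizer_le_normalizer _ ?_
      rw [Subgroup.mem_centralizer_iff]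
      intro y _
      exact Subtype.ext ((Subgroup.mem_centralizer_iff.1 y.2 (x : G) hx).symm)
  have hR3 : Nat.card R = 3 := by
    have hd9 : Nat.card R ∣ 9 := sylow_card h P ▸ Subgroup.card_dvd_of_le inf_le_left
    have h1 : Nat.card R ≠ 1 := fun e => hR (Subgroup.card_eq_one.1 e)
    have h9' : Nat.card R ≠ 9 := fun e => hne (Sylow.ext
      (((Subgroup.eq_of_le_of_card_ge inf_le_left (by rw [e, sylow_card h P])).symm).trans
        (Subgroup.eq_of_le_of_card_ge inf_le_right (by rw [e, sylow_card h P']))))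
    have : Nat.card R ∈ Nat.divisors 9 := Nat.mem_divisors.2 ⟨hd9, by norm_num⟩
    rw [show Nat.divisors 9 = {1, 3, 9} by decide] at this
    simp only [Finset.mem_insert, Finset.mem_singleton] at this; omega
  have hkc : Nat.card φ.ker = 3 := by
    rw [show φ.ker = R.subgroupOf C from Subgroup.ext fun x => hker x]
    exact (Nat.card_congr (Subgroup.subgroupOfEquivOfLe hRC).toEquiv).trans hR3
  have hr : φ.range.index = 2 := by
    have h1 := φ.ker.card_mul_index
    rw [Subgroup.index_ker, hkc, hc] at h1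
    have h2 := φ.range.card_mul_index
    rw [Nat.card_perm, Nat.card_fin, show Nat.factorial 4 = 24 from rfl] at h2
    have : Nat.card φ.range = 12 := by omega
    rw [this] at h2; omega
  have hA := Equiv.Perm.eq_alternatingGroup_of_index_eq_two hr
  classical
  let S : Set C := {x | x ^ 4 = 1}
  have hS : Nat.card S ≤ 4 := by
    let F : S → {z : Equiv.Perm (Fin 4) // z ∈ (Finset.univ.filter fun z : Equiv.Perm (Fin 4) =>
        Equiv.Perm.sign z = 1 ∧ z ^ 4 = 1)} := fun x => ⟨φ x.1, by
      refine Finset.mem_filter.2 ⟨Finset.mem_univ _, ?_, by rw [← map_pow, x.2, map_one]⟩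
      exact Equiv.Perm.mem_alternatingGroup.1 (hA ▸ ⟨x.1, rfl⟩)⟩
    have hF : Function.Injective F := by
      intro x y hxy
      have e : φ x.1 = φ y.1 := congrArg Subtype.val hxy
      have hm' : x.1⁻¹ * y.1 ∈ φ.ker := by rw [MonoidHom.mem_ker, map_mul, map_inv, e, inv_mul_cancel]
      have hrR := (hker _).1 hm'
      set r := x.1⁻¹ * y.1 with hrdef
      have hcomm : Commute x.1 r :=
        Subtype.ext ((Subgroup.mem_centralizer_iff.1 x.1.2 (r : G) hrR).symm)
      have hy : y.1 = x.1 * r := by rw [hrdef]; group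
      have h4 : r ^ 4 = 1 := by
        have := y.2
        simp only [S, Set.mem_setOf_eq] at this
        rw [hy, hcomm.mul_pow, x.2, one_mul] at this
        exact this
      have h3 : r ^ 3 = 1 := by
        apply Subtype.ext
        have := orderOf_dvd_natCard (⟨(r : G), hrR⟩ : R)
        rw [hR3, orderOf_dvd_iff_pow_eq_one] at this
        simpa using congrArg Subtype.val this
      have : r = 1 := by rw [pow_succ, h3, one_mul] at h4; exact h4
      exact Subtype.ext (by rw [hy, this, mul_one])
    calc Nat.card S ≤ _ := Nat.card_le_card_of_injective F hF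
      _ = 4 := by rw [Nat.card_eq_finsetCard, perm_four]
  obtain ⟨Q⟩ := (inferInstance : Nonempty (Sylow 2 C))
  have hQ : Nat.card (Q : Subgroup C) = 4 := by
    rw [Q.card_eq_multiplicity, hc]
    have : (9 * 4 : ℕ).factorization 2 = 2 := by
      rw [Nat.factorization_def _ Nat.prime_two, show (9 * 4 : ℕ) = 2 ^ 2 * 9 from rfl,
        padicValNat.mul (by norm_num) (by norm_num), padicValNat.prime_pow,
        padicValNat.eq_zero_of_not_dvd (by norm_num)]
    rw [this]; norm_num
  have hsub : ((Q : Subgroup C) : Set C) ⊆ S := fun x hx => by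
    have := orderOf_dvd_natCard (⟨x, hx⟩ : (Q : Subgroup C))
    rw [hQ, orderOf_dvd_iff_pow_eq_one] at this
    simpa [S] using congrArg Subtype.val this
  have hSQ : S = ((Q : Subgroup C) : Set C) := by
    symm
    refine Set.eq_of_subset_of_ncard_le hsub ?_ (Set.toFinite _)
    rw [← Nat.card_coe_set_eq, ← Nat.card_coe_set_eq, show Nat.card ((Q : Subgroup C) : Set C) = 4 from hQ]
    exact hS
  set W : Subgroup G := (Q : Subgroup C).map C.subtype with hW
  have hWcard : Nat.card W = 4 := by
    rw [hW, Subgroup.card_map_of_injective C.subtype_injective]; exact hQ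
  obtain ⟨W', hW'card, hWW'⟩ := Sylow.exists_subgroup_card_pow_succ (p := 2) (n := 2) (H := W)
    (by rw [h]; norm_num) (by rw [hWcard]; norm_num)
  have hCN : C ≤ Subgroup.normalizer (W : Set G) := by
    intro g hg
    rw [Subgroup.mem_normalizer_iff]
    intro y
    have key : ∀ (g : C) (y : G), y ∈ W → (g : G) * y * (g : G)⁻¹ ∈ W := by
      rintro g y ⟨q, hq, rfl⟩
      refine ⟨g * q * g⁻¹, ?_, by simp⟩
      have : g * q * g⁻¹ ∈ S := by
        simp only [S, Set.mem_setOf_eq, conj_pow]
        rw [show q ^ 4 = 1 from hsub hq]; simp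
      rw [hSQ] at this; exact this
    refine ⟨key ⟨g, hg⟩ y, fun hy => ?_⟩
    have := key ⟨g⁻¹, C.inv_mem hg⟩ _ hy
    simpa [mul_assoc] using this
  have hW'N : W' ≤ Subgroup.normalizer (W : Set G) := by
    have hidx : (W.subgroupOf W').index = 2 := by
      have := (W.subgroupOf W').card_mul_index
      rw [Nat.card_congr (Subgroup.subgroupOfEquivOfLe hWW').toEquiv, hWcard, hW'card] at this
      norm_num at this; omega
    exact (Subgroup.normal_subgroupOf_iff_le_normalizer hWW').1
      (Subgroup.normal_of_index_eq_two hidx)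
  set N := Subgroup.normalizer (W : Set G) with hNdef
  have hd1 : 36 ∣ Nat.card N := by
    have := Subgroup.card_dvd_of_le hCN
    rw [hc] at this; exact this
  have hd2 : 8 ∣ Nat.card N := by
    have := Subgroup.card_dvd_of_le hW'N
    rw [hW'card] at this; exact this
  have hNm := N.card_mul_index
  rw [h] at hNm
  have hNtop : N ≠ ⊤ := by
    intro ht
    have hn : W.Normal := Subgroup.normalizer_eq_top_iff.1 ht
    rcases hn.eq_bot_or_eq_top with e | e
    · rw [e, Subgroup.card_bot] at hWcard; omega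
    · rw [e, Subgroup.card_top, h] at hWcard; omega
  have h6' := index_ge_six h N hNtop
  have h72 : 72 ∣ Nat.card N := by
    have := Nat.lcm_dvd hd1 hd2
    rwa [show Nat.lcm 36 8 = 72 from rfl] at this
  have := Nat.le_of_dvd Nat.card_pos h72
  nlinarith

theorem regular (h : Nat.card G = 360) (P P' R : Sylow 3 G) (hP' : P' ≠ P) (hR : R ≠ P) :
    ∃ q ∈ (P : Subgroup G), q • P' = R := by
  classical
  have hfix : ∀ q ∈ (P : Subgroup G), q • P = P := fun q hq =>
    Sylow.smul_eq_iff_mem_normalizer.2 (Subgroup.le_normalizer hq)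
  let f : ↥(P : Subgroup G) → {S : Sylow 3 G // S ≠ P} := fun q => ⟨(q : G) • P', fun e => hP' (by
    have := congrArg ((q : G)⁻¹ • ·) e
    simp only [inv_smul_smul, hfix _ (Subgroup.inv_mem _ q.2)] at this
    exact this)⟩
  have hinj : Function.Injective f := by
    intro a b hab
    have e : (a : G) • P' = (b : G) • P' := congrArg Subtype.val hab
    have hm : (b : G)⁻¹ * a ∈ (P : Subgroup G) := mul_mem (inv_mem b.2) a.2
    have hf : ((b : G)⁻¹ * a) • P' = P' := by rw [mul_smul, e, inv_smul_smul]
    have hm' := eq_of_le_normalizer h P P' _ hm hf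
    have : (b : G)⁻¹ * a ∈ (P : Subgroup G) ⊓ P' := ⟨hm, hm'⟩
    rw [trivial_intersection h P P' hP'.symm, Subgroup.mem_bot, inv_mul_eq_one] at this
    exact Subtype.ext this.symm
  haveI := Fintype.ofFinite (Sylow 3 G)
  have hcard : Nat.card (P : Subgroup G) = Nat.card {S : Sylow 3 G // S ≠ P} := by
    rw [sylow_card h P, Nat.card_eq_fintype_card, Fintype.card_subtype_compl,
      Fintype.card_subtype_eq, ← Nat.card_eq_fintype_card, sylow_count h]
  obtain ⟨q, hq⟩ := (hinj.bijective_of_nat_card_le hcard.ge).2 ⟨R, hR⟩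
  exact ⟨q, q.2, congrArg Subtype.val hq⟩

theorem nonempty_equiv_model (h : Nat.card G = 360) : Nonempty (G ≃* K) := by
  classical
  obtain ⟨P⟩ := (inferInstance : Nonempty (Sylow 3 G))
  have h10 := sylow_count h
  haveI : Nontrivial (Sylow 3 G) := Finite.one_lt_card_iff_nontrivial.1 (by omega)
  obtain ⟨P0, hP0⟩ := exists_ne P
  have h9 := sylow_card h P
  set N := Subgroup.normalizer (P : Set G) with hNdef
  have hN36 := normalizer_card h P
  have hNmem : ∀ g : G, g ∈ N ↔ g • P = P := fun g => Sylow.smul_eq_iff_mem_normalizer.symm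
  have hPN : (P : Subgroup G) ≤ N := Subgroup.le_normalizer
  have hpow : ∀ q ∈ (P : Subgroup G), q ^ 9 = 1 := fun q hq => by
    have := orderOf_dvd_natCard (⟨q, hq⟩ : (P : Subgroup G))
    rw [h9, orderOf_dvd_iff_pow_eq_one] at this
    simpa using congrArg Subtype.val this
  let ρ := MulAction.toPermHom G (Sylow 3 G)
  have hρ : Function.Injective ρ := by
    refine (MonoidHom.ker_eq_bot_iff ρ).1 ?_
    rcases ρ.normal_ker.eq_bot_or_eq_top with e | e
    · exact e
    · exfalso
      obtain ⟨g, hg⟩ := MulAction.exists_smul_eq G P P0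
      have h1 : ρ g = 1 := MonoidHom.mem_ker.1 (e ▸ Subgroup.mem_top g)
      exact hP0 (hg ▸ congrArg (fun π : Equiv.Perm (Sylow 3 G) => π P) h1)
  -- the two point stabiliser
  set H : Subgroup G := N ⊓ MulAction.stabilizer G P0 with hHdef
  have hsplit : ∀ n ∈ N, ∃ q ∈ (P : Subgroup G), q⁻¹ * n ∈ H := by
    intro n hn
    have hne : n • P0 ≠ P := fun e => hP0 (by
      have := congrArg (n⁻¹ • ·) e
      simpa [(hNmem _).1 (inv_mem hn)] using this)
    obtain ⟨q, hq, hqe⟩ := regular h P P0 (n • P0) hP0 hne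
    refine ⟨q, hq, N.mul_mem (N.inv_mem (hPN hq)) hn, ?_⟩
    show (q⁻¹ * n) • P0 = P0
    rw [mul_smul, ← hqe, inv_smul_smul]
  have hdisj : ∀ q ∈ (P : Subgroup G), q ∈ H → q = 1 := by
    intro q hq hqH
    have h1 := eq_of_le_normalizer h P P0 q hq hqH.2
    have : q ∈ (P : Subgroup G) ⊓ P0 := ⟨hq, h1⟩
    rwa [trivial_intersection h P P0 hP0.symm, Subgroup.mem_bot] at this
  have hH4 : Nat.card H = 4 := by
    let f : ↥(P : Subgroup G) × H → N := fun x => ⟨(x.1 : G) * x.2, mul_mem (hPN x.1.2) x.2.2.1⟩
    have hb : Function.Bijective f := by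
      constructor
      · rintro ⟨a, u⟩ ⟨b, v⟩ hx
        have e : (a : G) * u = b * v := congrArg Subtype.val hx
        have h1 : (b : G)⁻¹ * a = v * (u : G)⁻¹ := by
          rw [eq_mul_inv_iff_mul_eq, mul_assoc, e, inv_mul_cancel_left]
        have h2 := hdisj _ (mul_mem (inv_mem b.2) a.2) (h1 ▸ mul_mem v.2 (inv_mem u.2))
        rw [inv_mul_eq_one] at h2
        subst_vars
        have hab : a = b := Subtype.ext h2.symm
        subst hab
        exact Prod.ext rfl (Subtype.ext (mul_left_cancel e))
      · rintro ⟨n, hn⟩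
        obtain ⟨q, hq, hq'⟩ := hsplit n hn
        exact ⟨(⟨q, hq⟩, ⟨_, hq'⟩), Subtype.ext (mul_inv_cancel_left q n)⟩
    have := Nat.card_congr (Equiv.ofBijective f hb)
    rw [Nat.card_prod, h9, hN36] at this
    omega
  have hfaith : ∀ u ∈ H, (∀ q ∈ (P : Subgroup G), u * q * u⁻¹ = q) → u = 1 := by
    intro u hu hc
    refine hρ ?_
    rw [map_one]
    refine Equiv.ext fun S => ?_
    show u • S = S
    by_cases hS : S = P
    · rw [hS]; exact (hNmem u).1 hu.1
    · obtain ⟨q, hq, rfl⟩ := regular h P P0 S hP0 hS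
      rw [← mul_smul, show u * q = q * u by rw [← mul_inv_eq_iff_eq_mul]; exact hc q hq, mul_smul,
        hu.2]
  have hconj : ∀ u ∈ N, ∀ q ∈ (P : Subgroup G), u * q * u⁻¹ ∈ (P : Subgroup G) := fun u hu q hq =>
    (Subgroup.mem_normalizer_iff.1 hu q).1 hq
  -- exponent three
  have hexp : ∀ q ∈ (P : Subgroup G), q ^ 3 = 1 := by
    intro q hq
    by_contra h3
    have ho : orderOf q = 9 := by
      refine orderOf_eq_prime_pow (p := 3) (n := 1) (by simpa using h3) ?_
      simpa using hpow q hq
    have hz : Subgroup.zpowers q = (P : Subgroup G) :=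
      Subgroup.eq_of_le_of_card_ge ((Subgroup.zpowers_le).2 hq) (by rw [Nat.card_zpowers, ho, h9])
    haveI : IsCyclic (P : Subgroup G) := hz ▸ inferInstance
    let c : H →* MulAut (P : Subgroup G) :=
      (Subgroup.normalizerMonoidHom (P : Subgroup G)).comp (Subgroup.inclusion inf_le_left)
    have hc : Function.Injective c := by
      refine (injective_iff_map_eq_one c).2 fun u hu => Subtype.ext ?_
      exact hfaith u u.2 fun x hx =>
        congrArg Subtype.val (congrArg (fun σ : MulAut (P : Subgroup G) => σ ⟨x, hx⟩) hu)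
    have hd := Subgroup.card_dvd_of_injective c hc
    rw [IsCyclic.card_mulAut, h9, hH4, show Nat.totient 9 = 6 by decide] at hd
    norm_num at hd
  -- coordinates
  let word : G → G → ZMod 3 × ZMod 3 → G := fun a b v => a ^ v.1.val * b ^ v.2.val
  have hpm : ∀ (q : G), q ∈ (P : Subgroup G) → ∀ m n : ℕ, m % 3 = n % 3 → q ^ m = q ^ n := by
    intro q hq m n e
    rw [← Nat.mod_add_div m 3, ← Nat.mod_add_div n 3, e, pow_add, pow_add, pow_mul, pow_mul,
      hexp q hq, one_pow, one_pow]
  have hwadd : ∀ a ∈ (P : Subgroup G), ∀ b ∈ (P : Subgroup G), ∀ v w,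
      word a b (v + w) = word a b v * word a b w := by
    intro a ha b hb v w
    have hc : Commute (b ^ v.2.val) (a ^ w.1.val) :=
      sylow_comm h P (pow_mem hb _) (pow_mem ha _)
    simp only [word, Prod.fst_add, Prod.snd_add]
    rw [hpm a ha (v.1 + w.1).val (v.1.val + w.1.val) (by rw [ZMod.val_add]; omega),
      hpm b hb (v.2 + w.2).val (v.2.val + w.2.val) (by rw [ZMod.val_add]; omega), pow_add, pow_add]
    rw [mul_assoc, ← mul_assoc (a ^ w.1.val), ← mul_assoc (a ^ v.1.val)]
    simp only [mul_assoc]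
    congr 1
    rw [← mul_assoc, ← hc.eq, mul_assoc]
  have hwmem : ∀ a ∈ (P : Subgroup G), ∀ b ∈ (P : Subgroup G), ∀ v, word a b v ∈ (P : Subgroup G) :=
    fun a ha b hb v => mul_mem (pow_mem ha _) (pow_mem hb _)
  have hwinj : ∀ a ∈ (P : Subgroup G), ∀ b ∈ (P : Subgroup G), a ≠ 1 →
      b ∉ Subgroup.zpowers a → ∀ v, word a b v = 1 → v = 0 := by
    intro a ha b hb ha1 hba v hv
    have hj : v.2 = 0 := by
      by_contra hj
      apply hba
      have hb' : b ^ v.2.val = (a ^ v.1.val)⁻¹ := eq_inv_of_mul_eq_one_right hv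
      have hbz : b ^ v.2.val ∈ Subgroup.zpowers a :=
        hb' ▸ inv_mem (pow_mem (Subgroup.mem_zpowers a) _)
      have : v.2.val = 1 ∨ v.2.val = 2 := by
        have := ZMod.val_lt v.2
        have h0 : v.2.val ≠ 0 := fun e => hj ((ZMod.val_eq_zero _).1 e)
        omega
      rcases this with e | e <;> rw [e] at hbz
      · simpa using hbz
      · have hb2 : b = (b ^ 2)⁻¹ := eq_inv_of_mul_eq_one_left (by
          rw [← pow_succ']; exact hexp b hb)
        exact hb2 ▸ inv_mem hbz
    have hv' : a ^ v.1.val = 1 := by simpa [word, hj] using hv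
    have h3 : orderOf a = 3 := orderOf_eq_prime (hexp a ha) ha1
    have hd := orderOf_dvd_of_pow_eq_one hv'
    rw [h3] at hd
    have hi : v.1 = 0 := (ZMod.val_eq_zero _).1
      (Nat.eq_zero_of_dvd_of_lt hd (ZMod.val_lt v.1))
    exact Prod.ext hi hj
  -- bijective labelling
  have hlab : ∀ a ∈ (P : Subgroup G), ∀ b ∈ (P : Subgroup G), a ≠ 1 → b ∉ Subgroup.zpowers a →
      ∃ e : X ≃ Sylow 3 G, e none = P ∧ ∀ v, e (some v) = word a b v • P0 := by
    intro a ha b hb ha1 hba
    let f : X → Sylow 3 G := fun x => x.elim P (fun v => word a b v • P0)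
    have hne : ∀ v, word a b v • P0 ≠ P := fun v e => hP0 (by
      have := congrArg ((word a b v)⁻¹ • ·) e
      simpa [(hNmem _).1 (inv_mem (hPN (hwmem a ha b hb v)))] using this)
    have hinj : Function.Injective f := by
      rintro (_ | v) (_ | w) e
      · rfl
      · exact absurd e.symm (hne w)
      · exact absurd e (hne v)
      · have e' : word a b v • P0 = word a b w • P0 := e
        congr 1
        rw [← sub_eq_zero]
        apply hwinj a ha b hb ha1 hba
        have hm := hwmem a ha b hb (v - w)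
        refine hdisj _ hm ⟨hPN hm, ?_⟩
        have hh : word a b w * word a b (v - w) = word a b v := by
          rw [← hwadd a ha b hb, add_sub_cancel]
        show (word a b (v - w)) • P0 = P0
        apply smul_left_cancel (word a b w)
        rw [← mul_smul, hh]; exact e'
    refine ⟨Equiv.ofBijective f (hinj.bijective_of_nat_card_le ?_), rfl, fun v => rfl⟩
    rw [h10, Nat.card_eq_fintype_card]
    decide
  have hzc : ∀ a ∈ (P : Subgroup G), ∃ b ∈ (P : Subgroup G), b ∉ Subgroup.zpowers a := by
    intro a ha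
    by_contra hno
    push Not at hno
    have h1 : Nat.card (P : Subgroup G) ≤ Nat.card (Subgroup.zpowers a) :=
      Nat.card_le_card_of_injective (fun x => ⟨x.1, hno x x.2⟩)
        (fun x y e => Subtype.ext (congrArg (Subtype.val : Subgroup.zpowers a → G) e))
    rw [h9, Nat.card_zpowers] at h1
    have := Nat.le_of_dvd (by norm_num) (orderOf_dvd_of_pow_eq_one (hexp a ha))
    omega
  have hconjw : ∀ u : G, ∀ a b v, u * word a b v * u⁻¹ = word (u * a * u⁻¹) (u * b * u⁻¹) v := by
    intro u a b v
    simp only [word, conj_pow]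
    group
  -- the linear action of `H`
  have hlin : ∀ (a b : G) (e : X ≃ Sylow 3 G) (i j k l : ZMod 3) (u : G),
      a ∈ (P : Subgroup G) → b ∈ (P : Subgroup G) → e none = P →
      (∀ v, e (some v) = word a b v • P0) → u ∈ H → u * a * u⁻¹ = word a b (i, j) →
      u * b * u⁻¹ = word a b (k, l) →
      ⇑(e.symm.permCongr (ρ u)) = linF i j k l := by
    intro a b e i j k l u ha hb he hes hu hua hub
    funext x
    rw [Equiv.permCongr_apply, Equiv.symm_symm, Equiv.symm_apply_eq]
    show u • e x = _
    cases x with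
    | none => simp [linF, he, (hNmem u).1 hu.1]
    | some v =>
        simp only [linF, Option.map_some]
        rw [hes, hes, ← mul_smul]
        have hk : ∀ (n : ℕ) (w : ZMod 3 × ZMod 3), word a b w ^ n = word a b ((n : ZMod 3) * w.1, (n : ZMod 3) * w.2) := by
          intro n w
          induction n with
          | zero => simp [word]
          | succ n ih =>
              rw [pow_succ, ih, ← hwadd a ha b hb]
              congr 1
              ext <;> simp only [Prod.fst_add, Prod.snd_add] <;> push_cast <;> ring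
        have key : u * word a b v * u⁻¹ = word a b (i * v.1 + k * v.2, j * v.1 + l * v.2) := by
          rw [hconjw, hua, hub]
          show word a b (i, j) ^ v.1.val * word a b (k, l) ^ v.2.val = _
          rw [hk, hk, ← hwadd a ha b hb]
          simp [ZMod.natCast_zmod_val, mul_comm]
        have : u⁻¹ • P0 = P0 := by
          conv_lhs => rw [← hu.2]
          rw [inv_smul_smul]
        rw [← key, mul_smul (u * word a b v) u⁻¹, this]
  have hrep : ∀ a ∈ (P : Subgroup G), ∀ b ∈ (P : Subgroup G), a ≠ 1 → b ∉ Subgroup.zpowers a →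
      ∀ q ∈ (P : Subgroup G), ∃ v, word a b v = q := by
    intro a ha b hb ha1 hba q hq
    let f : ZMod 3 × ZMod 3 → (P : Subgroup G) := fun v => ⟨word a b v, hwmem a ha b hb v⟩
    have hf : Function.Injective f := by
      intro v w e
      rw [← sub_eq_zero]
      apply hwinj a ha b hb ha1 hba
      have e' : word a b v = word a b w := congrArg Subtype.val e
      have hh : word a b w * word a b (v - w) = word a b v := by
        rw [← hwadd a ha b hb, add_sub_cancel]
      rw [e'] at hh
      exact mul_eq_left.1 hh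
    obtain ⟨v, hv⟩ := (hf.bijective_of_nat_card_le (by rw [h9]; simp)).2 ⟨q, hq⟩
    exact ⟨v, congrArg Subtype.val hv⟩
  -- evenness
  have hsign : ∀ (e : X ≃ Sylow 3 G) (g : G), Equiv.Perm.sign (e.symm.permCongr (ρ g)) = 1 := by
    intro e g
    haveI := Fintype.ofFinite (Sylow 3 G)
    rw [Equiv.Perm.sign_permCongr]
    let s : G →* ℤˣ := Equiv.Perm.sign.comp ρ
    rcases s.normal_ker.eq_bot_or_eq_top with hb | ht
    · have hd := Subgroup.card_dvd_of_injective s ((MonoidHom.ker_eq_bot_iff s).1 hb)
      rw [h, Nat.card_eq_fintype_card, Fintype.card_units_int] at hd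
      norm_num at hd
    · exact MonoidHom.mem_ker.1 (ht ▸ Subgroup.mem_top g : g ∈ s.ker)
  obtain ⟨a, ha, ha1⟩ : ∃ a ∈ (P : Subgroup G), a ≠ 1 := by
    by_contra hno
    push Not at hno
    have : (P : Subgroup G) = ⊥ := (Subgroup.eq_bot_iff_forall _).2 hno
    rw [this, Subgroup.card_bot] at h9; omega
  obtain ⟨b0, hb0, hb0a⟩ := hzc a ha
  obtain ⟨e0, he0, he0s⟩ := hlab a ha b0 hb0 ha1 hb0a
  obtain ⟨u, hu, hu2, hua1⟩ : ∃ u ∈ H, (∀ q ∈ (P : Subgroup G), u * u * q * (u * u)⁻¹ = q⁻¹) ∧
      u * a * u⁻¹ ∉ Subgroup.zpowers a := by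
    by_contra hno
    push Not at hno
    let f : H → Bool := fun u => decide (u.1 * a * u.1⁻¹ = a)
    suffices hinj : Function.Injective f by
      have := Nat.card_le_card_of_injective f hinj
      rw [hH4, Nat.card_eq_fintype_card, Fintype.card_bool] at this
      omega
    have hcase : ∀ u : H, (∀ q ∈ (P : Subgroup G), u.1 * q * u.1⁻¹ = q) ∨
        (∀ q ∈ (P : Subgroup G), u.1 * q * u.1⁻¹ = q⁻¹) := by
      rintro ⟨u, hu⟩
      obtain ⟨⟨i, j⟩, hij⟩ := hrep a ha b0 hb0 ha1 hb0a _ (hconj u hu.1 a ha)
      obtain ⟨⟨k, l⟩, hkl⟩ := hrep a ha b0 hb0 ha1 hb0a _ (hconj u hu.1 b0 hb0)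
      have hco := hlin a b0 e0 i j k l u ha hb0 he0 he0s hu hij.symm hkl.symm
      have h4 : (e0.symm.permCongr (ρ u)) ^ 4 = 1 := by
        have hu4 : u ^ 4 = 1 := by
          have := orderOf_dvd_natCard (⟨u, hu⟩ : H)
          rw [hH4, orderOf_dvd_iff_pow_eq_one] at this
          simpa using congrArg Subtype.val this
        have := congrArg (fun π => e0.symm.permCongrHom (ρ π)) hu4
        simp only [map_pow, map_one] at this
        exact this
      have hE := linE_coe i j k l _ hco h4
      have hl4 : linF i j k l ∘ linF i j k l ∘ linF i j k l ∘ linF i j k l = id := by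
        rw [← hco]
        funext x
        have := congrArg (fun σ : Equiv.Perm X => σ x) h4
        simpa [pow_succ, Equiv.Perm.mul_apply] using this
      have hw10 : word a b0 (1, 0) = a := by simp [word, ZMod.val_one]
      rcases linF_even i j k l hl4 (hE ▸ hsign e0 u) with hc | hc | ⟨hc, hj⟩
      · left
        intro q hq
        obtain ⟨⟨x, y⟩, rfl⟩ := hrep a ha b0 hb0 ha1 hb0a q hq
        have h1 := congrFun hc (some (1, 0))
        have h2 := congrFun hc (some (0, 1))
        simp [linF] at h1 h2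
        rw [hconjw, ← hij, ← hkl, h1.1, h1.2, h2.1, h2.2]
        simp [word, ZMod.val_one]
      · right
        intro q hq
        obtain ⟨⟨x, y⟩, rfl⟩ := hrep a ha b0 hb0 ha1 hb0a q hq
        have h1 := congrFun hc (some (1, 0))
        have h2 := congrFun hc (some (0, 1))
        simp [linF] at h1 h2
        rw [hconjw, ← hij, ← hkl, h1.1, h1.2, h2.1, h2.2]
        apply eq_inv_of_mul_eq_one_left
        have e2a : word a b0 ((2 : ZMod 3), 0) = a⁻¹ := by
          apply eq_inv_of_mul_eq_one_left
          simp only [word, ZMod.val_zero, pow_zero, mul_one]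
          rw [← pow_succ]; exact hexp a ha
        have e2b : word a b0 (0, (2 : ZMod 3)) = b0⁻¹ := by
          apply eq_inv_of_mul_eq_one_left
          simp only [word, ZMod.val_zero, pow_zero, one_mul]
          rw [← pow_succ]; exact hexp b0 hb0
        rw [e2a, e2b]
        simp only [word, inv_pow]
        have hc2 : Commute (a ^ x.val) (b0 ^ y.val) := sylow_comm h P (pow_mem ha _) (pow_mem hb0 _)
        rw [hc2.inv_inv.eq]
        group
      · exfalso
        have huu : ∀ q ∈ (P : Subgroup G), u * u * q * (u * u)⁻¹ = q⁻¹ := by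
          intro q hq
          obtain ⟨v, rfl⟩ := hrep a ha b0 hb0 ha1 hb0a q hq
          have h1 : e0.symm.permCongr (ρ u) (e0.symm.permCongr (ρ u) (some v)) = some (-v) := by
            rw [hco]; exact hc v
          simp only [Equiv.permCongr_apply, Equiv.symm_symm, Equiv.apply_symm_apply] at h1
          rw [Equiv.symm_apply_eq, he0s, he0s] at h1
          have h1' : (u * (u * word a b0 v)) • P0 = word a b0 (-v) • P0 := by
            rw [mul_smul, mul_smul]; exact h1
          have hneg : word a b0 (-v) = (word a b0 v)⁻¹ := by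
            apply eq_inv_of_mul_eq_one_left
            rw [← hwadd a ha b0 hb0, neg_add_cancel]; simp [word]
          have hm : (word a b0 v) * (u * u * word a b0 v * (u * u)⁻¹) ∈ H := by
            have hm1 : (word a b0 v) * (u * u * word a b0 v * (u * u)⁻¹) ∈ N :=
              mul_mem (hPN (hwmem a ha b0 hb0 v))
                (mul_mem (mul_mem (mul_mem hu.1 hu.1) (hPN (hwmem a ha b0 hb0 v))) (inv_mem (mul_mem hu.1 hu.1)))
            refine ⟨hm1, ?_⟩
            have huP : (u * u)⁻¹ • P0 = P0 := by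
              have : (u * u) • P0 = P0 := by rw [mul_smul, hu.2, hu.2]
              conv_lhs => rw [← this]
              rw [inv_smul_smul]
            show (word a b0 v * (u * u * word a b0 v * (u * u)⁻¹)) • P0 = P0
            rw [mul_smul, mul_smul (u * u * word a b0 v), huP, mul_assoc u u,
              h1', hneg, smul_inv_smul]
          have := hdisj _ (mul_mem (hwmem a ha b0 hb0 v) (hconj _ (mul_mem hu.1 hu.1) _ (hwmem a ha b0 hb0 v))) hm
          exact eq_inv_of_mul_eq_one_right this
        have hmem := hno u hu huu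
        obtain ⟨m, hm⟩ := Subgroup.mem_zpowers_iff.1 hmem
        rw [← hij] at hm
        -- the second coordinate vanishes
        have ho : orderOf a = 3 := orderOf_eq_prime (hexp a ha) ha1
        have hm' : a ^ m = word a b0 ((m : ZMod 3), 0) := by
          simp only [word, ZMod.val_zero, pow_zero, mul_one]
          rw [← zpow_natCast, ZMod.val_intCast]
          exact (zpow_mod_orderOf a m).symm.trans (by rw [ho])
        rw [hm'] at hm
        have e1 : e0 (some ((m : ZMod 3), 0)) = e0 (some (i, j)) := by rw [he0s, he0s, hm]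
        exact hj (Prod.mk.inj (Option.some.inj (e0.injective e1))).2.symm
    rintro x y hxy
    have key : ∀ u : H, (∀ q ∈ (P : Subgroup G), u.1 * q * u.1⁻¹ = q) ↔ u.1 * a * u.1⁻¹ = a := by
      intro u
      refine ⟨fun hh => hh a ha, fun hh => ?_⟩
      rcases hcase u with hc | hc
      · exact hc
      · exfalso
        rw [hc a ha, inv_eq_iff_mul_eq_one, ← pow_two] at hh
        apply ha1
        have h3 := hexp a ha
        rw [pow_succ, hh, one_mul] at h3
        exact h3
    simp only [f, decide_eq_decide] at hxy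
    have : ∀ q ∈ (P : Subgroup G), (y⁻¹ * x : G) * q * (y⁻¹ * x : G)⁻¹ = q := by
      intro q hq
      have hi : x.1 * q * x.1⁻¹ = y.1 * q * y.1⁻¹ := by
        rcases hcase x with hc | hc
        · rw [hc q hq, (key y).2 (hxy.1 ((key x).1 hc)) q hq]
        · rcases hcase y with hd | hd
          · rw [(key x).2 (hxy.2 ((key y).1 hd)) q hq, hd q hq]
          · rw [hc q hq, hd q hq]
      calc (y⁻¹ * x : G) * q * (y⁻¹ * x : G)⁻¹ = y.1⁻¹ * (x.1 * q * x.1⁻¹) * y.1 := by
            simp [mul_assoc]
        _ = q := by rw [hi]; group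
    have hh := hfaith _ (mul_mem (inv_mem y.2) x.2) this
    exact Subtype.ext (inv_mul_eq_one.1 hh).symm
  -- the final basis
  have hb : u * a * u⁻¹ ∈ (P : Subgroup G) := hconj u hu.1 a ha
  set b := u * a * u⁻¹ with hbdef
  obtain ⟨e, he, hes⟩ := hlab a ha b hb ha1 hua1
  let T : G →* Equiv.Perm X := (e.symm.permCongrHom : Equiv.Perm (Sylow 3 G) →* Equiv.Perm X).comp ρ
  have hT : Function.Injective T := e.symm.permCongrHom.injective.comp hρ
  have hTapp : ∀ g x, T g x = e.symm (g • e x) := fun g x => rfl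
  have hTu : T u = JE := by
    apply Equiv.coe_fn_injective
    show ⇑(T u) = JF
    refine hlin a b e 0 1 2 0 u ha hb he hes hu (by simp [word, ZMod.val_one, hbdef]) ?_
    have := hu2 a ha
    have e2 : u * b * u⁻¹ = a⁻¹ := by rw [← this, hbdef]; group
    rw [e2]
    symm
    apply eq_inv_of_mul_eq_one_left
    simp only [word, ZMod.val_zero, pow_zero, mul_one]
    rw [← pow_succ]; exact hexp a ha
  have hTq : ∀ v, T (word a b v) = trE v := by
    intro v
    refine Equiv.ext fun x => ?_
    rw [hTapp, Equiv.symm_apply_eq]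
    cases x with
    | none =>
        show _ = e none
        rw [he]; exact (hNmem _).1 (hPN (hwmem a ha b hb v))
    | some w =>
        show _ = e (some (v + w))
        rw [hes, hes, hwadd a ha b hb, ← mul_smul]
  have hou : orderOf u = 4 := by
    have hu4 : u ^ 4 = 1 := by
      have := orderOf_dvd_natCard (⟨u, hu⟩ : H)
      rw [hH4, orderOf_dvd_iff_pow_eq_one] at this
      simpa using congrArg Subtype.val this
    refine orderOf_eq_prime_pow (p := 2) (n := 1) ?_ hu4
    intro h2
    rw [pow_one, pow_two] at h2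
    have := hu2 a ha
    rw [h2, one_mul, inv_one, mul_one, eq_inv_iff_mul_eq_one, ← pow_two] at this
    apply ha1
    have h3 := hexp a ha
    rw [pow_succ, this, one_mul] at h3
    exact h3
  have hHpow : ∀ x ∈ H, ∃ k : Fin 4, T x = JE ^ (k : ℕ) := by
    intro x hx
    have hz : Subgroup.zpowers u = H :=
      Subgroup.eq_of_le_of_card_ge ((Subgroup.zpowers_le).2 hu) (by rw [Nat.card_zpowers, hou, hH4])
    obtain ⟨n, hn⟩ := (Submonoid.mem_powers_iff _ _).1
      (mem_powers_iff_mem_zpowers.2 (hz.symm ▸ hx : x ∈ Subgroup.zpowers u))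
    refine ⟨⟨n % 4, Nat.mod_lt _ (by norm_num)⟩, ?_⟩
    show T x = JE ^ (n % 4)
    rw [← hn, ← hTu, ← map_pow, ← hou, pow_mod_orderOf]
  have hNform : ∀ n ∈ N, ∃ v k, T n = trE v * JE ^ ((k : Fin 4) : ℕ) := by
    intro n hn
    obtain ⟨q, hq, hq'⟩ := hsplit n hn
    obtain ⟨v, hv⟩ := hrep a ha b hb ha1 hua1 q hq
    obtain ⟨k, hk⟩ := hHpow _ hq'
    exact ⟨v, k, by rw [← hTq, ← hk, ← map_mul, hv, mul_inv_cancel_left]⟩
  -- an element exchanging the two points
  obtain ⟨g, hg⟩ := MulAction.exists_smul_eq G P P0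
  have hg0 : g • P0 ≠ P0 := fun e' => hP0 ((smul_left_cancel g (e'.trans hg.symm)))
  obtain ⟨n, hn, hne'⟩ := regular h P0 (g • P0) P hg0 hP0.symm
  set t := n * g with htdef
  have ht1 : t • P = P0 := by
    rw [htdef, mul_smul, hg]
    exact Sylow.smul_eq_iff_mem_normalizer.2 (Subgroup.le_normalizer hn)
  have ht2 : t • P0 = P := by rw [htdef, mul_smul, hne']
  have hnorm : ∀ x ∈ H, t * x * t⁻¹ ∈ H := by
    intro x hx
    have hi1 : t⁻¹ • P = P0 := by rw [inv_smul_eq_iff, ht2]
    have hi2 : t⁻¹ • P0 = P := by rw [inv_smul_eq_iff, ht1]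
    refine ⟨(hNmem _).2 ?_, ?_⟩
    · rw [mul_smul, mul_smul, hi1, hx.2, ht2]
    · show (t * x * t⁻¹) • P0 = P0
      rw [mul_smul, mul_smul, hi2, (hNmem x).1 hx.1, ht1]
  obtain ⟨k, hk⟩ := hHpow _ (hnorm u hu)
  have hk' : k = 1 ∨ k = 3 := by
    have : orderOf (T (t * u * t⁻¹)) = 4 := by
      rw [orderOf_injective T hT]
      conv_rhs => rw [← hou]
      exact orderOf_injective (MulAut.conj t).toMonoidHom (MulAut.conj t).injective u
    fin_cases k
    · rw [hk] at this; simp at this
    · left; rfl
    · exfalso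
      rw [hk] at this
      have h4 : (JE ^ 2) ^ 2 = 1 := by
        rw [← pow_mul, ← hTu, ← map_pow, show 2 * 2 = orderOf u by rw [hou], pow_orderOf_eq_one, map_one]
      have := orderOf_dvd_of_pow_eq_one h4
      simp_all
    · right; rfl
  set f : X → X := ⇑(T t) with hf
  have hfnone : f none = some (0, 0) := by
    rw [hf, hTapp, he, ht1, Equiv.symm_apply_eq, hes]; simp [word]
  have hfzero : f (some (0, 0)) = none := by
    rw [hf, hTapp, hes, Equiv.symm_apply_eq, he]; simp [word, ht2]
  have hJ : ∀ x, f (JF x) = JPow k (f x) := by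
    intro x
    have h1 : T t * T u = T (t * u * t⁻¹) * T t := by rw [← map_mul, ← map_mul]; group
    rw [hTu, hk] at h1
    have := congrArg (fun π : Equiv.Perm X => π x) h1
    simp only [Equiv.Perm.mul_apply, JE_pow] at this
    exact this
  have hcand : f = cand (decide (k = 3)) (f (some (1, 0))) (f (some (1, 1))) := by
    funext x
    rcases x with _ | ⟨i, j⟩
    · exact hfnone
    have hchain : ∀ c : V, ∀ m : Fin 4, f (JPow m (some c)) =
        JPow (if decide (k = 3) then -m else m) (f (some c)) := by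
      intro c m
      have h2 : ∀ y, f (JF (JF y)) = JPow (k + k) (f y) := fun y => by
        rw [hJ, hJ]; exact congrFun (JPow_add k k) (f y)
      have h3 : ∀ y, f (JF (JF (JF y))) = JPow (k + (k + k)) (f y) := fun y => by
        rw [hJ, h2]; exact congrFun (JPow_add k (k + k)) (f y)
      rcases hk' with rfl | rfl <;> fin_cases m
      all_goals first
        | rfl
        | exact hJ (some c)
        | exact h2 (some c)
        | exact h3 (some c)
    rcases hk' with rfl | rfl <;> fin_cases i <;> fin_cases j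
    all_goals first
      | exact hfzero
      | exact hchain (1, 0) 0
      | exact hchain (1, 0) 1
      | exact hchain (1, 0) 2
      | exact hchain (1, 0) 3
      | exact hchain (1, 1) 0
      | exact hchain (1, 1) 1
      | exact hchain (1, 1) 2
      | exact hchain (1, 1) 3
  have hdec : ∀ g : G, (∃ v k, T g = trE v * JE ^ ((k : Fin 4) : ℕ)) ∨
      ∃ v w k, T g = trE v * T t * (trE w * JE ^ ((k : Fin 4) : ℕ)) := by
    intro g
    by_cases hgP : g • P = P
    · exact Or.inl (hNform g ((hNmem g).2 hgP))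
    · obtain ⟨q, hq, hqe⟩ := regular h P P0 (g • P) hP0 hgP
      obtain ⟨v, hv⟩ := hrep a ha b hb ha1 hua1 q hq
      have hm : (q * t)⁻¹ * g ∈ N := by
        rw [hNmem, mul_smul, ← hqe, inv_smul_eq_iff, mul_smul, ht1]
      obtain ⟨w, k, hwk⟩ := hNform _ hm
      refine Or.inr ⟨v, w, k, ?_⟩
      rw [← hwk, ← hTq, hv, ← map_mul, ← map_mul, mul_inv_cancel_left]
  have hclosed : Closed f := by
    rcases hdec (t * word a b (1, 0) * t) with ⟨v, k, hvk⟩ | ⟨v, w, k, hvk⟩
    · left
      refine ⟨v, k, ?_⟩
      rw [map_mul, map_mul, hTq] at hvk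
      have := congrArg (fun π : Equiv.Perm X => ⇑π) hvk
      simp only [Equiv.Perm.coe_mul, JE_pow] at this
      exact this
    · right
      refine ⟨v, w, k, ?_⟩
      rw [map_mul, map_mul, hTq] at hvk
      have := congrArg (fun π : Equiv.Perm X => ⇑π) hvk
      simp only [Equiv.Perm.coe_mul, JE_pow] at this
      exact this
  have hinjf : Function.Injective f := (T t).injective
  obtain ⟨m, hm⟩ := cand_closed (decide (k = 3)) (f (some (1, 0))) (f (some (1, 1)))
    (hcand ▸ hinjf) (hcand ▸ hclosed)
  rw [← hcand] at hm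
  have hTt : T t = tE * JE ^ (m : ℕ) := by
    apply Equiv.coe_fn_injective
    show f = _
    rw [hm]
    show tF ∘ JPow m = ⇑(tE * JE ^ (m : ℕ))
    rw [Equiv.Perm.coe_mul, JE_pow]
    rfl
  have hrange : T.range = K := by
    apply le_antisymm
    · rintro _ ⟨g, rfl⟩
      rcases hdec g with ⟨v, k, hvk⟩ | ⟨v, w, k, hvk⟩ <;> rw [hvk]
      · exact mul_mem (trE_mem v) (pow_mem JE_mem _)
      · rw [hTt]
        exact mul_mem (mul_mem (trE_mem v) (mul_mem tE_mem (pow_mem JE_mem _)))
          (mul_mem (trE_mem w) (pow_mem JE_mem _))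
    · rw [K, Subgroup.closure_le]
      rintro π (⟨v, rfl⟩ | rfl | rfl)
      · exact ⟨_, hTq v⟩
      · exact ⟨u, hTu⟩
      · refine ⟨t * (u ^ (m : ℕ))⁻¹, ?_⟩
        rw [map_mul, map_inv, map_pow, hTt, hTu, mul_inv_cancel_right]
  exact ⟨(MonoidHom.ofInjective hT).trans (MulEquiv.subgroupCongr hrange)⟩

theorem nonempty_equiv {G' : Type*} [Group G'] [Finite G'] [IsSimpleGroup G']
    (h : Nat.card G = 360) (h' : Nat.card G' = 360) : Nonempty (G ≃* G') := by
  obtain ⟨e⟩ := nonempty_equiv_model h
  obtain ⟨e'⟩ := nonempty_equiv_model h'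
  exact ⟨e.trans e'.symm⟩

end Cfsg.Lib.Recog.ThreeSixty
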